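import Mathlib

/-!
# helper16: covering the `p`-elements of a group generated by `p`-elements (S4182)

If a finite group is generated by its `p`-elements, at least `p + 1` proper subgroups are needed
to cover them.
-/

set_option autoImplicit false

namespace Cfsg.Agent.H16

open scoped Nat Pointwise

universe u v

/-- A finite `p`-group is not the union of at most `p` proper subgroups. -/
theorem pgroup_not_union_le_p {P : Type*} [Group P] [Finite P] (p : ℕ) [Fact p.Prime]
    (hP : IsPGroup p P) {ι : Type*} [Fintype ι] (H : ι → Subgroup P)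
    (hcov : ∀ x : P, ∃ i, x ∈ H i) (hι : Fintype.card ι ≤ p) : ∃ i, H i = ⊤ := by
  classical
  by_contra hne
  push Not at hne
  have hp : p.Prime := Fact.out
  have hFP : Fintype P := Fintype.ofFinite P
  obtain ⟨a, ha⟩ := IsPGroup.iff_card.mp hP
  have hcard : ∀ i, Nat.card (H i) ≤ Nat.card P / p := by
    intro i
    have h1 := Subgroup.card_mul_index (H i)
    have h2 : (H i).index ≠ 1 := fun h => hne i (Subgroup.index_eq_one.mp h)
    have h3 : (H i).index ∣ p ^ a := ha ▸ Subgroup.index_dvd_card (H i)
    obtain ⟨j, -, hj⟩ := (Nat.dvd_prime_pow hp).mp h3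
    have hj0 : j ≠ 0 := by
      rintro rfl
      exact h2 (by simpa using hj)
    have h4 : p ≤ (H i).index := by
      rw [hj]
      exact Nat.le_self_pow hj0 p
    rw [Nat.le_div_iff_mul_le hp.pos]
    calc Nat.card (H i) * p ≤ Nat.card (H i) * (H i).index := Nat.mul_le_mul_left _ h4
      _ = Nat.card P := h1
  have hsub : (Finset.univ.erase (1 : P)) ⊆
      Finset.univ.biUnion (fun i => (Finset.univ.filter (fun x => x ∈ H i)).erase 1) := by
    intro x hx
    rw [Finset.mem_erase] at hx
    obtain ⟨i, hi⟩ := hcov x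
    rw [Finset.mem_biUnion]
    exact ⟨i, Finset.mem_univ _,
      Finset.mem_erase.mpr ⟨hx.1, Finset.mem_filter.mpr ⟨Finset.mem_univ _, hi⟩⟩⟩
  have h1 := Finset.card_le_card hsub
  have h2 := Finset.card_biUnion_le (s := (Finset.univ : Finset ι))
    (t := fun i => (Finset.univ.filter (fun x => x ∈ H i)).erase (1 : P))
  have h3 : ∀ i, ((Finset.univ.filter (fun x => x ∈ H i)).erase (1 : P)).card
      = Nat.card (H i) - 1 := by
    intro i
    rw [Finset.card_erase_of_mem (Finset.mem_filter.mpr ⟨Finset.mem_univ _, (H i).one_mem⟩)]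
    congr 1
    rw [Nat.card_eq_fintype_card, Fintype.card_subtype]
  rw [Finset.card_erase_of_mem (Finset.mem_univ _), Finset.card_univ,
    ← Nat.card_eq_fintype_card] at h1
  have h4 : ∑ i : ι, ((Finset.univ.filter (fun x => x ∈ H i)).erase (1 : P)).card
      ≤ ∑ _i : ι, (Nat.card P / p - 1) := by
    apply Finset.sum_le_sum
    intro i _
    rw [h3 i]
    exact Nat.sub_le_sub_right (hcard i) 1
  rw [Finset.sum_const, Finset.card_univ, smul_eq_mul] at h4
  obtain ⟨i₀, -⟩ := hcov 1
  have h5 : 1 ≤ Nat.card P / p := le_trans Nat.card_pos (hcard i₀)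
  have h6 : p * (Nat.card P / p) ≤ Nat.card P := Nat.mul_div_le _ _
  have h7 : Fintype.card ι * (Nat.card P / p - 1) ≤ p * (Nat.card P / p - 1) :=
    Nat.mul_le_mul_right _ hι
  have h8 : p * (Nat.card P / p - 1) = p * (Nat.card P / p) - p := Nat.mul_sub_one p _
  have h9 : p ≤ p * (Nat.card P / p) := Nat.le_mul_of_pos_right p h5
  have h10 := hp.two_le
  omega

theorem mem_map_conj_iff {G : Type*} [Group G] (M : Subgroup G) (g x : G) :
    x ∈ M.map (MulAut.conj g).toMonoidHom ↔ g⁻¹ * x * g ∈ M := by
  constructor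
  · rintro ⟨m, hm, rfl⟩
    have h1 : g⁻¹ * ((MulAut.conj g).toMonoidHom m) * g = m := by
      change g⁻¹ * (g * m * g⁻¹) * g = m
      group
    rw [h1]
    exact hm
  · intro h
    refine ⟨g⁻¹ * x * g, h, ?_⟩
    change g * (g⁻¹ * x * g) * g⁻¹ = x
    group

theorem cover_pElts_aux (p : ℕ) [Fact p.Prime] :
    ∀ (n : ℕ) (G : Type u) [Group G] [Finite G], Nat.card G = n →
      Subgroup.closure {g : G | ∃ k : ℕ, orderOf g = p ^ k} = ⊤ →
      ∀ (ι : Type v) [Fintype ι] (K : ι → Subgroup G), (∀ i, K i ≠ ⊤) →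
        (∀ g : G, (∃ k : ℕ, orderOf g = p ^ k) → ∃ i, g ∈ K i) → p + 1 ≤ Fintype.card ι := by
  intro n
  induction n using Nat.strong_induction_on with
  | _ n ih =>
    intro G _ _ hn hgen ι _ K hK hcov
    by_contra hlt
    have hι : Fintype.card ι ≤ p := by omega
    have hp : p.Prime := Fact.out
    classical
    -- every proper subgroup generated by `p`-elements lies in some `K i`
    have step1 : ∀ L : Subgroup G, L ≠ ⊤ →
        Subgroup.closure ({g : G | ∃ k : ℕ, orderOf g = p ^ k} ∩ (L : Set G)) = L →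
        ∃ i, L ≤ K i := by
      intro L hL hLgen
      by_contra hno
      push Not at hno
      have hcardL : Nat.card L < n := by
        rw [← hn]
        by_contra h
        push Not at h
        exact hL (Subgroup.eq_top_of_le_card L h)
      have hgenL : Subgroup.closure {g : L | ∃ k : ℕ, orderOf g = p ^ k} = ⊤ := by
        apply Subgroup.map_injective L.subtype_injective
        rw [MonoidHom.map_closure, ← MonoidHom.range_eq_map, Subgroup.range_subtype]
        conv_rhs => rw [← hLgen]
        congr 1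
        ext g
        constructor
        · rintro ⟨x, ⟨k, hk⟩, rfl⟩
          exact ⟨⟨k, by rw [← hk]; exact Subgroup.orderOf_coe x⟩, x.2⟩
        · rintro ⟨⟨k, hk⟩, hgL⟩
          exact ⟨⟨g, hgL⟩, ⟨k, by rw [← hk]; exact (Subgroup.orderOf_coe _).symm⟩, rfl⟩
      have h1 := ih _ hcardL L rfl hgenL ι (fun i => (K i).subgroupOf L)
        (fun i h => hno i (Subgroup.subgroupOf_eq_top.mp h)) (by
          rintro x ⟨k, hk⟩
          obtain ⟨i, hi⟩ := hcov (x : G) ⟨k, by rw [← hk]; exact Subgroup.orderOf_coe x⟩
          exact ⟨i, Subgroup.mem_subgroupOf.mpr hi⟩)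
      omega
    -- the subgroups generated by the `p`-elements of the `K i`
    set Lf : ι → Subgroup G := fun i =>
      Subgroup.closure ({g : G | ∃ k : ℕ, orderOf g = p ^ k} ∩ (K i : Set G)) with hLf
    have hLK : ∀ i, Lf i ≤ K i := fun i => (Subgroup.closure_le _).mpr Set.inter_subset_right
    have hLtop : ∀ i, Lf i ≠ ⊤ := fun i h => hK i (top_le_iff.mp (h ▸ hLK i))
    have step2 : ∀ L : Subgroup G, L ≠ ⊤ →
        Subgroup.closure ({g : G | ∃ k : ℕ, orderOf g = p ^ k} ∩ (L : Set G)) = L →
        ∃ i, L ≤ Lf i := by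
      intro L hL hLgen
      obtain ⟨i, hi⟩ := step1 L hL hLgen
      refine ⟨i, ?_⟩
      conv_lhs => rw [← hLgen]
      apply Subgroup.closure_mono
      exact Set.inter_subset_inter_right _ hi
    have hpgen : ∀ S : Set G, S ⊆ {g : G | ∃ k : ℕ, orderOf g = p ^ k} →
        Subgroup.closure ({g : G | ∃ k : ℕ, orderOf g = p ^ k} ∩
          (Subgroup.closure S : Set G)) = Subgroup.closure S := by
      intro S hS
      apply le_antisymm
      · exact (Subgroup.closure_le _).mpr Set.inter_subset_right
      · apply Subgroup.closure_mono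
        exact fun x hx => ⟨hS hx, Subgroup.subset_closure hx⟩
    have hconjgen : ∀ (g : G) (i : ι),
        Subgroup.closure ({g : G | ∃ k : ℕ, orderOf g = p ^ k} ∩
          (((Lf i).map (MulAut.conj g).toMonoidHom : Subgroup G) : Set G))
          = (Lf i).map (MulAut.conj g).toMonoidHom := by
      intro g i
      have h1 : (Lf i).map (MulAut.conj g).toMonoidHom = Subgroup.closure
          ((MulAut.conj g).toMonoidHom ''
            ({g : G | ∃ k : ℕ, orderOf g = p ^ k} ∩ (K i : Set G))) :=
        MonoidHom.map_closure _ _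
      rw [h1]
      apply hpgen
      rintro _ ⟨x, ⟨⟨k, hk⟩, -⟩, rfl⟩
      exact ⟨k, by rw [← hk]; exact MulEquiv.orderOf_eq (MulAut.conj g) x⟩
    have hconjtop : ∀ (g : G) (i : ι), (Lf i).map (MulAut.conj g).toMonoidHom ≠ ⊤ := by
      intro g i h
      apply hLtop i
      apply Subgroup.eq_top_of_le_card
      have h1 : Nat.card ((Lf i).map (MulAut.conj g).toMonoidHom) = Nat.card (Lf i) :=
        Subgroup.card_map_of_injective (K := Lf i) (f := (MulAut.conj g).toMonoidHom)
          (MulAut.conj g).injective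
      rw [h, Subgroup.card_top] at h1
      exact h1.le
    -- a Sylow subgroup lies in one of them
    obtain ⟨P⟩ : Nonempty (Sylow p G) := inferInstance
    have hPL : ∃ i, (P : Subgroup G) ≤ Lf i := by
      obtain ⟨i, hi⟩ := pgroup_not_union_le_p p P.isPGroup'
        (fun i => (K i).subgroupOf (P : Subgroup G)) (by
          intro x
          obtain ⟨k, hk⟩ := (IsPGroup.iff_orderOf.mp P.isPGroup') x
          obtain ⟨i, hi⟩ := hcov (x : G) ⟨k, by rw [← hk]; exact Subgroup.orderOf_coe x⟩
          exact ⟨i, Subgroup.mem_subgroupOf.mpr hi⟩) hι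
      refine ⟨i, ?_⟩
      have hPK : (P : Subgroup G) ≤ K i := Subgroup.subgroupOf_eq_top.mp hi
      intro x hx
      apply Subgroup.subset_closure
      refine ⟨?_, hPK hx⟩
      obtain ⟨k, hk⟩ := (IsPGroup.iff_orderOf.mp P.isPGroup') ⟨x, hx⟩
      exact ⟨k, by rw [← hk]; exact Subgroup.orderOf_coe (⟨x, hx⟩ : (P : Subgroup G))⟩
    obtain ⟨i₀, hi₀⟩ := hPL
    obtain ⟨j, hj, hjmax⟩ := Finset.exists_max_image
      (Finset.univ.filter (fun i => (P : Subgroup G) ≤ Lf i)) (fun i => Nat.card (Lf i))
      ⟨i₀, Finset.mem_filter.mpr ⟨Finset.mem_univ _, hi₀⟩⟩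
    have hPM : (P : Subgroup G) ≤ Lf j := (Finset.mem_filter.mp hj).2
    have hmax : ∀ l, Lf j ≤ Lf l → Lf l = Lf j := by
      intro l hl
      have h1 : Nat.card (Lf l) ≤ Nat.card (Lf j) :=
        hjmax l (Finset.mem_filter.mpr ⟨Finset.mem_univ _, hPM.trans hl⟩)
      exact (Subgroup.eq_of_le_of_card_ge hl h1).symm
    -- conjugates of `Lf j` are among the `Lf l`
    have hconj : ∀ g : G, ∃ l, (Lf j).map (MulAut.conj g).toMonoidHom = Lf l := by
      intro g
      obtain ⟨l, hl⟩ := step2 _ (hconjtop g j) (hconjgen g j)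
      refine ⟨l, le_antisymm hl ?_⟩
      obtain ⟨l', hl'⟩ := step2 _ (hconjtop g⁻¹ l) (hconjgen g⁻¹ l)
      have h1 : Lf j ≤ (Lf l).map (MulAut.conj g⁻¹).toMonoidHom := by
        intro x hx
        rw [mem_map_conj_iff]
        apply hl
        rw [mem_map_conj_iff]
        have e : g⁻¹ * (g⁻¹⁻¹ * x * g⁻¹) * g = x := by group
        rw [e]
        exact hx
      have h2 := hmax l' (h1.trans hl')
      rw [h2] at hl'
      intro y hy
      rw [mem_map_conj_iff]
      apply hl'
      rw [mem_map_conj_iff]
      have e : g⁻¹⁻¹ * (g⁻¹ * y * g) * g⁻¹ = y := by group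
      rw [e]
      exact hy
    -- the normalizer of `Lf j` has index less than `p`
    have hidx_le : (Subgroup.normalizer ((Lf j : Subgroup G) : Set G)).index ≤ p := by
      have hf : ∀ q : G ⧸ Subgroup.normalizer ((Lf j : Subgroup G) : Set G),
          ∃ l, (Lf j).map (MulAut.conj q.out).toMonoidHom = Lf l := fun q => hconj q.out
      choose f hf using hf
      have hinj : Function.Injective f := by
        intro q q' hqq
        have h1 : (Lf j).map (MulAut.conj q.out).toMonoidHom
            = (Lf j).map (MulAut.conj q'.out).toMonoidHom := by rw [hf q, hf q', hqq]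
        have h2 : q.out⁻¹ * q'.out ∈ Subgroup.normalizer ((Lf j : Subgroup G) : Set G) := by
          rw [Subgroup.mem_normalizer_iff]
          intro h
          have h3 := Subgroup.ext_iff.mp h1 (q'.out * h * q'.out⁻¹)
          rw [mem_map_conj_iff, mem_map_conj_iff] at h3
          have e1 : q'.out⁻¹ * (q'.out * h * q'.out⁻¹) * q'.out = h := by group
          have e2 : q.out⁻¹ * (q'.out * h * q'.out⁻¹) * q.out
              = q.out⁻¹ * q'.out * h * (q.out⁻¹ * q'.out)⁻¹ := by group
          rw [e1, e2] at h3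
          exact h3.symm
        rw [← QuotientGroup.out_eq' q, ← QuotientGroup.out_eq' q']
        exact QuotientGroup.eq.mpr h2
      rw [Subgroup.index_eq_card]
      have h1 := Nat.card_le_card_of_injective f hinj
      rw [Nat.card_eq_fintype_card (α := ι)] at h1
      exact h1.trans hι
    have hPN : (P : Subgroup G) ≤ Subgroup.normalizer ((Lf j : Subgroup G) : Set G) :=
      hPM.trans Subgroup.le_normalizer
    have hpndvd : ¬ p ∣ (Subgroup.normalizer ((Lf j : Subgroup G) : Set G)).index := by
      intro h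
      exact P.not_dvd_index (h.trans (Subgroup.index_dvd_of_le hPN))
    have hidx_lt : (Subgroup.normalizer ((Lf j : Subgroup G) : Set G)).index < p := by
      rcases hidx_le.lt_or_eq with h | h
      · exact h
      · exact absurd (h ▸ dvd_refl _) hpndvd
    -- so every `p`-element normalizes `Lf j`
    have hPelt : ∀ z : G, (∃ k : ℕ, orderOf z = p ^ k) →
        z ∈ Subgroup.normalizer ((Lf j : Subgroup G) : Set G) := by
      rintro z ⟨k, hk⟩
      have h1 : orderOf (MulAction.toPermHom G
          (G ⧸ Subgroup.normalizer ((Lf j : Subgroup G) : Set G)) z) ∣ p ^ k :=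
        hk ▸ orderOf_map_dvd _ z
      have h2 : orderOf (MulAction.toPermHom G
          (G ⧸ Subgroup.normalizer ((Lf j : Subgroup G) : Set G)) z) ∣
          ((Subgroup.normalizer ((Lf j : Subgroup G) : Set G)).index)! := by
        have h := orderOf_dvd_natCard (MulAction.toPermHom G
          (G ⧸ Subgroup.normalizer ((Lf j : Subgroup G) : Set G)) z)
        rwa [Nat.card_perm, ← Subgroup.index_eq_card] at h
      have hcop : Nat.Coprime (p ^ k)
          ((Subgroup.normalizer ((Lf j : Subgroup G) : Set G)).index)! := by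
        apply Nat.Coprime.pow_left
        rw [Nat.Prime.coprime_iff_not_dvd hp, hp.dvd_factorial]
        omega
      have h3 : orderOf (MulAction.toPermHom G
          (G ⧸ Subgroup.normalizer ((Lf j : Subgroup G) : Set G)) z) = 1 :=
        Nat.dvd_one.mp (hcop ▸ Nat.dvd_gcd h1 h2)
      have h4 := orderOf_eq_one_iff.mp h3
      have h5 : (MulAction.toPermHom G
          (G ⧸ Subgroup.normalizer ((Lf j : Subgroup G) : Set G)) z)
          (QuotientGroup.mk 1) = QuotientGroup.mk 1 := by
        rw [h4]
        rfl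
      have h6 : (QuotientGroup.mk (z * 1) :
          G ⧸ Subgroup.normalizer ((Lf j : Subgroup G) : Set G)) = QuotientGroup.mk 1 := h5
      rw [QuotientGroup.eq] at h6
      have h7 : z⁻¹ ∈ Subgroup.normalizer ((Lf j : Subgroup G) : Set G) := by simpa using h6
      exact (Subgroup.inv_mem_iff _).mp h7
    have hNtop : Subgroup.normalizer ((Lf j : Subgroup G) : Set G) = ⊤ := by
      rw [eq_top_iff, ← hgen, Subgroup.closure_le]
      exact fun z hz => hPelt z hz
    have hMnormal : ∀ g : G, (Lf j).map (MulAut.conj g).toMonoidHom = Lf j := by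
      intro g
      have hg : g ∈ Subgroup.normalizer ((Lf j : Subgroup G) : Set G) := by
        rw [hNtop]
        exact Subgroup.mem_top g
      ext x
      rw [mem_map_conj_iff, (Subgroup.mem_normalizer_iff.mp hg) (g⁻¹ * x * g)]
      have e : g * (g⁻¹ * x * g) * g⁻¹ = x := by group
      rw [e]
    -- hence `Lf j` contains every `p`-element
    have hall : ∀ z : G, (∃ k : ℕ, orderOf z = p ^ k) → z ∈ Lf j := by
      rintro z ⟨k, hk⟩
      have hz : IsPGroup p (Subgroup.zpowers z) := by
        apply IsPGroup.of_card (n := k)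
        rw [Nat.card_zpowers, hk]
      obtain ⟨Q, hQ⟩ := hz.exists_le_sylow
      obtain ⟨g, rfl⟩ := MulAction.exists_smul_eq G P Q
      have hzQ : z ∈ ((g • P : Sylow p G) : Subgroup G) := hQ (Subgroup.mem_zpowers z)
      have h1 : z ∈ (MulAut.conj g • (P : Subgroup G)) := by
        rw [← Sylow.pointwise_smul_def, ← Sylow.smul_def]
        exact hzQ
      rw [Subgroup.mem_pointwise_smul_iff_inv_smul_mem] at h1
      have h2 : g⁻¹ * z * g ∈ (P : Subgroup G) := by
        simpa [MulAut.smul_def, MulAut.conj_inv_apply] using h1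
      have h3 : g⁻¹ * z * g ∈ Lf j := hPM h2
      rw [← hMnormal g, mem_map_conj_iff]
      exact h3
    apply hLtop j
    rw [eq_top_iff, ← hgen, Subgroup.closure_le]
    exact fun z hz => hall z hz

end Cfsg.Agent.H16
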