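import Cfsg.Agent.H74.MCDefs

set_option autoImplicit false

/-!
# helper16: S4756-CARD for helper74 (|C_P(A)| * |G'| = |P|, from MC-CPA)
-/

namespace Cfsg.Agent.H16.MC

open Cfsg Cfsg.Agent.H74.MC

universe u

theorem card (hP : StCPA.{u}) : StCard.{u} := by
  intro G _ _ p _ P A hS hA
  haveI : P.Normal := hS.normal
  obtain ⟨a, ha, ha1⟩ := (Subgroup.ne_bot_iff_exists_ne_one.1 hA : ∃ a : ↥A, a ≠ 1) |>.imp
    (fun a h => h) |> fun ⟨a, h⟩ => (⟨(a : G), a.2, fun h1 => h (Subtype.ext h1)⟩ :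
      ∃ a : G, a ∈ A ∧ a ≠ 1)
  obtain ⟨K, hK⟩ : ∃ K : Subgroup G, K = Subgroup.centralizer ({a} : Set G) := ⟨_, rfl⟩
  have hPK : P ⊓ Subgroup.centralizer (A : Set G) = P ⊓ K := by
    ext v
    simp only [Subgroup.mem_inf]
    constructor
    · rintro ⟨h1, h2⟩
      refine ⟨h1, ?_⟩
      rw [hK]
      exact Subgroup.centralizer_le (Set.singleton_subset_iff.2 ha) h2
    · rintro ⟨h1, h2⟩
      refine ⟨h1, ?_⟩
      rw [hK, Subgroup.mem_centralizer_iff] at h2
      have h3 : a * v = v * a := h2 a (Set.mem_singleton a)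
      rw [Subgroup.mem_centralizer_iff]
      intro b hb
      exact hP G p P A hS a ha ha1 v h1 h3 b hb
  have haP : a ∉ P := by
    intro h
    have : a ∈ A ⊓ P := ⟨ha, h⟩
    rw [hS.inf, Subgroup.mem_bot] at this
    exact ha1 this
  have hc := hS.cent a haP
  rw [← hK] at hc
  have hAK : A ≤ K := by
    intro b hb
    rw [hK, Subgroup.mem_centralizer_iff]
    intro x hx
    rw [Set.mem_singleton_iff] at hx
    subst hx
    exact hS.abel x ha b hb
  have hKP : K ⊔ P = ⊤ := by
    rw [eq_top_iff, ← hS.sup]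
    exact sup_le_sup_right hAK P
  have hidx : P.index = (P ⊓ K).relIndex K := by
    rw [Subgroup.inf_relIndex_right, ← Subgroup.relIndex_sup_right (H := K) (K := P), hKP,
      Subgroup.relIndex_top_right]
  have hKc : Nat.card ↥(P ⊓ K) * (P ⊓ K).relIndex K = Nat.card ↥K := by
    have := Subgroup.relIndex_mul_relIndex (⊥ : Subgroup G) (P ⊓ K) K bot_le inf_le_right
    rw [Subgroup.relIndex_bot_left, Subgroup.relIndex_bot_left] at this
    exact this
  have hG : Nat.card ↥P * P.index = Nat.card G := Subgroup.card_mul_index P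
  have hpos : 0 < P.index := Nat.pos_of_ne_zero Subgroup.index_ne_zero_of_finite
  rw [hPK]
  rw [← hKc, ← hidx, ← hG] at hc
  have : Nat.card ↥(P ⊓ K) * Nat.card ↥(commutator G) * P.index = Nat.card ↥P * P.index := by
    rw [← hc]; ring
  exact Nat.eq_of_mul_eq_mul_right hpos this

end Cfsg.Agent.H16.MC
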