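import Cfsg.Agent.H74.MCDefs

set_option autoImplicit false

/-!
# helper16: S4756-CPA for helper74 (C_P(a) = C_P(A) for 1 ≠ a ∈ A, from MC-FPF)
-/

namespace Cfsg.Agent.H16.MC

open Cfsg Cfsg.Agent.H74.MC
open scoped commutatorElement

universe u

theorem cpa (hF : StFpf.{u}) : StCPA.{u} := by
  intro G _ _ p _ P A hS a ha ha1 v hv hav b hb
  have hw : b * v * b⁻¹ * v⁻¹ ∈ commutator G := by
    have h0 : ⁅b, v⁆ ∈ ⁅(⊤ : Subgroup G), ⊤⁆ :=
      Subgroup.commutator_mem_commutator (Subgroup.mem_top b) (Subgroup.mem_top v)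
    rw [commutatorElement_def] at h0
    exact h0
  have hab : a * b = b * a := hS.abel a ha b hb
  have h1 : a * b⁻¹ = b⁻¹ * a := hS.abel a ha b⁻¹ (A.inv_mem hb)
  have h2 : a * v⁻¹ = v⁻¹ * a := by
    calc a * v⁻¹ = v⁻¹ * (v * a) * v⁻¹ := by group
      _ = v⁻¹ * (a * v) * v⁻¹ := by rw [hav]
      _ = v⁻¹ * a := by group
  have hcomm : a * (b * v * b⁻¹ * v⁻¹) = (b * v * b⁻¹ * v⁻¹) * a := by
    calc a * (b * v * b⁻¹ * v⁻¹) = (a * b) * v * b⁻¹ * v⁻¹ := by group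
      _ = b * (a * v) * b⁻¹ * v⁻¹ := by rw [hab]; group
      _ = b * v * (a * b⁻¹) * v⁻¹ := by rw [hav]; group
      _ = b * v * b⁻¹ * (a * v⁻¹) := by rw [h1]; group
      _ = b * v * b⁻¹ * v⁻¹ * a := by rw [h2]; group
  have h3 := hF G p P A hS a ha ha1 _ hw hcomm
  rw [mul_inv_eq_one] at h3
  rw [mul_inv_eq_iff_eq_mul] at h3
  exact h3

end Cfsg.Agent.H16.MC
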