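import Cfsg.Agent.H74.MCDefs

set_option autoImplicit false

/-!
# helper16: S4756-SPLIT for helper74 (P = C_P(A) x [A,P], from MC-FPF, MC-DEQ, MC-CARD)
-/

namespace Cfsg.Agent.H16.MC

open Cfsg Cfsg.Agent.H74.MC

universe u

theorem split (hF : StFpf.{u}) (hD : StDEq.{u}) (hK : StCard.{u}) : StSplit.{u} := by
  intro G _ _ p _ P A hS hA
  have hDe := hD G p P A hS hA
  have hKc := hK G p P A hS hA
  rw [hDe]
  obtain ⟨C, hC⟩ : ∃ C : Subgroup G, C = P ⊓ Subgroup.centralizer (A : Set G) := ⟨_, rfl⟩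
  rw [← hC] at hKc ⊢
  obtain ⟨D, hDD⟩ : ∃ D : Subgroup G, D = commutator G := ⟨_, rfl⟩
  haveI hDn : D.Normal := by rw [hDD]; infer_instance
  rw [← hDD] at hKc ⊢
  obtain ⟨a, ha, ha1⟩ : ∃ a : G, a ∈ A ∧ a ≠ 1 := by
    obtain ⟨a, h⟩ := Subgroup.ne_bot_iff_exists_ne_one.1 hA
    exact ⟨(a : G), a.2, fun h1 => h (Subtype.ext h1)⟩
  have hinf : C ⊓ D = ⊥ := by
    rw [eq_bot_iff]
    intro x hx
    rw [Subgroup.mem_bot]
    obtain ⟨hx1, hx2⟩ := Subgroup.mem_inf.1 hx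
    rw [hC] at hx1
    have hx3 := (Subgroup.mem_inf.1 hx1).2
    rw [Subgroup.mem_centralizer_iff] at hx3
    have hx4 : x ∈ commutator G := by rw [← hDD]; exact hx2
    exact hF G p P A hS a ha ha1 x hx4 (hx3 a ha)
  refine ⟨?_, hinf⟩
  have hle : C ⊔ D ≤ P := by
    apply sup_le
    · rw [hC]; exact inf_le_left
    · rw [hDD]; exact hS.comm_le
  have hcard : Nat.card ↥(C ⊔ D) = Nat.card ↥C * Nat.card ↥D := by
    have h1 := Subgroup.relIndex_mul_relIndex (⊥ : Subgroup G) D (C ⊔ D) bot_le le_sup_right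
    rw [Subgroup.relIndex_bot_left, Subgroup.relIndex_bot_left,
      Subgroup.relIndex_sup_right, ← Subgroup.inf_relIndex_left, hinf,
      Subgroup.relIndex_bot_left] at h1
    rw [← h1, mul_comm]
  apply Subgroup.eq_of_le_of_card_ge hle
  rw [hcard, hKc]

end Cfsg.Agent.H16.MC
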