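import Cfsg.Agent.H74.MCDefs

set_option autoImplicit false

/-!
# helper16: S4756-UNIQ for helper74 (at most one prime whose full power exceeds sqrt N)
-/

namespace Cfsg.Agent.H16.MC

open Cfsg Cfsg.Agent.H74.MC

theorem uniq : StUniq := by
  intro N p q hN hp hq h1 h2
  by_contra hne
  have hcop : Nat.Coprime (p ^ N.factorization p) (q ^ N.factorization q) :=
    Nat.Coprime.pow _ _ ((Nat.coprime_primes hp hq).2 hne)
  have hdvd : p ^ N.factorization p * q ^ N.factorization q ∣ N :=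
    Nat.Coprime.mul_dvd_of_dvd_of_dvd hcop (Nat.ordProj_dvd N p) (Nat.ordProj_dvd N q)
  have hle := Nat.le_of_dvd hN hdvd
  obtain ⟨P, hP⟩ : ∃ P, P = p ^ N.factorization p := ⟨_, rfl⟩
  obtain ⟨Q, hQ⟩ : ∃ Q, Q = q ^ N.factorization q := ⟨_, rfl⟩
  rw [← hP] at h1 hle
  rw [← hQ] at h2 hle
  have a1 : P * Q < P * P := by rw [← sq]; exact lt_of_le_of_lt hle h1
  have a2 : Q * P < Q * Q := by rw [← sq, mul_comm]; exact lt_of_le_of_lt hle h2
  have b1 : Q < P := Nat.lt_of_mul_lt_mul_left a1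
  have b2 : P < Q := Nat.lt_of_mul_lt_mul_left a2
  omega

end Cfsg.Agent.H16.MC
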