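import Mathlib

set_option autoImplicit false

namespace Cfsg.Agent.H16

open MulAction SubMulAction

universe u v

/-- If `G` is `m`-transitive and the pointwise stabiliser of a set `s` of size `m` is doubly
transitive on the complement, then `G` is `(m+2)`-transitive. -/
theorem isMultiplyPretransitive_add_two_of_fixingSubgroup : ∀ (m : ℕ) {G : Type u} {α : Type v}
    [Group G] [MulAction G α] [Finite α] (s : Set α), s.ncard = m →
    IsMultiplyPretransitive G α m →
    IsMultiplyPretransitive (fixingSubgroup G s) (ofFixingSubgroup G s) 2 →
    IsMultiplyPretransitive G α (m + 2) := by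
  intro m
  induction m with
  | zero =>
    intro G α _ _ _ s hs _ h2
    have hs' : s = ∅ := by
      rwa [Set.ncard_eq_zero (Set.toFinite s)] at hs
    subst hs'
    exact (IsPretransitive.of_embedding_congr
      (of_fixingSubgroupEmpty_mapScalars_surjective (M := G) (α := α))
      (ofFixingSubgroupEmpty_equivariantMap_bijective (M := G) (α := α))).mp h2
  | succ m ih =>
    intro G α _ _ _ s hs hm h2
    have hne : s.Nonempty := by
      rw [← Set.ncard_pos (Set.toFinite s), hs]; exact Nat.succ_pos m
    obtain ⟨a, ha⟩ := hne
    have hcard : m + 1 ≤ Nat.card α := by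
      rw [← hs, ← Set.ncard_univ]
      exact Set.ncard_le_ncard (Set.subset_univ s) (Set.toFinite _)
    haveI : IsPretransitive G α := by
      rw [← is_one_pretransitive_iff]
      exact isMultiplyPretransitive_of_le (n := m + 1) (Nat.succ_le_succ (Nat.zero_le m)) hcard
    let t : Set (ofStabilizer G a) := Subtype.val ⁻¹' s
    have hst : s = insert a (Subtype.val '' t) := by
      ext x
      by_cases hx : x = a <;> simp [hx, mem_ofStabilizer_iff, ha, t]
    have ha' : a ∉ Subtype.val '' t := by
      intro h; rw [Set.mem_image] at h; obtain ⟨x, hx⟩ := h
      apply x.prop; rw [hx.right]; exact Set.mem_singleton a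
    have h2' : IsMultiplyPretransitive ↥(fixingSubgroup G (insert a (Subtype.val '' t)))
        (ofFixingSubgroup G (insert a (Subtype.val '' t))) 2 :=
      (IsPretransitive.of_embedding_congr (MulEquiv.surjective _)
        (ofFixingSubgroup_of_eq_bijective (hst := hst))).mp h2
    have h2'' : IsMultiplyPretransitive (fixingSubgroup (stabilizer G a) t)
        (ofFixingSubgroup (stabilizer G a) t) 2 :=
      (IsPretransitive.of_embedding_congr (MulEquiv.surjective _)
        ofFixingSubgroup_insert_map_bijective).mp h2'
    have hm' : IsMultiplyPretransitive (stabilizer G a) (ofStabilizer G a) m :=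
      ofStabilizer.isMultiplyPretransitive.mp hm
    have htcard : t.ncard = m := by
      rw [← Set.ncard_image_of_injective t Subtype.val_injective]
      apply Nat.add_right_cancel
      rw [← Set.ncard_insert_of_notMem ha' (Set.toFinite _), ← hst, hs]
    have := ih t htcard hm' h2''
    exact ofStabilizer.isMultiplyPretransitive.mpr this

end Cfsg.Agent.H16
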