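import Mathlib

set_option autoImplicit false

namespace Cfsg.Agent.H16.OddG

open Equiv Equiv.Perm

variable {α : Type*} [DecidableEq α] [Fintype α]

/-- Pointwise criterion for odd order. -/
theorem odd_orderOf_of_pointwise (σ : Perm α)
    (h : ∀ v, ∃ j, Odd j ∧ (σ ^ j) v = v) : Odd (orderOf σ) := by
  choose j hj1 hj2 using h
  have hN : Odd (∏ v, j v) :=
    Finset.prod_induction j Odd (fun a b ha hb => ha.mul hb) odd_one (fun v _ => hj1 v)
  have hpow : σ ^ (∏ v, j v) = 1 := by
    ext v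
    obtain ⟨m, hm⟩ := Finset.dvd_prod_of_mem j (Finset.mem_univ v)
    rw [hm, pow_mul]
    have : ∀ m : ℕ, ((σ ^ j v) ^ m) v = v := by
      intro m
      induction m with
      | zero => simp
      | succ m ih => rw [pow_succ, Perm.mul_apply, hj2 v, ih]
    simpa using this m
  exact Odd.of_dvd_nat hN (orderOf_dvd_of_pow_eq_one hpow)

/-- Insertion lemma: if `ρ` has odd order and fixes `a`, `b`, and `c` is the 3-cycle
`w → a → b → w`, then `ρ * c` has odd order. -/
theorem odd_orderOf_mul_ins (ρ c : Perm α) {w a b : α} (hwa : w ≠ a) (hwb : w ≠ b)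
    (hρa : ρ a = a) (hρb : ρ b = b) (hρ : Odd (orderOf ρ))
    (hcw : c w = a) (hca : c a = b) (hcb : c b = w)
    (hc : ∀ s, s ≠ w → s ≠ a → s ≠ b → c s = s) : Odd (orderOf (ρ * c)) := by
  obtain ⟨σ, hσ⟩ : ∃ σ : Perm α, σ = ρ * c := ⟨_, rfl⟩
  rw [← hσ]
  have hσw : σ w = a := by simp [hσ, hcw, hρa]
  have hσa : σ a = b := by simp [hσ, hca, hρb]
  have hσb : σ b = ρ w := by simp [hσ, hcb]
  have hσs : ∀ s, s ≠ w → s ≠ a → s ≠ b → σ s = ρ s := by
    intro s h1 h2 h3
    simp [hσ, hc s h1 h2 h3]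
  have hρpa : ∀ i : ℕ, (ρ ^ i) a = a := by
    intro i
    induction i with
    | zero => simp
    | succ i ih => rw [pow_succ, Perm.mul_apply, hρa, ih]
  have hρpb : ∀ i : ℕ, (ρ ^ i) b = b := by
    intro i
    induction i with
    | zero => simp
    | succ i ih => rw [pow_succ, Perm.mul_apply, hρb, ih]
  have hne_a : ∀ i : ℕ, (ρ ^ i) w ≠ a := by
    intro i h
    have : (ρ ^ i) w = (ρ ^ i) a := by rw [h, hρpa]
    exact hwa ((ρ ^ i).injective this)
  have hne_b : ∀ i : ℕ, (ρ ^ i) w ≠ b := by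
    intro i h
    have : (ρ ^ i) w = (ρ ^ i) b := by rw [h, hρpb]
    exact hwb ((ρ ^ i).injective this)
  have hℓdvd : Function.minimalPeriod ρ w ∣ orderOf ρ := by
    apply Function.IsPeriodicPt.minimalPeriod_dvd
    show (ρ : α → α)^[orderOf ρ] w = w
    rw [Equiv.Perm.iterate_eq_pow, pow_orderOf_eq_one]; rfl
  have hℓodd : Odd (Function.minimalPeriod ρ w) := Odd.of_dvd_nat hρ hℓdvd
  have hℓpos : 0 < Function.minimalPeriod ρ w := hℓodd.pos
  have hmin : ∀ j, 0 < j → j < Function.minimalPeriod ρ w → (ρ ^ j) w ≠ w := by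
    intro j hj0 hjl h
    have := Function.not_isPeriodicPt_of_pos_of_lt_minimalPeriod (f := ρ) (x := w) hj0.ne' hjl
    apply this
    show (ρ : α → α)^[j] w = w
    rw [Equiv.Perm.iterate_eq_pow]; exact h
  have claim1 : ∀ j, 1 ≤ j → j ≤ Function.minimalPeriod ρ w →
      (σ ^ (j + 2)) w = (ρ ^ j) w := by
    intro j hj1
    induction j, hj1 using Nat.le_induction with
    | base =>
      intro _
      have : σ ^ (1 + 2) = σ * (σ * σ) := by
        rw [show (1 + 2 : ℕ) = 3 by norm_num, pow_succ', pow_two]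
      rw [this, Perm.mul_apply, Perm.mul_apply, hσw, hσa, hσb, pow_one]
    | succ j hj ih =>
      intro hjl
      have ih' := ih (by omega)
      rw [show j + 1 + 2 = (j + 2) + 1 by ring, pow_succ', Perm.mul_apply, ih',
        hσs _ (hmin j (by omega) (by omega)) (hne_a j) (hne_b j), pow_succ', Perm.mul_apply]
  have hσM : (σ ^ (Function.minimalPeriod ρ w + 2)) w = w := by
    rw [claim1 _ hℓpos le_rfl]
    have := Function.isPeriodicPt_minimalPeriod ρ w
    have h2 : (ρ : α → α)^[Function.minimalPeriod ρ w] w = w := this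
    rw [Equiv.Perm.iterate_eq_pow] at h2
    exact h2
  apply odd_orderOf_of_pointwise
  intro v
  by_cases hv : SameCycle σ w v
  · refine ⟨Function.minimalPeriod ρ w + 2, ?_, ?_⟩
    · obtain ⟨m, hm⟩ := hℓodd
      exact ⟨m + 1, by omega⟩
    · obtain ⟨i, hi⟩ := hv
      rw [← hi]
      have hcomm : σ ^ (Function.minimalPeriod ρ w + 2) * σ ^ i
          = σ ^ i * σ ^ (Function.minimalPeriod ρ w + 2) := by
        rw [← zpow_natCast, ← zpow_add, ← zpow_add, add_comm]
      calc (σ ^ (Function.minimalPeriod ρ w + 2)) ((σ ^ i) w)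
          = (σ ^ (Function.minimalPeriod ρ w + 2) * σ ^ i) w := rfl
        _ = (σ ^ i * σ ^ (Function.minimalPeriod ρ w + 2)) w := by rw [hcomm]
        _ = (σ ^ i) w := by rw [Perm.mul_apply, hσM]
  · have hva : v ≠ a := by
      rintro rfl
      exact hv ⟨1, by simpa using hσw⟩
    have hvb : v ≠ b := by
      rintro rfl
      refine hv ⟨2, ?_⟩
      have : (σ ^ (2 : ℤ)) w = σ (σ w) := by
        rw [show (2 : ℤ) = ((2 : ℕ) : ℤ) by norm_num, zpow_natCast, pow_two, Perm.mul_apply]
      rw [this, hσw, hσa]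
    have key : ∀ i : ℕ, SameCycle σ w ((ρ ^ i) w) := by
      intro i
      induction i with
      | zero => simpa using SameCycle.refl σ w
      | succ i ih =>
        rw [pow_succ', Perm.mul_apply]
        by_cases hu : (ρ ^ i) w = w
        · rw [hu]
          refine ⟨3, ?_⟩
          have : (σ ^ (3 : ℤ)) w = σ (σ (σ w)) := by
            rw [show (3 : ℤ) = ((3 : ℕ) : ℤ) by norm_num, zpow_natCast, pow_succ', pow_two,
              Perm.mul_apply, Perm.mul_apply]
          rw [this, hσw, hσa, hσb]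
        · have h1 : σ ((ρ ^ i) w) = ρ ((ρ ^ i) w) := hσs _ hu (hne_a i) (hne_b i)
          rw [← h1]
          exact ih.trans ⟨1, by simp⟩
    have hvρ : ¬ SameCycle ρ w v := by
      intro h
      obtain ⟨i, hi⟩ := h.exists_nat_pow_eq
      exact hv (hi ▸ key i)
    refine ⟨orderOf ρ, hρ, ?_⟩
    have claim2 : ∀ i : ℕ, (σ ^ i) v = (ρ ^ i) v := by
      intro i
      induction i with
      | zero => simp
      | succ i ih =>
        rw [pow_succ', Perm.mul_apply, ih, pow_succ', Perm.mul_apply]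
        apply hσs
        · intro h
          exact hvρ (SameCycle.symm ⟨i, by simpa using h⟩)
        · intro h
          exact hva ((ρ ^ i).injective (h.trans (hρpa i).symm))
        · intro h
          exact hvb ((ρ ^ i).injective (h.trans (hρpb i).symm))
    rw [claim2, pow_orderOf_eq_one]; rfl

/-- Transport of permutations of `Fin k` along an injective labelling. -/
noncomputable def emb {k : ℕ} (f : Fin k → α) (hf : Function.Injective f) :
    Perm (Fin k) →* Perm α :=
  Equiv.Perm.viaEmbeddingHom ⟨f, hf⟩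

theorem emb_swap {k : ℕ} (f : Fin k → α) (hf : Function.Injective f) (i j : Fin k) :
    emb f hf (swap i j) = swap (f i) (f j) := by
  ext s
  by_cases hs : s ∈ Set.range f
  · obtain ⟨t, rfl⟩ := hs
    have := Equiv.Perm.viaEmbedding_apply (swap i j) ⟨f, hf⟩ t
    rw [hf.swap_apply]
    exact this
  · have h1 : s ≠ f i := fun h => hs ⟨i, h.symm⟩
    have h2 : s ≠ f j := fun h => hs ⟨j, h.symm⟩
    rw [swap_apply_of_ne_of_ne h1 h2]
    exact Equiv.Perm.viaEmbedding_apply_of_notMem _ _ s hs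

theorem emb_orderOf {k : ℕ} (f : Fin k → α) (hf : Function.Injective f) (g : Perm (Fin k)) :
    orderOf (emb f hf g) = orderOf g :=
  orderOf_injective _ (Equiv.Perm.viaEmbeddingHom_injective _) g

end Cfsg.Agent.H16.OddG
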