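import Cfsg.Agent.H16.OddSteps
import Cfsg.Agent.H7.InvGraph

set_option autoImplicit false
set_option linter.unusedSectionVars false

namespace Cfsg.Agent.H16.OddG

open Equiv Equiv.Perm

variable {α : Type*} [DecidableEq α] [Fintype α]

theorem b4_facts {a b c d : α} (hnd : [a, b, c, d].Nodup) :
    (swap a b * swap c d) a = b ∧ (swap a b * swap c d) b = a ∧
    (swap a b * swap c d) c = d ∧ (swap a b * swap c d) d = c ∧
    (swap a d * swap b c) a = d ∧ (swap a d * swap b c) b = c ∧
    (swap a d * swap b c) c = b ∧ (swap a d * swap b c) d = a := by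
  have hinj : Function.Injective (fun i : Fin 4 => [a, b, c, d].get i) :=
    List.nodup_iff_injective_get.mp hnd
  have hab : a ≠ b := hinj.ne (by decide : (0 : Fin 4) ≠ 1)
  have hac : a ≠ c := hinj.ne (by decide : (0 : Fin 4) ≠ 2)
  have had : a ≠ d := hinj.ne (by decide : (0 : Fin 4) ≠ 3)
  have hbc : b ≠ c := hinj.ne (by decide : (1 : Fin 4) ≠ 2)
  have hbd : b ≠ d := hinj.ne (by decide : (1 : Fin 4) ≠ 3)
  have hcd : c ≠ d := hinj.ne (by decide : (2 : Fin 4) ≠ 3)
  refine ⟨?_, ?_, ?_, ?_, ?_, ?_, ?_, ?_⟩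
  · rw [Perm.mul_apply, swap_apply_of_ne_of_ne hac had, swap_apply_left]
  · rw [Perm.mul_apply, swap_apply_of_ne_of_ne hbc hbd, swap_apply_right]
  · rw [Perm.mul_apply, swap_apply_left, swap_apply_of_ne_of_ne had.symm hbd.symm]
  · rw [Perm.mul_apply, swap_apply_right, swap_apply_of_ne_of_ne hac.symm hbc.symm]
  · rw [Perm.mul_apply, swap_apply_of_ne_of_ne hab hac, swap_apply_left]
  · rw [Perm.mul_apply, swap_apply_left, swap_apply_of_ne_of_ne hac.symm hcd]
  · rw [Perm.mul_apply, swap_apply_right, swap_apply_of_ne_of_ne hab.symm hbd]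
  · rw [Perm.mul_apply, swap_apply_of_ne_of_ne hbd.symm hcd.symm, swap_apply_right]

theorem isB4_normalize {x y : Perm α} (h : IsB4 x y) {p : α} (hp : y p ≠ p) :
    ∃ b c d, [p, b, c, d].Nodup ∧ x = swap p b * swap c d ∧ y = swap p d * swap b c := by
  obtain ⟨a, b, c, d, hnd, hx, hy⟩ := h
  have hinj : Function.Injective (fun i : Fin 4 => [a, b, c, d].get i) :=
    List.nodup_iff_injective_get.mp hnd
  have hmem : p = a ∨ p = b ∨ p = c ∨ p = d := by
    by_contra hcon
    push Not at hcon
    obtain ⟨h1, h2, h3, h4⟩ := hcon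
    apply hp
    rw [hy, Perm.mul_apply, swap_apply_of_ne_of_ne h2 h3, swap_apply_of_ne_of_ne h1 h4]
  rcases hmem with h | h | h | h
  · rw [h]
    exact ⟨b, c, d, hnd, hx, hy⟩
  · rw [h]
    refine ⟨a, d, c, List.Nodup.map hinj (by decide : [(1 : Fin 4), 0, 3, 2].Nodup), ?_, ?_⟩
    · rw [hx]
      have hdec : (swap 0 1 * swap 2 3 : Perm (Fin 4)) = swap 1 0 * swap 3 2 := by decide
      have h := congrArg (emb _ hinj) hdec
      simp only [map_mul, emb_swap] at h
      exact h
    · rw [hy]
      have hdec : (swap 0 3 * swap 1 2 : Perm (Fin 4)) = swap 1 2 * swap 0 3 := by decide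
      have h := congrArg (emb _ hinj) hdec
      simp only [map_mul, emb_swap] at h
      exact h
  · rw [h]
    refine ⟨d, a, b, List.Nodup.map hinj (by decide : [(2 : Fin 4), 3, 0, 1].Nodup), ?_, ?_⟩
    · rw [hx]
      have hdec : (swap 0 1 * swap 2 3 : Perm (Fin 4)) = swap 2 3 * swap 0 1 := by decide
      have h := congrArg (emb _ hinj) hdec
      simp only [map_mul, emb_swap] at h
      exact h
    · rw [hy]
      have hdec : (swap 0 3 * swap 1 2 : Perm (Fin 4)) = swap 2 1 * swap 3 0 := by decide
      have h := congrArg (emb _ hinj) hdec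
      simp only [map_mul, emb_swap] at h
      exact h
  · rw [h]
    refine ⟨c, b, a, List.Nodup.map hinj (by decide : [(3 : Fin 4), 2, 1, 0].Nodup), ?_, ?_⟩
    · rw [hx]
      have hdec : (swap 0 1 * swap 2 3 : Perm (Fin 4)) = swap 3 2 * swap 1 0 := by decide
      have h := congrArg (emb _ hinj) hdec
      simp only [map_mul, emb_swap] at h
      exact h
    · rw [hy]
      have hdec : (swap 0 3 * swap 1 2 : Perm (Fin 4)) = swap 3 0 * swap 2 1 := by decide
      have h := congrArg (emb _ hinj) hdec
      simp only [map_mul, emb_swap] at h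
      exact h

theorem notB4_of_agree {x y x' y' : Perm α}
    (hB : ∀ v0, x v0 ≠ v0 → y v0 ≠ v0 → x v0 ≠ y v0 → x (y v0) ≠ y (x v0))
    (hx : ∀ s, x' s ≠ s → x' s = x s) (hy : ∀ s, y' s ≠ s → y' s = y s) : ¬ IsB4 x' y' := by
  rintro ⟨a, b, c, d, hnd, hx', hy'⟩
  obtain ⟨f1, f2, f3, f4, g1, g2, g3, g4⟩ := b4_facts hnd
  rw [← hx'] at f1 f2 f3 f4
  rw [← hy'] at g1 g2 g3 g4
  have hinj : Function.Injective (fun i : Fin 4 => [a, b, c, d].get i) :=
    List.nodup_iff_injective_get.mp hnd
  have hab : a ≠ b := hinj.ne (by decide : (0 : Fin 4) ≠ 1)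
  have had : a ≠ d := hinj.ne (by decide : (0 : Fin 4) ≠ 3)
  have hbc : b ≠ c := hinj.ne (by decide : (1 : Fin 4) ≠ 2)
  have hbd : b ≠ d := hinj.ne (by decide : (1 : Fin 4) ≠ 3)
  have hcd : c ≠ d := hinj.ne (by decide : (2 : Fin 4) ≠ 3)
  have xa : x a = b := by rw [← hx a (by rw [f1]; exact hab.symm), f1]
  have ya : y a = d := by rw [← hy a (by rw [g1]; exact had.symm), g1]
  have xd : x d = c := by rw [← hx d (by rw [f4]; exact hcd), f4]
  have yb : y b = c := by rw [← hy b (by rw [g2]; exact hbc.symm), g2]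
  exact hB a (by rw [xa]; exact hab.symm) (by rw [ya]; exact had.symm)
    (by rw [xa, ya]; exact hbd) (by rw [ya, xd, xa, yb])

theorem eq_one_of_sq_of_odd {g : Perm α} (hg : g * g = 1) (ho : Odd (orderOf g)) : g = 1 := by
  have hd : orderOf g ∣ 2 := orderOf_dvd_of_pow_eq_one (by rw [pow_two]; exact hg)
  have : orderOf g = 1 := by
    rcases (Nat.dvd_prime Nat.prime_two).mp hd with h | h
    · exact h
    · rw [h] at ho; exact absurd ho (by decide)
  exact orderOf_eq_one_iff.mp this

/-- Main induction: two involutions with equally many moved points, not forming the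
exceptional four-point configuration, have a common odd-product neighbour. -/
theorem sol_main : ∀ (N : ℕ) (x y : Perm α), x * x = 1 → y * y = 1 →
    x.support.card = y.support.card → x.support.card ≤ N → ¬ IsB4 x y → Sol x y := by
  intro N
  induction N with
  | zero =>
    intro x y hx hy hc hN _
    have hx1 : x = 1 := card_support_eq_zero.mp (by omega)
    have hy1 : y = 1 := card_support_eq_zero.mp (by omega)
    rw [hy1, ← hx1]
    exact sol_self hx
  | succ N ih =>
    intro x y hx hy hc hN hnb
    by_cases hxy : x = y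
    · rw [← hxy]; exact sol_self hx
    by_cases hB : ∃ v0, x v0 ≠ v0 ∧ y v0 ≠ v0 ∧ x v0 ≠ y v0 ∧ x (y v0) = y (x v0)
    · -- a four-point orbit
      obtain ⟨v0, h1, h2, h3, h4⟩ := hB
      obtain ⟨v1, hv1⟩ : ∃ v1, x v0 = v1 := ⟨_, rfl⟩
      obtain ⟨v3, hv3⟩ : ∃ v3, y v0 = v3 := ⟨_, rfl⟩
      obtain ⟨v2, hv2⟩ : ∃ v2, x v3 = v2 := ⟨_, rfl⟩
      rw [hv1] at h1 h3
      rw [hv3] at h2 h3
      rw [hv3, hv2, hv1] at h4
      have h01 : v0 ≠ v1 := h1.symm
      have h03 : v0 ≠ v3 := h2.symm
      have h13 : v1 ≠ v3 := h3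
      have hy1 : y v1 = v2 := h4.symm
      have hy3 : y v3 = v0 := inv_apply_of_sq hy hv3
      have hx1 : x v1 = v0 := inv_apply_of_sq hx hv1
      have h02 : v0 ≠ v2 := by
        intro h
        rw [← h] at hy1
        exact h13 ((inv_apply_of_sq hy hy1).symm.trans hv3)
      have h12 : v1 ≠ v2 := by
        intro h
        rw [← h] at hv2
        exact h03 (hx1.symm.trans (inv_apply_of_sq hx hv2))
      have h32 : v3 ≠ v2 := by
        intro h
        rw [← h] at hy1
        exact h01 (hy3.symm.trans (inv_apply_of_sq hy hy1))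
      have hnd : [v0, v1, v2, v3].Nodup := by simp [h01, h02, h03, h12, h13, h32.symm]
      obtain ⟨x1, ex1⟩ : ∃ x1, ERem x x1 v0 v1 := ⟨_, erem hx h01 hv1⟩
      obtain ⟨x'', ex2⟩ : ∃ x'', ERem x1 x'' v3 v2 :=
        ⟨_, erem ex1.sq h32 (by rw [ex1.off v3 h03.symm h13.symm]; exact hv2)⟩
      obtain ⟨y1, ey1⟩ : ∃ y1, ERem y y1 v0 v3 := ⟨_, erem hy h03 hv3⟩
      obtain ⟨y'', ey2⟩ : ∃ y'', ERem y1 y'' v1 v2 :=
        ⟨_, erem ey1.sq h12 (by rw [ey1.off v1 h01.symm h13]; exact hy1)⟩
      have hcx : x.support.card = x''.support.card + 4 := by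
        have := ex1.card; have := ex2.card; omega
      have hcy : y.support.card = y''.support.card + 4 := by
        have := ey1.card; have := ey2.card; omega
      have hx''0 : x'' v0 = v0 := by rw [ex2.off v0 h03 h02]; exact ex1.fu
      have hx''1 : x'' v1 = v1 := by rw [ex2.off v1 h13 h12]; exact ex1.fv
      have hx''3 : x'' v3 = v3 := ex2.fu
      have hx''2 : x'' v2 = v2 := ex2.fv
      have hinj4 : Function.Injective (fun i : Fin 4 => [v0, v1, v2, v3].get i) :=
        List.nodup_iff_injective_get.mp hnd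
      by_cases hx''1' : x'' = 1
      · exfalso
        have hy''1 : y'' = 1 := by
          apply card_support_eq_zero.mp
          have : x''.support.card = 0 := card_support_eq_zero.mpr hx''1'
          omega
        apply hnb
        refine ⟨v3, v2, v1, v0,
          List.Nodup.map hinj4 (by decide : [(3 : Fin 4), 2, 1, 0].Nodup), ?_, ?_⟩
        · rw [ex1.eq, ex2.eq, hx''1', one_mul, swap_comm v1 v0]
        · rw [ey1.eq, ey2.eq, hy''1, one_mul]
          have hdec : (swap 1 2 * swap 0 3 : Perm (Fin 4)) = swap 3 0 * swap 2 1 := by decide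
          have h := congrArg (emb _ hinj4) hdec
          simp only [map_mul, emb_swap] at h
          exact h
      by_cases hB'' : IsB4 x'' y''
      · obtain ⟨a, b, c, d, hnd', hxa, hya⟩ := hB''
        obtain ⟨f1, f2, f3, f4, -⟩ := b4_facts hnd'
        rw [← hxa] at f1 f2 f3 f4
        have hinj' : Function.Injective (fun i : Fin 4 => [a, b, c, d].get i) :=
          List.nodup_iff_injective_get.mp hnd'
        have hab : a ≠ b := hinj'.ne (by decide : (0 : Fin 4) ≠ 1)
        have hcd : c ≠ d := hinj'.ne (by decide : (2 : Fin 4) ≠ 3)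
        have hl : ([v0, v1, v2, v3] ++ [a, b, c, d]).Nodup := by
          apply List.Nodup.append hnd hnd'
          intro p hp1 hp2
          have e1 : x'' p = p := by
            simp only [List.mem_cons, List.not_mem_nil, or_false] at hp1
            rcases hp1 with h | h | h | h <;> rw [h] <;> assumption
          have e2 : x'' p ≠ p := by
            simp only [List.mem_cons, List.not_mem_nil, or_false] at hp2
            rcases hp2 with h | h | h | h <;> rw [h]
            · rw [f1]; exact hab.symm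
            · rw [f2]; exact hab
            · rw [f3]; exact hcd.symm
            · rw [f4]; exact hcd
          exact e2 e1
        exact sol_b4b4 hl (by rw [ex1.eq, ex2.eq, hxa]) (by rw [ey1.eq, ey2.eq, hya])
      · obtain ⟨z'', hz, hfix, ho1, ho2⟩ :=
          ih x'' y'' ex2.sq ey2.sq (by omega) (by omega) hB''
        have hz1 : z'' ≠ 1 := by
          intro h
          rw [h, mul_one] at ho1
          exact hx''1' (eq_one_of_sq_of_odd ex2.sq ho1)
        obtain ⟨w, hw⟩ : ∃ w, z'' w ≠ w := by
          by_contra hcon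
          push Not at hcon
          exact hz1 (Equiv.ext hcon)
        exact sol_b4glue ex1 ex2 ey1 ey2 hnd hz hfix ho1 ho2 hw
    · push Not at hB
      by_cases hE : ∃ u, x u = y u ∧ x u ≠ u
      · obtain ⟨u, hu1, hu2⟩ := hE
        obtain ⟨v, hv⟩ : ∃ v, x u = v := ⟨_, rfl⟩
        rw [hv] at hu1 hu2
        obtain ⟨x', ex⟩ : ∃ x', ERem x x' u v := ⟨_, erem hx hu2.symm hv⟩
        obtain ⟨y', ey⟩ : ∃ y', ERem y y' u v := ⟨_, erem hy hu2.symm hu1.symm⟩
        apply sol_edge ex ey
        apply ih x' y' ex.sq ey.sq (by have := ex.card; have := ey.card; omega)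
          (by have := ex.card; omega)
        exact notB4_of_agree hB (fun s hs => ex.agree hs) (fun s hs => ey.agree hs)
      push Not at hE
      by_cases hP : ∃ v, y v = v ∧ x v ≠ v ∧ y (x v) ≠ x v
      · obtain ⟨v, hyv, hxv, hyxv⟩ := hP
        obtain ⟨u, hu⟩ : ∃ u, x v = u := ⟨_, rfl⟩
        rw [hu] at hxv hyxv
        obtain ⟨w, hw⟩ : ∃ w, y u = w := ⟨_, rfl⟩
        rw [hw] at hyxv
        obtain ⟨x', ex⟩ : ∃ x', ERem x x' v u := ⟨_, erem hx hxv.symm hu⟩
        obtain ⟨y', ey⟩ : ∃ y', ERem y y' u w := ⟨_, erem hy hyxv.symm hw⟩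
        apply sol_peel ex ey hyv
        apply ih x' y' ex.sq ey.sq (by have := ex.card; have := ey.card; omega)
          (by have := ex.card; omega)
        exact notB4_of_agree hB (fun s hs => ex.agree hs) (fun s hs => ey.agree hs)
      by_cases hP' : ∃ v, x v = v ∧ y v ≠ v ∧ x (y v) ≠ y v
      · obtain ⟨v, hxv, hyv, hxyv⟩ := hP'
        obtain ⟨u, hu⟩ : ∃ u, y v = u := ⟨_, rfl⟩
        rw [hu] at hyv hxyv
        obtain ⟨w, hw⟩ : ∃ w, x u = w := ⟨_, rfl⟩
        rw [hw] at hxyv
        obtain ⟨y', ey⟩ : ∃ y', ERem y y' v u := ⟨_, erem hy hyv.symm hu⟩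
        obtain ⟨x', ex⟩ : ∃ x', ERem x x' u w := ⟨_, erem hx hxyv.symm hw⟩
        apply Sol.symm
        apply sol_peel ey ex hxv
        apply Sol.symm
        apply ih x' y' ex.sq ey.sq (by have := ex.card; have := ey.card; omega)
          (by have := ex.card; omega)
        exact notB4_of_agree hB (fun s hs => ex.agree hs) (fun s hs => ey.agree hs)
      push Not at hP hP'
      by_cases hQ : ∃ p1, y p1 = p1 ∧ x p1 ≠ p1
      · obtain ⟨p1, hyp1, hxp1⟩ := hQ
        obtain ⟨p2, hp2⟩ : ∃ p2, x p1 = p2 := ⟨_, rfl⟩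
        have hyp2 : y p2 = p2 := by rw [← hp2]; exact hP p1 hyp1 hxp1
        rw [hp2] at hxp1
        have hq : ∃ q1, x q1 = q1 ∧ y q1 ≠ q1 := by
          by_contra hcon
          push Not at hcon
          have hsub : y.support ⊆ x.support := by
            intro s hs
            rw [Perm.mem_support] at hs ⊢
            exact fun h => hs (hcon s h)
          have heq := Finset.eq_of_subset_of_card_le hsub (le_of_eq hc)
          have hmem : p1 ∈ x.support := by rw [Perm.mem_support, hp2]; exact hxp1
          rw [← heq, Perm.mem_support] at hmem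
          exact hmem hyp1
        obtain ⟨q1, hxq1, hyq1⟩ := hq
        obtain ⟨q2, hq2⟩ : ∃ q2, y q1 = q2 := ⟨_, rfl⟩
        rw [hq2] at hyq1
        obtain ⟨x', ex⟩ : ∃ x', ERem x x' p1 p2 := ⟨_, erem hx hxp1.symm hp2⟩
        obtain ⟨y', ey⟩ : ∃ y', ERem y y' q1 q2 := ⟨_, erem hy hyq1.symm hq2⟩
        apply sol_pq ex ey hyp1 hyp2 hxq1
        apply ih x' y' ex.sq ey.sq (by have := ex.card; have := ey.card; omega)
          (by have := ex.card; omega)
        exact notB4_of_agree hB (fun s hs => ex.agree hs) (fun s hs => ey.agree hs)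
      · push Not at hQ
        have hQ' : ∀ q, x q = q → y q = q := by
          by_contra hcon
          push Not at hcon
          obtain ⟨q, hq1, hq2⟩ := hcon
          have hsub : x.support ⊆ y.support := by
            intro s hs
            rw [Perm.mem_support] at hs ⊢
            exact fun h => hs (hQ s h)
          have heq := Finset.eq_of_subset_of_card_le hsub (le_of_eq hc.symm)
          have hmem : q ∈ y.support := by rw [Perm.mem_support]; exact hq2
          rw [← heq, Perm.mem_support] at hmem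
          exact hmem hq1
        obtain ⟨v0, hv0⟩ : ∃ v0, x v0 ≠ y v0 := by
          by_contra hcon
          push Not at hcon
          exact hxy (Equiv.ext hcon)
        have hx0 : x v0 ≠ v0 := fun h => hv0 (h.trans (hQ' v0 h).symm)
        have hy0 : y v0 ≠ v0 := fun h => hx0 (hQ v0 h)
        have mx : ∀ s, y s ≠ s → x s ≠ s := fun s hs h => hs (hQ' s h)
        have my : ∀ s, x s ≠ s → y s ≠ s := fun s hs h => hs (hQ s h)
        obtain ⟨v1, e01⟩ : ∃ v1, x v0 = v1 := ⟨_, rfl⟩
        obtain ⟨v2, e12⟩ : ∃ v2, y v1 = v2 := ⟨_, rfl⟩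
        obtain ⟨v3, e23⟩ : ∃ v3, x v2 = v3 := ⟨_, rfl⟩
        obtain ⟨v4, e34⟩ : ∃ v4, y v3 = v4 := ⟨_, rfl⟩
        obtain ⟨vm, em0⟩ : ∃ vm, y v0 = vm := ⟨_, rfl⟩
        rw [e01] at hx0 hv0
        rw [em0] at hy0 hv0
        have e10 : x v1 = v0 := inv_apply_of_sq hx e01
        have e21 : y v2 = v1 := inv_apply_of_sq hy e12
        have e32 : x v3 = v2 := inv_apply_of_sq hx e23
        have e43 : y v4 = v3 := inv_apply_of_sq hy e34
        have e0m : y vm = v0 := inv_apply_of_sq hy em0
        have h01 : v0 ≠ v1 := hx0.symm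
        have h12 : v1 ≠ v2 := by
          have : y v1 ≠ v1 := my v1 (by rw [e10]; exact h01)
          rw [e12] at this; exact this.symm
        have h02 : v0 ≠ v2 := by
          intro h
          rw [← h] at e12
          exact hv0 ((inv_apply_of_sq hy e12).symm.trans em0)
        have h23 : v2 ≠ v3 := by
          have : x v2 ≠ v2 := mx v2 (by rw [e21]; exact h12)
          rw [e23] at this; exact this.symm
        have h13 : v1 ≠ v3 := by
          intro h
          rw [← h] at e23
          exact h02 (e10.symm.trans (inv_apply_of_sq hx e23))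
        have h03 : v0 ≠ v3 := by
          intro h
          rw [← h] at e23
          exact h12 (e01.symm.trans (inv_apply_of_sq hx e23))
        have h34 : v3 ≠ v4 := by
          have : y v3 ≠ v3 := my v3 (by rw [e32]; exact h23)
          rw [e34] at this; exact this.symm
        have h24 : v2 ≠ v4 := by
          intro h
          rw [← h] at e34
          exact h13 (e21.symm.trans (inv_apply_of_sq hy e34))
        have h14 : v1 ≠ v4 := by
          intro h
          rw [← h] at e34
          exact h23 (e12.symm.trans (inv_apply_of_sq hy e34))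
        have h04 : v0 ≠ v4 := by
          intro h
          rw [← h] at e34
          have hm3 : vm = v3 := em0.symm.trans (inv_apply_of_sq hy e34)
          apply hB v0 (by rw [e01]; exact hx0) (by rw [em0]; exact hy0)
            (by rw [e01, em0]; exact hv0)
          rw [em0, hm3, e32, e01, e12]
        have hm0 : vm ≠ v0 := hy0
        have hm1 : vm ≠ v1 := hv0.symm
        have hm2 : vm ≠ v2 := by
          intro h
          rw [h] at em0
          exact h01 ((inv_apply_of_sq hy em0).symm.trans e21)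
        have hm3 : vm ≠ v3 := by
          intro h
          rw [h] at em0
          exact h04 ((inv_apply_of_sq hy em0).symm.trans e34)
        have hm4 : vm ≠ v4 := by
          intro h
          rw [h] at em0
          exact h03 ((inv_apply_of_sq hy em0).symm.trans e43)
        have hl : [vm, v0, v1, v2, v3, v4].Nodup := by
          simp [hm0, hm1, hm2, hm3, hm4, h01, h02, h03, h04, h12, h13, h14, h23, h24, h34]
        obtain ⟨x1, ex1⟩ : ∃ x1, ERem x x1 v0 v1 := ⟨_, erem hx h01 e01⟩
        obtain ⟨x', ex2⟩ : ∃ x', ERem x1 x' v2 v3 :=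
          ⟨_, erem ex1.sq h23 (by rw [ex1.off v2 h02.symm h12.symm]; exact e23)⟩
        obtain ⟨y1, ey1⟩ : ∃ y1, ERem y y1 vm v0 := ⟨_, erem hy hm0 e0m⟩
        obtain ⟨y2, ey2⟩ : ∃ y2, ERem y1 y2 v1 v2 :=
          ⟨_, erem ey1.sq h12 (by rw [ey1.off v1 hm1.symm h01.symm]; exact e12)⟩
        obtain ⟨y3, ey3⟩ : ∃ y3, ERem y2 y3 v3 v4 :=
          ⟨_, erem ey2.sq h34 (by
            rw [ey2.off v3 h13.symm h23.symm, ey1.off v3 hm3.symm h03.symm]; exact e34)⟩
        obtain ⟨y', hy'⟩ : ∃ y', y' = y3 * swap vm v4 := ⟨_, rfl⟩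
        obtain ⟨hy'sq, hy'card, -, -, -, -, hy'4, -, hyeq, -⟩ :=
          cycle_data hl ey1 ey2 ey3 hy'
        have hcx : x.support.card = x'.support.card + 4 := by
          have := ex1.card; have := ex2.card; omega
        have hx'0 : x' v0 = v0 := by rw [ex2.off v0 h02 h03]; exact ex1.fu
        have hx'1 : x' v1 = v1 := by rw [ex2.off v1 h12 h13]; exact ex1.fv
        have hx'2 : x' v2 = v2 := ex2.fu
        have hx'3 : x' v3 = v3 := ex2.fv
        by_cases hB' : IsB4 x' y'
        · obtain ⟨b, c, d, hnd', hxa, hya⟩ :=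
            isB4_normalize hB' (p := v4) (by rw [hy'4]; exact hm4)
          have hd : d = vm := by
            obtain ⟨-, -, -, -, g1, -⟩ := b4_facts hnd'
            rw [← hya] at g1
            exact g1.symm.trans hy'4
          rw [hd] at hnd' hxa hya
          obtain ⟨f1, f2, f3, f4, -⟩ := b4_facts hnd'
          rw [← hxa] at f1 f2 f3 f4
          have hinj' : Function.Injective (fun i : Fin 4 => [v4, b, c, vm].get i) :=
            List.nodup_iff_injective_get.mp hnd'
          have h4b : v4 ≠ b := hinj'.ne (by decide : (0 : Fin 4) ≠ 1)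
          have hcm : c ≠ vm := hinj'.ne (by decide : (2 : Fin 4) ≠ 3)
          have hnd4 : [v0, v1, v2, v3].Nodup := by simp [h01, h02, h03, h12, h13, h23]
          have hl8 : ([v0, v1, v2, v3] ++ [v4, b, c, vm]).Nodup := by
            apply List.Nodup.append hnd4 hnd'
            intro p hp1 hp2
            have e1 : x' p = p := by
              simp only [List.mem_cons, List.not_mem_nil, or_false] at hp1
              rcases hp1 with h | h | h | h <;> rw [h] <;> assumption
            have e2 : x' p ≠ p := by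
              simp only [List.mem_cons, List.not_mem_nil, or_false] at hp2
              rcases hp2 with h | h | h | h <;> rw [h]
              · rw [f1]; exact h4b.symm
              · rw [f2]; exact h4b
              · rw [f3]; exact hcm.symm
              · rw [f4]; exact hcm
            exact e2 e1
          exact sol_c8 hl8 (by rw [ex1.eq, ex2.eq, hxa]) (by rw [hyeq, hya])
        · exact sol_cycle hl ex1 ex2 ey1 ey2 ey3 hy'
            (ih x' y' ex2.sq hy'sq (by omega) (by omega) hB')

theorem exists_notMem_fin {n : ℕ} (s : Finset (Fin n)) (h : s.card < n) : ∃ c, c ∉ s := by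
  by_contra hcon
  push Not at hcon
  have hsub : (Finset.univ : Finset (Fin n)) ⊆ s := fun c _ => hcon c
  have h1 := Finset.card_le_card hsub
  rw [Finset.card_univ, Fintype.card_fin] at h1
  omega

/-- Any two conjugate involutions of `Sym(n)`, `n ≥ 5`, have a common odd-product
neighbour. -/
theorem exists_common_nb {n : ℕ} (hn : 5 ≤ n) (x y : Perm (Fin n)) (hx : x * x = 1)
    (hy : y * y = 1) (hc : x.support.card = y.support.card) :
    ∃ z : Perm (Fin n), z * z = 1 ∧ Odd (orderOf (x * z)) ∧ Odd (orderOf (z * y)) := by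
  by_cases hB : IsB4 x y
  · obtain ⟨a, b, c, d, hnd, hxe, hye⟩ := hB
    obtain ⟨w, hw⟩ := exists_notMem_fin ({a, b, c, d} : Finset (Fin n))
      (lt_of_le_of_lt Finset.card_le_four (by omega))
    simp only [Finset.mem_insert, Finset.mem_singleton, not_or] at hw
    obtain ⟨hwa, hwb, hwc, hwd⟩ := hw
    have hl : ([a, b, c, d] ++ [w]).Nodup := by
      apply List.Nodup.append hnd (List.nodup_singleton w)
      intro p hp1 hp2
      simp only [List.mem_cons, List.not_mem_nil, or_false] at hp1 hp2
      rw [hp2] at hp1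
      rcases hp1 with h | h | h | h
      · exact hwa h
      · exact hwb h
      · exact hwc h
      · exact hwd h
    exact nb_b4_spare hl hxe hye
  · obtain ⟨z, hz, -, h1, h2⟩ := sol_main _ x y hx hy hc le_rfl hB
    exact ⟨z, hz, h1, h2⟩

theorem orderOf_two_swaps {a b c d : α} (hnd : [a, b, c, d].Nodup) :
    orderOf (swap a b * swap c d) = 2 := by
  have hinj : Function.Injective (fun i : Fin 4 => [a, b, c, d].get i) :=
    List.nodup_iff_injective_get.mp hnd
  have h : orderOf (emb _ hinj (swap 0 1 * swap 2 3)) = 2 := by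
    rw [emb_orderOf]
    exact orderOf_eq_prime (by decide) (by decide)
  simp only [map_mul, emb_swap] at h
  exact h

/-- An involution of `Sym(n)`, `n ≥ 5`, has a conjugate whose product with it has
order two. -/
theorem exists_commuting_conj {n : ℕ} (hn : 5 ≤ n) (t : Perm (Fin n)) (ht : orderOf t = 2) :
    ∃ s, IsConj t s ∧ orderOf (t * s) = 2 := by
  have htt : t * t = 1 := by rw [← pow_two, ← ht, pow_orderOf_eq_one]
  have ht1 : t ≠ 1 := by
    intro h
    rw [h, orderOf_one] at ht
    omega
  obtain ⟨a, ha⟩ : ∃ a, t a ≠ a := by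
    by_contra hcon
    push Not at hcon
    exact ht1 (Equiv.ext hcon)
  obtain ⟨b, hb⟩ : ∃ b, t a = b := ⟨_, rfl⟩
  rw [hb] at ha
  have hba : t b = a := inv_apply_of_sq htt hb
  by_cases hc : ∃ c, c ≠ a ∧ c ≠ b ∧ t c ≠ c
  · obtain ⟨c, hca, hcb, hc⟩ := hc
    obtain ⟨d, hd⟩ : ∃ d, t c = d := ⟨_, rfl⟩
    rw [hd] at hc
    have hda : d ≠ a := by
      intro h
      rw [h] at hd
      exact hcb ((inv_apply_of_sq htt hd).symm.trans hb)
    have hdb : d ≠ b := by
      intro h
      rw [h] at hd
      exact hca ((inv_apply_of_sq htt hd).symm.trans hba)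
    refine ⟨swap b c * t * (swap b c)⁻¹, isConj_iff.mpr ⟨swap b c, rfl⟩, ?_⟩
    have h1 : t * (swap b c * t * (swap b c)⁻¹) = swap a d * swap b c := by
      have hconj : t * swap b c * t⁻¹ = swap a d := by rw [← swap_apply_apply, hba, hd]
      have htinv : t⁻¹ = t := inv_eq_of_mul_eq_one_right htt
      rw [swap_inv]
      calc t * (swap b c * t * swap b c) = (t * swap b c * t) * swap b c := by group
        _ = swap a d * swap b c := by rw [← hconj, htinv]
    rw [h1]
    exact orderOf_two_swaps (by simp [hda.symm, ha.symm, hca.symm, hdb, hc, hcb.symm])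
  · push Not at hc
    have htsw : t = swap a b := by
      apply Equiv.ext
      intro s
      by_cases h1 : s = a
      · rw [h1, hb, swap_apply_left]
      by_cases h2 : s = b
      · rw [h2, hba, swap_apply_right]
      rw [hc s h1 h2, swap_apply_of_ne_of_ne h1 h2]
    obtain ⟨c, hc'⟩ := exists_notMem_fin ({a, b} : Finset (Fin n))
      (lt_of_le_of_lt Finset.card_le_two (by omega))
    obtain ⟨d, hd'⟩ := exists_notMem_fin ({a, b, c} : Finset (Fin n))
      (lt_of_le_of_lt Finset.card_le_three (by omega))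
    simp only [Finset.mem_insert, Finset.mem_singleton, not_or] at hc' hd'
    obtain ⟨hca, hcb⟩ := hc'
    obtain ⟨hda, hdb, hdc⟩ := hd'
    refine ⟨swap c d, ?_, ?_⟩
    · rw [htsw]; exact isConj_swap ha.symm (Ne.symm hdc)
    · rw [htsw]
      exact orderOf_two_swaps (by
        simp [ha.symm, Ne.symm hca, Ne.symm hda, Ne.symm hcb, Ne.symm hdb, Ne.symm hdc])

/-- Criterion (class version of `H7.invGraph_connected_diam`): the odd-product graph on a
class of involutions is connected of diameter exactly two. -/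
theorem invGraph_class_connected_diam {G : Type*} [Group G] (t : G) (ht : orderOf t = 2)
    (H1 : ∀ x y : G, IsConj t x → IsConj t y →
      ∃ z, z * z = 1 ∧ Odd (orderOf (x * z)) ∧ Odd (orderOf (z * y)))
    (H2 : ∃ s, IsConj t s ∧ orderOf (t * s) = 2) :
    (SimpleGraph.fromRel fun x y : {x : G // IsConj t x} =>
        Odd (orderOf (x.1 * y.1))).Connected ∧
    (SimpleGraph.fromRel fun x y : {x : G // IsConj t x} =>
        Odd (orderOf (x.1 * y.1))).diam = 2 := by
  set Γ := SimpleGraph.fromRel fun x y : {x : G // IsConj t x} =>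
        Odd (orderOf (x.1 * y.1)) with hΓ
  have hord : ∀ x : {x : G // IsConj t x}, orderOf x.1 = 2 := fun x => by
    obtain ⟨c, hc⟩ := x.2
    rw [← hc.orderOf_eq, ht]
  have hsq : ∀ x : G, orderOf x = 2 → x * x = 1 := fun x hx => by
    rw [← pow_two, ← hx, pow_orderOf_eq_one]
  have step : ∀ (x z : {x : G // IsConj t x}), Odd (orderOf (x.1 * z.1)) →
      Γ.edist x z ≤ 1 := by
    intro x z hxz
    by_cases h : x = z
    · subst h; simp
    · have : Γ.Adj x z := by
        rw [hΓ, SimpleGraph.fromRel_adj]; exact ⟨h, Or.inl hxz⟩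
      exact (SimpleGraph.edist_eq_one_iff_adj.mpr this).le
  have key : ∀ x y : {x : G // IsConj t x}, Γ.edist x y ≤ 2 := by
    intro x y
    obtain ⟨z, hz, hxz, hzy⟩ := H1 x.1 y.1 x.2 y.2
    have hcz : IsConj t z :=
      x.2.trans (Cfsg.Agent.H7.isConj_of_odd_orderOf_mul (hsq _ (hord x)) hz hxz)
    have h1 := step x ⟨z, hcz⟩ hxz
    have h2 := step ⟨z, hcz⟩ y hzy
    calc Γ.edist x y ≤ Γ.edist x ⟨z, hcz⟩ + Γ.edist ⟨z, hcz⟩ y := SimpleGraph.edist_triangle
      _ ≤ 1 + 1 := add_le_add h1 h2
      _ = 2 := by norm_num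
  have hediam : Γ.ediam ≤ 2 := SimpleGraph.ediam_le_of_edist_le key
  have hne : Γ.ediam ≠ ⊤ := ne_top_of_le_ne_top (by simp) hediam
  have : Nonempty {x : G // IsConj t x} := ⟨⟨t, IsConj.refl t⟩⟩
  have hconn : Γ.Connected := SimpleGraph.connected_of_ediam_ne_top hne
  refine ⟨hconn, le_antisymm ?_ ?_⟩
  · have h1 : Γ.diam = Γ.ediam.toNat := rfl
    rw [h1]
    exact ENat.toNat_le_of_le_natCast hediam
  · obtain ⟨s, hcs, hts⟩ := H2
    have hs : orderOf s = 2 := hord ⟨s, hcs⟩
    have hst : orderOf (s * t) = 2 := by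
      have : s * t = (t * s)⁻¹ := by
        rw [mul_inv_rev, inv_eq_of_mul_eq_one_right (hsq _ hs),
          inv_eq_of_mul_eq_one_right (hsq _ ht)]
      rw [this, orderOf_inv, hts]
    have hdist : 2 ≤ Γ.dist (⟨t, IsConj.refl t⟩ : {x : G // IsConj t x}) ⟨s, hcs⟩ := by
      by_contra hlt
      rw [not_le] at hlt
      have h01 : Γ.dist (⟨t, IsConj.refl t⟩ : {x : G // IsConj t x}) ⟨s, hcs⟩ = 0 ∨
          Γ.dist (⟨t, IsConj.refl t⟩ : {x : G // IsConj t x}) ⟨s, hcs⟩ = 1 := by omega
      rcases h01 with h0 | h1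
      · have := (hconn.dist_eq_zero_iff).mp h0
        have hts' : t = s := congrArg Subtype.val this
        rw [← hts', hsq _ ht, orderOf_one] at hts
        exact absurd hts (by norm_num)
      · have hadj := SimpleGraph.dist_eq_one_iff_adj.mp h1
        rw [hΓ, SimpleGraph.fromRel_adj] at hadj
        rcases hadj.2 with h | h
        · simp only [hts] at h; exact absurd h (by decide)
        · simp only [hst] at h; exact absurd h (by decide)
    exact hdist.trans (SimpleGraph.dist_le_diam hne)

/-- The odd-product graph on a class of involutions of `Sym(n)`, `n ≥ 5`, is connected of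
diameter two. -/
theorem symm_invGraph {n : ℕ} (hn : 5 ≤ n) (t : Perm (Fin n)) (ht : orderOf t = 2) :
    (SimpleGraph.fromRel fun x y : {x : Perm (Fin n) // IsConj t x} =>
        Odd (orderOf (x.1 * y.1))).Connected ∧
    (SimpleGraph.fromRel fun x y : {x : Perm (Fin n) // IsConj t x} =>
        Odd (orderOf (x.1 * y.1))).diam = 2 := by
  have hsq : ∀ x : Perm (Fin n), IsConj t x → x * x = 1 := by
    intro x hx
    obtain ⟨c, hc⟩ := hx
    have : orderOf x = 2 := by rw [← hc.orderOf_eq, ht]
    rw [← pow_two, ← this, pow_orderOf_eq_one]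
  have hcard : ∀ x : Perm (Fin n), IsConj t x → x.support.card = t.support.card := by
    intro x hx
    obtain ⟨c, hc⟩ := isConj_iff.mp hx
    rw [← hc, card_support_conj]
  apply invGraph_class_connected_diam t ht
  · intro x y hx hy
    exact exists_common_nb hn x y (hsq x hx) (hsq y hy) ((hcard x hx).trans (hcard y hy).symm)
  · exact exists_commuting_conj hn t ht

end Cfsg.Agent.H16.OddG
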