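import Cfsg.Agent.H16.OddIns

set_option autoImplicit false
set_option linter.unusedSectionVars false

namespace Cfsg.Agent.H16.OddG

open Equiv Equiv.Perm

variable {α : Type*} [DecidableEq α] [Fintype α]

/-- The 3-cycle `w → a → b → w`. -/
def cyc3 (w a b : α) : Perm α := swap w b * swap w a

theorem cyc3_apply_of_ne {w a b s : α} (h1 : s ≠ w) (h2 : s ≠ a) (h3 : s ≠ b) :
    cyc3 w a b s = s := by
  simp [cyc3, swap_apply_of_ne_of_ne h1 h2, swap_apply_of_ne_of_ne h1 h3]

theorem odd_orderOf_mul_cyc3 (ρ : Perm α) {w a b : α} (hwa : w ≠ a) (hwb : w ≠ b) (hab : a ≠ b)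
    (hρa : ρ a = a) (hρb : ρ b = b) (hρ : Odd (orderOf ρ)) :
    Odd (orderOf (ρ * cyc3 w a b)) := by
  apply odd_orderOf_mul_ins ρ (cyc3 w a b) hwa hwb hρa hρb hρ
  · simp [cyc3, swap_apply_of_ne_of_ne hwa.symm hab]
  · simp [cyc3]
  · simp [cyc3, swap_apply_of_ne_of_ne hwb.symm hab.symm]
  · intro s h1 h2 h3
    exact cyc3_apply_of_ne h1 h2 h3

/-- Distinctness of two entries of a duplicate-free list. -/
theorem nd_ne {l : List α} (hl : l.Nodup) {k : ℕ} (hk : l.length = k) (i j : Fin k) (h : i ≠ j) :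
    l.get (i.cast hk.symm) ≠ l.get (j.cast hk.symm) := by
  intro heq
  have := (List.Nodup.get_inj_iff hl).mp heq
  apply h
  ext
  have h2 := congrArg Fin.val this
  simpa using h2

theorem odd_orderOf_mul_cyc3_cyc3 (ρ : Perm α) {w a b w' a' b' : α}
    (hl : [w, a, b, w', a', b'].Nodup)
    (hρa : ρ a = a) (hρb : ρ b = b) (hρa' : ρ a' = a') (hρb' : ρ b' = b')
    (hρ : Odd (orderOf ρ)) :
    Odd (orderOf (ρ * (cyc3 w a b * cyc3 w' a' b'))) := by
  have hwa : w ≠ a := nd_ne hl (k := 6) rfl 0 1 (by decide)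
  have hwb : w ≠ b := nd_ne hl (k := 6) rfl 0 2 (by decide)
  have hab : a ≠ b := nd_ne hl (k := 6) rfl 1 2 (by decide)
  have hwa' : w' ≠ a' := nd_ne hl (k := 6) rfl 3 4 (by decide)
  have hwb' : w' ≠ b' := nd_ne hl (k := 6) rfl 3 5 (by decide)
  have hab' : a' ≠ b' := nd_ne hl (k := 6) rfl 4 5 (by decide)
  have h1 : a' ≠ w := nd_ne hl (k := 6) rfl 4 0 (by decide)
  have h2 : a' ≠ a := nd_ne hl (k := 6) rfl 4 1 (by decide)
  have h3 : a' ≠ b := nd_ne hl (k := 6) rfl 4 2 (by decide)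
  have h4 : b' ≠ w := nd_ne hl (k := 6) rfl 5 0 (by decide)
  have h5 : b' ≠ a := nd_ne hl (k := 6) rfl 5 1 (by decide)
  have h6 : b' ≠ b := nd_ne hl (k := 6) rfl 5 2 (by decide)
  rw [← mul_assoc]
  apply odd_orderOf_mul_cyc3 _ hwa' hwb' hab'
  · rw [Perm.mul_apply, cyc3_apply_of_ne h1 h2 h3, hρa']
  · rw [Perm.mul_apply, cyc3_apply_of_ne h4 h5 h6, hρb']
  · exact odd_orderOf_mul_cyc3 ρ hwa hwb hab hρa hρb hρ

theorem orderOf_mul_rot (a b : Perm α) : orderOf (a * b) = orderOf (b * a) :=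
  SemiconjBy.orderOf_eq b (show SemiconjBy b (a * b) (b * a) from (mul_assoc b a b).symm)

theorem sq_mul_of_comm {a b : Perm α} (ha : a * a = 1) (hb : b * b = 1) (hc : a * b = b * a) :
    a * b * (a * b) = 1 := by
  calc a * b * (a * b) = a * (b * a) * b := by group
    _ = a * (a * b) * b := by rw [hc]
    _ = (a * a) * (b * b) := by group
    _ = 1 := by rw [ha, hb, one_mul]

theorem comm_swap_of_fix (g : Perm α) {u v : α} (hu : g u = u) (hv : g v = v) :
    g * swap u v = swap u v * g := by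
  rw [mul_swap_eq_swap_mul, hu, hv]

theorem inv_apply_of_sq {x : Perm α} (hx : x * x = 1) {u v : α} (h : x u = v) : x v = u := by
  have : (x * x) u = u := by rw [hx]; rfl
  rw [Perm.mul_apply, h] at this
  exact this

/-- `Sol x y`: a common odd-product neighbour of the involutions `x`, `y`, fixing their
common fixed points. -/
def Sol (x y : Perm α) : Prop :=
  ∃ z : Perm α, z * z = 1 ∧ (∀ s, x s = s → y s = s → z s = s) ∧
    Odd (orderOf (x * z)) ∧ Odd (orderOf (z * y))

theorem Sol.symm {x y : Perm α} (h : Sol x y) : Sol y x := by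
  obtain ⟨z, hz, hfix, h1, h2⟩ := h
  refine ⟨z, hz, fun s hs1 hs2 => hfix s hs2 hs1, ?_, ?_⟩
  · rw [orderOf_mul_rot]; exact h2
  · rw [orderOf_mul_rot]; exact h1

theorem sol_self {x : Perm α} (hx : x * x = 1) : Sol x x :=
  ⟨x, hx, fun s hs _ => hs, by rw [hx, orderOf_one]; exact odd_one,
    by rw [hx, orderOf_one]; exact odd_one⟩

/-- The exceptional configuration: two distinct commuting fixed-point-free involutions on
four points. -/
def IsB4 (x y : Perm α) : Prop :=
  ∃ a b c d : α, [a, b, c, d].Nodup ∧ x = swap a b * swap c d ∧ y = swap a d * swap b c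

/-- Removing the edge `{u, v}` from an involution. -/
structure ERem (x x' : Perm α) (u v : α) : Prop where
  ne : u ≠ v
  xu : x u = v
  xv : x v = u
  sq : x' * x' = 1
  fu : x' u = u
  fv : x' v = v
  off : ∀ s, s ≠ u → s ≠ v → x' s = x s
  eq : x = x' * swap u v
  card : x.support.card = x'.support.card + 2

theorem erem {x : Perm α} (hx : x * x = 1) {u v : α} (huv : u ≠ v) (hxu : x u = v) :
    ERem x (x * swap u v) u v := by
  have hxv : x v = u := inv_apply_of_sq hx hxu
  have hcomm : x * swap u v = swap u v * x := by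
    rw [mul_swap_eq_swap_mul, hxu, hxv, swap_comm]
  have hfu : (x * swap u v) u = u := by simp [hxv]
  have hfv : (x * swap u v) v = v := by simp [hxu]
  have heq : x = x * swap u v * swap u v := by rw [mul_assoc, swap_mul_self, mul_one]
  refine ⟨huv, hxu, hxv, sq_mul_of_comm hx (swap_mul_self u v) hcomm, hfu, hfv, ?_, heq, ?_⟩
  · intro s h1 h2
    simp [swap_apply_of_ne_of_ne h1 h2]
  · have hdis : Disjoint (x * swap u v) (swap u v) := by
      intro t
      by_cases h1 : t = u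
      · left; rw [h1, hfu]
      by_cases h2 : t = v
      · left; rw [h2, hfv]
      right; exact swap_apply_of_ne_of_ne h1 h2
    have := hdis.card_support_mul
    rw [← heq, card_support_swap huv] at this
    exact this

theorem ERem.fix {x x' : Perm α} {u v : α} (h : ERem x x' u v) {s : α} (hs : x s = s) :
    x' s = s := by
  have h1 : s ≠ u := by
    rintro rfl; exact h.ne (hs.symm.trans h.xu)
  have h2 : s ≠ v := by
    rintro rfl; exact h.ne (h.xv.symm.trans hs)
  rw [h.off s h1 h2, hs]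

theorem ERem.agree {x x' : Perm α} {u v : α} (h : ERem x x' u v) {s : α} (hs : x' s ≠ s) :
    x' s = x s := by
  apply h.off
  · rintro rfl; exact hs h.fu
  · rintro rfl; exact hs h.fv

theorem card_mul_swap_of_fix (g : Perm α) {u v : α} (huv : u ≠ v) (hu : g u = u) (hv : g v = v) :
    (g * swap u v).support.card = g.support.card + 2 := by
  have hdis : Disjoint g (swap u v) := by
    intro t
    by_cases h1 : t = u
    · left; rw [h1, hu]
    by_cases h2 : t = v
    · left; rw [h2, hv]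
    right; exact swap_apply_of_ne_of_ne h1 h2
  rw [hdis.card_support_mul, card_support_swap huv]

theorem ERem.mul_cancel {x x' z' : Perm α} {u v : α} (ex : ERem x x' u v) (hzu : z' u = u)
    (hzv : z' v = v) : x * (z' * swap u v) = x' * z' := by
  have hzc := comm_swap_of_fix z' hzu hzv
  rw [ex.eq]
  calc x' * swap u v * (z' * swap u v)
      = x' * (swap u v * z') * swap u v := by group
    _ = x' * (z' * swap u v) * swap u v := by rw [hzc]
    _ = x' * z' * (swap u v * swap u v) := by group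
    _ = x' * z' := by rw [swap_mul_self, mul_one]

theorem ERem.mul_cancel' {y y' z' : Perm α} {u v : α} (ey : ERem y y' u v) :
    (z' * swap u v) * y = z' * y' := by
  have hyc := comm_swap_of_fix y' ey.fu ey.fv
  rw [ey.eq]
  calc z' * swap u v * (y' * swap u v)
      = z' * (swap u v * y') * swap u v := by group
    _ = z' * (y' * swap u v) * swap u v := by rw [hyc]
    _ = z' * y' * (swap u v * swap u v) := by group
    _ = z' * y' := by rw [swap_mul_self, mul_one]

/-- Step E: a common edge. -/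
theorem sol_edge {x y x' y' : Perm α} {u v : α} (ex : ERem x x' u v) (ey : ERem y y' u v)
    (h : Sol x' y') : Sol x y := by
  obtain ⟨z', hz', hfix, h1, h2⟩ := h
  have hzu : z' u = u := hfix u ex.fu ey.fu
  have hzv : z' v = v := hfix v ex.fv ey.fv
  have hzc := comm_swap_of_fix z' hzu hzv
  refine ⟨z' * swap u v, sq_mul_of_comm hz' (swap_mul_self u v) hzc, ?_, ?_, ?_⟩
  · intro s hs1 hs2
    have hsu : s ≠ u := by rintro rfl; exact ex.ne (hs1.symm.trans ex.xu)
    have hsv : s ≠ v := by rintro rfl; exact ex.ne (ex.xv.symm.trans hs1)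
    rw [Perm.mul_apply, swap_apply_of_ne_of_ne hsu hsv]
    exact hfix s (ex.fix hs1) (ey.fix hs2)
  · rw [ex.mul_cancel hzu hzv]; exact h1
  · rw [ey.mul_cancel']; exact h2

/-- Step P: peel the end `v - u - w` of a path (`v` fixed by `y`). -/
theorem sol_peel {x y x' y' : Perm α} {v u w : α} (ex : ERem x x' v u) (ey : ERem y y' u w)
    (hyv : y v = v) (h : Sol x' y') : Sol x y := by
  obtain ⟨z', hz', hfix, h1, h2⟩ := h
  have hvu := ex.ne
  have huw := ey.ne
  have hvw : v ≠ w := by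
    rintro rfl
    exact hvu (hyv.symm.trans ey.xv)
  have hy'v : y' v = v := by rw [ey.off v hvu hvw, hyv]
  have hzv : z' v = v := hfix v ex.fu hy'v
  have hzu : z' u = u := hfix u ex.fv ey.fu
  have hzc := comm_swap_of_fix z' hzv hzu
  have hyc := comm_swap_of_fix y' hy'v ey.fu
  refine ⟨z' * swap v u, sq_mul_of_comm hz' (swap_mul_self v u) hzc, ?_, ?_, ?_⟩
  · intro s hs1 hs2
    have hsv : s ≠ v := by rintro rfl; exact hvu (hs1.symm.trans ex.xu)
    have hsu : s ≠ u := by rintro rfl; exact hvu (ex.xv.symm.trans hs1)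
    rw [Perm.mul_apply, swap_apply_of_ne_of_ne hsv hsu]
    exact hfix s (ex.fix hs1) (ey.fix hs2)
  · rw [ex.mul_cancel hzv hzu]; exact h1
  · have hl : [v, u, w].Nodup := by simp [hvu, hvw, huw]
    have hinj : Function.Injective (fun i : Fin 3 => [v, u, w].get i) :=
      List.nodup_iff_injective_get.mp hl
    have hid : swap v u * swap u w = cyc3 w v u := by
      have hdec : (swap 0 1 * swap 1 2 : Perm (Fin 3)) = swap 2 1 * swap 2 0 := by decide
      have h := congrArg (emb _ hinj) hdec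
      simp only [map_mul, emb_swap] at h
      exact h
    have : z' * swap v u * y = z' * y' * cyc3 w v u := by
      rw [ey.eq]
      calc z' * swap v u * (y' * swap u w)
          = z' * (swap v u * y') * swap u w := by group
        _ = z' * (y' * swap v u) * swap u w := by rw [hyc]
        _ = z' * y' * (swap v u * swap u w) := by group
        _ = z' * y' * cyc3 w v u := by rw [hid]
    rw [this]
    apply odd_orderOf_mul_cyc3 _ hvw.symm huw.symm hvu
    · rw [Perm.mul_apply, hy'v, hzv]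
    · rw [Perm.mul_apply, ey.fu, hzu]
    · exact h2

/-- Step Q: an `x`-only edge `{p1, p2}` and a `y`-only edge `{q1, q2}`. -/
theorem sol_pq {x y x' y' : Perm α} {p1 p2 q1 q2 : α} (ex : ERem x x' p1 p2)
    (ey : ERem y y' q1 q2) (hyp1 : y p1 = p1) (hyp2 : y p2 = p2) (hxq1 : x q1 = q1)
    (h : Sol x' y') : Sol x y := by
  obtain ⟨z', hz', hfix, h1, h2⟩ := h
  have hp := ex.ne
  have hq := ey.ne
  have h11 : p1 ≠ q1 := by rintro rfl; exact hq (hyp1.symm.trans ey.xu)
  have h12 : p1 ≠ q2 := by rintro rfl; exact hq (ey.xv.symm.trans hyp1)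
  have h21 : p2 ≠ q1 := by rintro rfl; exact hq (hyp2.symm.trans ey.xu)
  have h22 : p2 ≠ q2 := by rintro rfl; exact hq (ey.xv.symm.trans hyp2)
  have hy'p1 : y' p1 = p1 := by rw [ey.off p1 h11 h12, hyp1]
  have hy'p2 : y' p2 = p2 := by rw [ey.off p2 h21 h22, hyp2]
  have hx'q1 : x' q1 = q1 := by rw [ex.off q1 h11.symm h21.symm, hxq1]
  have hzp1 : z' p1 = p1 := hfix p1 ex.fu hy'p1
  have hzp2 : z' p2 = p2 := hfix p2 ex.fv hy'p2
  have hzq1 : z' q1 = q1 := hfix q1 hx'q1 ey.fu
  have hzc := comm_swap_of_fix z' hzp1 hzq1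
  have hzc2 := comm_swap_of_fix z' hzp1 hzp2
  have hyc := comm_swap_of_fix y' hy'p1 ey.fu
  refine ⟨z' * swap p1 q1, sq_mul_of_comm hz' (swap_mul_self p1 q1) hzc, ?_, ?_, ?_⟩
  · intro s hs1 hs2
    have hsp : s ≠ p1 := by rintro rfl; exact hp (hs1.symm.trans ex.xu)
    have hsq : s ≠ q1 := by rintro rfl; exact hq (hs2.symm.trans ey.xu)
    rw [Perm.mul_apply, swap_apply_of_ne_of_ne hsp hsq]
    exact hfix s (ex.fix hs1) (ey.fix hs2)
  · have hl : [p1, p2, q1].Nodup := by simp [hp, h11, h21]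
    have hinj : Function.Injective (fun i : Fin 3 => [p1, p2, q1].get i) :=
      List.nodup_iff_injective_get.mp hl
    have hid : swap p1 p2 * swap p1 q1 = cyc3 q1 p2 p1 := by
      have hdec : (swap 0 1 * swap 0 2 : Perm (Fin 3)) = swap 2 0 * swap 2 1 := by decide
      have h := congrArg (emb _ hinj) hdec
      simp only [map_mul, emb_swap] at h
      exact h
    have : x * (z' * swap p1 q1) = x' * z' * cyc3 q1 p2 p1 := by
      rw [ex.eq]
      calc x' * swap p1 p2 * (z' * swap p1 q1)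
          = x' * (swap p1 p2 * z') * swap p1 q1 := by group
        _ = x' * (z' * swap p1 p2) * swap p1 q1 := by rw [hzc2]
        _ = x' * z' * (swap p1 p2 * swap p1 q1) := by group
        _ = x' * z' * cyc3 q1 p2 p1 := by rw [hid]
    rw [this]
    apply odd_orderOf_mul_cyc3 _ h21.symm h11.symm hp.symm
    · rw [Perm.mul_apply, hzp2, ex.fv]
    · rw [Perm.mul_apply, hzp1, ex.fu]
    · exact h1
  · have hl : [p1, q1, q2].Nodup := by simp [h11, h12, hq]
    have hinj : Function.Injective (fun i : Fin 3 => [p1, q1, q2].get i) :=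
      List.nodup_iff_injective_get.mp hl
    have hid : swap p1 q1 * swap q1 q2 = cyc3 q2 p1 q1 := by
      have hdec : (swap 0 1 * swap 1 2 : Perm (Fin 3)) = swap 2 1 * swap 2 0 := by decide
      have h := congrArg (emb _ hinj) hdec
      simp only [map_mul, emb_swap] at h
      exact h
    have : z' * swap p1 q1 * y = z' * y' * cyc3 q2 p1 q1 := by
      rw [ey.eq]
      calc z' * swap p1 q1 * (y' * swap q1 q2)
          = z' * (swap p1 q1 * y') * swap q1 q2 := by group
        _ = z' * (y' * swap p1 q1) * swap q1 q2 := by rw [hyc]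
        _ = z' * y' * (swap p1 q1 * swap q1 q2) := by group
        _ = z' * y' * cyc3 q2 p1 q1 := by rw [hid]
    rw [this]
    apply odd_orderOf_mul_cyc3 _ h12.symm hq.symm h11
    · rw [Perm.mul_apply, hy'p1, hzp1]
    · rw [Perm.mul_apply, ey.fu, hzq1]
    · exact h2

theorem odd_orderOf_mul_cyc3_cyc3_fin {k : ℕ} (f : Fin k → α) (hf : Function.Injective f)
    (ρ : Perm α) (i0 i1 i2 i3 i4 i5 : Fin k) (hnd : [i0, i1, i2, i3, i4, i5].Nodup)
    (h1 : ρ (f i1) = f i1) (h2 : ρ (f i2) = f i2) (h4 : ρ (f i4) = f i4)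
    (h5 : ρ (f i5) = f i5) (hρ : Odd (orderOf ρ)) :
    Odd (orderOf (ρ * (cyc3 (f i0) (f i1) (f i2) * cyc3 (f i3) (f i4) (f i5)))) := by
  have hl : [f i0, f i1, f i2, f i3, f i4, f i5].Nodup := List.Nodup.map hf hnd
  exact odd_orderOf_mul_cyc3_cyc3 ρ hl h1 h2 h4 h5 hρ

/-- Data of the reduced pair in Step C (shortening a cycle by four points). -/
theorem cycle_data {y y1 y2 y3 y' : Perm α} {vm v0 v1 v2 v3 v4 : α}
    (hl : [vm, v0, v1, v2, v3, v4].Nodup)
    (ey1 : ERem y y1 vm v0) (ey2 : ERem y1 y2 v1 v2) (ey3 : ERem y2 y3 v3 v4)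
    (hy' : y' = y3 * swap vm v4) :
    y' * y' = 1 ∧ y.support.card = y'.support.card + 4 ∧ y' v0 = v0 ∧ y' v1 = v1 ∧
      y' v2 = v2 ∧ y' v3 = v3 ∧ y' v4 = vm ∧ y' vm = v4 ∧
      y = y' * swap vm v4 * swap v3 v4 * swap v1 v2 * swap vm v0 ∧
      (∀ s, y s = s → y' s = s) := by
  subst hy'
  have hinj : Function.Injective (fun i : Fin 6 => [vm, v0, v1, v2, v3, v4].get i) :=
    List.nodup_iff_injective_get.mp hl
  have hm0 : vm ≠ v0 := hinj.ne (by decide : (0 : Fin 6) ≠ 1)
  have hm1 : vm ≠ v1 := hinj.ne (by decide : (0 : Fin 6) ≠ 2)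
  have hm2 : vm ≠ v2 := hinj.ne (by decide : (0 : Fin 6) ≠ 3)
  have hm3 : vm ≠ v3 := hinj.ne (by decide : (0 : Fin 6) ≠ 4)
  have hm4 : vm ≠ v4 := hinj.ne (by decide : (0 : Fin 6) ≠ 5)
  have h01 : v0 ≠ v1 := hinj.ne (by decide : (1 : Fin 6) ≠ 2)
  have h02 : v0 ≠ v2 := hinj.ne (by decide : (1 : Fin 6) ≠ 3)
  have h03 : v0 ≠ v3 := hinj.ne (by decide : (1 : Fin 6) ≠ 4)
  have h04 : v0 ≠ v4 := hinj.ne (by decide : (1 : Fin 6) ≠ 5)
  have h12 : v1 ≠ v2 := hinj.ne (by decide : (2 : Fin 6) ≠ 3)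
  have h13 : v1 ≠ v3 := hinj.ne (by decide : (2 : Fin 6) ≠ 4)
  have h14 : v1 ≠ v4 := hinj.ne (by decide : (2 : Fin 6) ≠ 5)
  have h23 : v2 ≠ v3 := hinj.ne (by decide : (3 : Fin 6) ≠ 4)
  have h24 : v2 ≠ v4 := hinj.ne (by decide : (3 : Fin 6) ≠ 5)
  have h34 : v3 ≠ v4 := hinj.ne (by decide : (4 : Fin 6) ≠ 5)
  have h3m : y3 vm = vm := by
    rw [ey3.off vm hm3 hm4, ey2.off vm hm1 hm2]; exact ey1.fu
  have h3v4 : y3 v4 = v4 := ey3.fv
  have h3v0 : y3 v0 = v0 := by
    rw [ey3.off v0 h03 h04, ey2.off v0 h01 h02]; exact ey1.fv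
  have h3v1 : y3 v1 = v1 := by
    rw [ey3.off v1 h13 h14]; exact ey2.fu
  have h3v2 : y3 v2 = v2 := by
    rw [ey3.off v2 h23 h24]; exact ey2.fv
  have h3v3 : y3 v3 = v3 := ey3.fu
  have hc3 := comm_swap_of_fix y3 h3m h3v4
  refine ⟨sq_mul_of_comm ey3.sq (swap_mul_self vm v4) hc3, ?_, ?_, ?_, ?_, ?_, ?_, ?_, ?_, ?_⟩
  · have := card_mul_swap_of_fix y3 hm4 h3m h3v4
    have c1 := ey1.card
    have c2 := ey2.card
    have c3 := ey3.card
    omega
  · rw [Perm.mul_apply, swap_apply_of_ne_of_ne hm0.symm h04, h3v0]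
  · rw [Perm.mul_apply, swap_apply_of_ne_of_ne hm1.symm h14, h3v1]
  · rw [Perm.mul_apply, swap_apply_of_ne_of_ne hm2.symm h24, h3v2]
  · rw [Perm.mul_apply, swap_apply_of_ne_of_ne hm3.symm h34, h3v3]
  · rw [Perm.mul_apply, swap_apply_right, h3m]
  · rw [Perm.mul_apply, swap_apply_left, h3v4]
  · rw [ey1.eq, ey2.eq, ey3.eq]
    simp [mul_assoc]
  · intro s hs
    have hs1 := ey1.fix hs
    have hs2 := ey2.fix hs1
    have hs3 := ey3.fix hs2
    have hsm : s ≠ vm := by rintro rfl; exact hm0 (hs.symm.trans ey1.xu)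
    have hs4 : s ≠ v4 := by rintro rfl; exact h34 (ey3.xv.symm.trans hs2)
    rw [Perm.mul_apply, swap_apply_of_ne_of_ne hsm hs4, hs3]

/-- Step C: shortening a cycle by four points. -/
theorem sol_cycle {x y x1 x' y1 y2 y3 y' : Perm α} {vm v0 v1 v2 v3 v4 : α}
    (hl : [vm, v0, v1, v2, v3, v4].Nodup)
    (ex1 : ERem x x1 v0 v1) (ex2 : ERem x1 x' v2 v3)
    (ey1 : ERem y y1 vm v0) (ey2 : ERem y1 y2 v1 v2) (ey3 : ERem y2 y3 v3 v4)
    (hy' : y' = y3 * swap vm v4) (h : Sol x' y') : Sol x y := by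
  obtain ⟨hy'sq, -, hy0, hy1, hy2, hy3, -, -, hyeq, hyfix⟩ := cycle_data hl ey1 ey2 ey3 hy'
  obtain ⟨z', hz', hfix, h1, h2⟩ := h
  have hinj : Function.Injective (fun i : Fin 6 => [vm, v0, v1, v2, v3, v4].get i) :=
    List.nodup_iff_injective_get.mp hl
  have h01 : v0 ≠ v1 := hinj.ne (by decide : (1 : Fin 6) ≠ 2)
  have h02 : v0 ≠ v2 := hinj.ne (by decide : (1 : Fin 6) ≠ 3)
  have h03 : v0 ≠ v3 := hinj.ne (by decide : (1 : Fin 6) ≠ 4)
  have h12 : v1 ≠ v2 := hinj.ne (by decide : (2 : Fin 6) ≠ 3)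
  have h13 : v1 ≠ v3 := hinj.ne (by decide : (2 : Fin 6) ≠ 4)
  have h23 : v2 ≠ v3 := hinj.ne (by decide : (3 : Fin 6) ≠ 4)
  have hx0 : x' v0 = v0 := by rw [ex2.off v0 h02 h03]; exact ex1.fu
  have hx1 : x' v1 = v1 := by rw [ex2.off v1 h12 h13]; exact ex1.fv
  have hx2 : x' v2 = v2 := ex2.fu
  have hx3 : x' v3 = v3 := ex2.fv
  have hz0 : z' v0 = v0 := hfix v0 hx0 hy0
  have hz1 : z' v1 = v1 := hfix v1 hx1 hy1
  have hz2 : z' v2 = v2 := hfix v2 hx2 hy2
  have hz3 : z' v3 = v3 := hfix v3 hx3 hy3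
  have hz01 := comm_swap_of_fix z' hz0 hz1
  have hz23 := comm_swap_of_fix z' hz2 hz3
  have hy01 := comm_swap_of_fix y' hy0 hy1
  have hy23 := comm_swap_of_fix y' hy2 hy3
  have hzz2 : (z' * swap v0 v1) v2 = v2 := by
    rw [Perm.mul_apply, swap_apply_of_ne_of_ne h02.symm h12.symm, hz2]
  have hzz3 : (z' * swap v0 v1) v3 = v3 := by
    rw [Perm.mul_apply, swap_apply_of_ne_of_ne h03.symm h13.symm, hz3]
  refine ⟨z' * swap v0 v1 * swap v2 v3,
    sq_mul_of_comm (sq_mul_of_comm hz' (swap_mul_self v0 v1) hz01) (swap_mul_self v2 v3)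
      (comm_swap_of_fix _ hzz2 hzz3), ?_, ?_, ?_⟩
  · intro s hs1 hs2
    have hs1' := ex1.fix hs1
    have hsv0 : s ≠ v0 := by rintro rfl; exact h01 (hs1.symm.trans ex1.xu)
    have hsv1 : s ≠ v1 := by rintro rfl; exact h01 (ex1.xv.symm.trans hs1)
    have hsv2 : s ≠ v2 := by rintro rfl; exact h23 (hs1'.symm.trans ex2.xu)
    have hsv3 : s ≠ v3 := by rintro rfl; exact h23 (ex2.xv.symm.trans hs1')
    rw [Perm.mul_apply, Perm.mul_apply, swap_apply_of_ne_of_ne hsv2 hsv3,
      swap_apply_of_ne_of_ne hsv0 hsv1]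
    exact hfix s (ex2.fix hs1') (hyfix s hs2)
  · have : x * (z' * swap v0 v1 * swap v2 v3) = x' * z' := by
      rw [ex1.eq, ex2.eq]
      calc x' * swap v2 v3 * swap v0 v1 * (z' * swap v0 v1 * swap v2 v3)
          = x' * swap v2 v3 * (swap v0 v1 * z') * swap v0 v1 * swap v2 v3 := by group
        _ = x' * swap v2 v3 * (z' * swap v0 v1) * swap v0 v1 * swap v2 v3 := by rw [hz01]
        _ = x' * (swap v2 v3 * z') * (swap v0 v1 * swap v0 v1) * swap v2 v3 := by group
        _ = x' * (z' * swap v2 v3) * (swap v0 v1 * swap v0 v1) * swap v2 v3 := by rw [hz23]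
        _ = x' * z' := by simp [mul_assoc]
    rw [this]; exact h1
  · have hid : swap v0 v1 * swap v2 v3 * swap vm v4 * swap v3 v4 * swap v1 v2 * swap vm v0
        = cyc3 v4 v2 v0 * cyc3 vm v1 v3 := by
      have hdec : (swap 1 2 * swap 3 4 * swap 0 5 * swap 4 5 * swap 2 3 * swap 0 1 :
          Perm (Fin 6)) = (swap 5 1 * swap 5 3) * (swap 0 4 * swap 0 2) := by decide
      have h := congrArg (emb _ hinj) hdec
      simp only [map_mul, emb_swap] at h
      exact h
    have : z' * swap v0 v1 * swap v2 v3 * y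
        = z' * y' * (cyc3 v4 v2 v0 * cyc3 vm v1 v3) := by
      rw [hyeq]
      calc z' * swap v0 v1 * swap v2 v3 *
            (y' * swap vm v4 * swap v3 v4 * swap v1 v2 * swap vm v0)
          = z' * swap v0 v1 * (swap v2 v3 * y') * swap vm v4 * swap v3 v4 * swap v1 v2 *
              swap vm v0 := by group
        _ = z' * swap v0 v1 * (y' * swap v2 v3) * swap vm v4 * swap v3 v4 * swap v1 v2 *
              swap vm v0 := by rw [hy23]
        _ = z' * (swap v0 v1 * y') * swap v2 v3 * swap vm v4 * swap v3 v4 * swap v1 v2 *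
              swap vm v0 := by group
        _ = z' * (y' * swap v0 v1) * swap v2 v3 * swap vm v4 * swap v3 v4 * swap v1 v2 *
              swap vm v0 := by rw [hy01]
        _ = z' * y' * (swap v0 v1 * swap v2 v3 * swap vm v4 * swap v3 v4 * swap v1 v2 *
              swap vm v0) := by group
        _ = z' * y' * (cyc3 v4 v2 v0 * cyc3 vm v1 v3) := by rw [hid]
    rw [this]
    exact odd_orderOf_mul_cyc3_cyc3_fin _ hinj (z' * y') 5 3 1 0 2 4 (by decide)
      (by show (z' * y') v2 = v2; rw [Perm.mul_apply, hy2, hz2])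
      (by show (z' * y') v0 = v0; rw [Perm.mul_apply, hy0, hz0])
      (by show (z' * y') v1 = v1; rw [Perm.mul_apply, hy1, hz1])
      (by show (z' * y') v3 = v3; rw [Perm.mul_apply, hy3, hz3]) h2

/-- Step B: glueing a four-point orbit `v0 v1 v2 v3` (`x = (v0 v1)(v3 v2)`,
`y = (v0 v3)(v1 v2)` there) onto a solution `z''` of the rest, at an edge `{w, z'' w}`. -/
theorem sol_b4glue {x y x1 x'' y1 y'' z'' : Perm α} {v0 v1 v2 v3 w : α}
    (ex1 : ERem x x1 v0 v1) (ex2 : ERem x1 x'' v3 v2)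
    (ey1 : ERem y y1 v0 v3) (ey2 : ERem y1 y'' v1 v2)
    (hnd : [v0, v1, v2, v3].Nodup)
    (hz : z'' * z'' = 1) (hfix : ∀ s, x'' s = s → y'' s = s → z'' s = s)
    (h1 : Odd (orderOf (x'' * z''))) (h2 : Odd (orderOf (z'' * y'')))
    (hw : z'' w ≠ w) : Sol x y := by
  obtain ⟨w', hw'⟩ : ∃ w', z'' w = w' := ⟨_, rfl⟩
  have hww' : w ≠ w' := by rw [← hw']; exact hw.symm
  have hw'w : z'' w' = w := inv_apply_of_sq hz hw'
  have hinj4 : Function.Injective (fun i : Fin 4 => [v0, v1, v2, v3].get i) :=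
    List.nodup_iff_injective_get.mp hnd
  have h01 : v0 ≠ v1 := hinj4.ne (by decide : (0 : Fin 4) ≠ 1)
  have h02 : v0 ≠ v2 := hinj4.ne (by decide : (0 : Fin 4) ≠ 2)
  have h03 : v0 ≠ v3 := hinj4.ne (by decide : (0 : Fin 4) ≠ 3)
  have h12 : v1 ≠ v2 := hinj4.ne (by decide : (1 : Fin 4) ≠ 2)
  have h13 : v1 ≠ v3 := hinj4.ne (by decide : (1 : Fin 4) ≠ 3)
  have h23 : v2 ≠ v3 := hinj4.ne (by decide : (2 : Fin 4) ≠ 3)
  have hx0 : x'' v0 = v0 := by rw [ex2.off v0 h03 h02]; exact ex1.fu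
  have hx1 : x'' v1 = v1 := by rw [ex2.off v1 h13 h12]; exact ex1.fv
  have hx3 : x'' v3 = v3 := ex2.fu
  have hx2 : x'' v2 = v2 := ex2.fv
  have hy0 : y'' v0 = v0 := by rw [ey2.off v0 h01 h02]; exact ey1.fu
  have hy3 : y'' v3 = v3 := by rw [ey2.off v3 h13.symm h23.symm]; exact ey1.fv
  have hy1 : y'' v1 = v1 := ey2.fu
  have hy2 : y'' v2 = v2 := ey2.fv
  have hz0 : z'' v0 = v0 := hfix v0 hx0 hy0
  have hz1 : z'' v1 = v1 := hfix v1 hx1 hy1
  have hz2 : z'' v2 = v2 := hfix v2 hx2 hy2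
  have hz3 : z'' v3 = v3 := hfix v3 hx3 hy3
  have h0w : v0 ≠ w := by rintro rfl; exact hw hz0
  have h1w : v1 ≠ w := by rintro rfl; exact hw hz1
  have h2w : v2 ≠ w := by rintro rfl; exact hw hz2
  have h3w : v3 ≠ w := by rintro rfl; exact hw hz3
  have h0w' : v0 ≠ w' := by rintro rfl; exact hww' (hw'w.symm.trans hz0)
  have h1w' : v1 ≠ w' := by rintro rfl; exact hww' (hw'w.symm.trans hz1)
  have h2w' : v2 ≠ w' := by rintro rfl; exact hww' (hw'w.symm.trans hz2)
  have h3w' : v3 ≠ w' := by rintro rfl; exact hww' (hw'w.symm.trans hz3)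
  have hl : [v0, v1, v2, v3, w, w'].Nodup := by
    simp [h01, h02, h03, h12, h13, h23, h0w, h1w, h2w, h3w, h0w', h1w', h2w', h3w', hww']
  have hinj : Function.Injective (fun i : Fin 6 => [v0, v1, v2, v3, w, w'].get i) :=
    List.nodup_iff_injective_get.mp hl
  have ez := erem hz hww' hw'
  obtain ⟨zo, hzo⟩ : ∃ zo, zo = z'' * swap w w' := ⟨_, rfl⟩
  rw [← hzo] at ez
  have hzo0 : zo v0 = v0 := by rw [ez.off v0 h0w h0w', hz0]
  have hzo1 : zo v1 = v1 := by rw [ez.off v1 h1w h1w', hz1]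
  have hzo2 : zo v2 = v2 := by rw [ez.off v2 h2w h2w', hz2]
  have hzo3 : zo v3 = v3 := by rw [ez.off v3 h3w h3w', hz3]
  have c1 := comm_swap_of_fix zo hzo1 ez.fu
  have c2 := comm_swap_of_fix zo hzo3 ez.fv
  have c3 := comm_swap_of_fix zo hzo0 hzo2
  have hT : (swap v1 w * swap v3 w' * swap v0 v2) * (swap v1 w * swap v3 w' * swap v0 v2) = 1 := by
    have hdec : ((swap 1 4 * swap 3 5 * swap 0 2) * (swap 1 4 * swap 3 5 * swap 0 2) :
        Perm (Fin 6)) = 1 := by decide
    have h := congrArg (emb _ hinj) hdec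
    simp only [map_mul, emb_swap, map_one] at h
    exact h
  have hcT : zo * (swap v1 w * swap v3 w' * swap v0 v2)
      = (swap v1 w * swap v3 w' * swap v0 v2) * zo := by
    calc zo * (swap v1 w * swap v3 w' * swap v0 v2)
        = (zo * swap v1 w) * swap v3 w' * swap v0 v2 := by group
      _ = swap v1 w * (zo * swap v3 w') * swap v0 v2 := by rw [c1]; group
      _ = swap v1 w * swap v3 w' * (zo * swap v0 v2) := by rw [c2]; group
      _ = (swap v1 w * swap v3 w' * swap v0 v2) * zo := by rw [c3]; group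
  have hzeq : z'' * swap w w' * swap v1 w * swap v3 w' * swap v0 v2
      = zo * (swap v1 w * swap v3 w' * swap v0 v2) := by
    rw [hzo]; group
  have hxc01 := comm_swap_of_fix z'' hz0 hz1
  have hxc32 := comm_swap_of_fix z'' hz3 hz2
  have hyc12 := comm_swap_of_fix y'' hy1 hy2
  have hyc03 := comm_swap_of_fix y'' hy0 hy3
  refine ⟨z'' * swap w w' * swap v1 w * swap v3 w' * swap v0 v2, ?_, ?_, ?_, ?_⟩
  · rw [hzeq]
    exact sq_mul_of_comm ez.sq hT hcT
  · intro s hs1 hs2
    have hs1' := ex1.fix hs1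
    have hzs : z'' s = s := hfix s (ex2.fix hs1') (ey2.fix (ey1.fix hs2))
    have hsv0 : s ≠ v0 := by rintro rfl; exact h01 (hs1.symm.trans ex1.xu)
    have hsv1 : s ≠ v1 := by rintro rfl; exact h01 (ex1.xv.symm.trans hs1)
    have hsv3 : s ≠ v3 := by rintro rfl; exact h23 (ex2.xu.symm.trans hs1')
    have hsv2 : s ≠ v2 := by rintro rfl; exact h23 (hs1'.symm.trans ex2.xv)
    have hsw : s ≠ w := by rintro rfl; exact hw hzs
    have hsw' : s ≠ w' := by rintro rfl; exact hww' (hw'w.symm.trans hzs)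
    rw [Perm.mul_apply, Perm.mul_apply, Perm.mul_apply, Perm.mul_apply,
      swap_apply_of_ne_of_ne hsv0 hsv2, swap_apply_of_ne_of_ne hsv3 hsw',
      swap_apply_of_ne_of_ne hsv1 hsw, swap_apply_of_ne_of_ne hsw hsw', hzs]
  · have hid : swap v3 v2 * swap v0 v1 * swap w w' * swap v1 w * swap v3 w' * swap v0 v2
        = cyc3 w v0 v3 * cyc3 w' v2 v1 := by
      have hdec : (swap 3 2 * swap 0 1 * swap 4 5 * swap 1 4 * swap 3 5 * swap 0 2 :
          Perm (Fin 6)) = (swap 4 3 * swap 4 0) * (swap 5 1 * swap 5 2) := by decide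
      have h := congrArg (emb _ hinj) hdec
      simp only [map_mul, emb_swap] at h
      exact h
    have : x * (z'' * swap w w' * swap v1 w * swap v3 w' * swap v0 v2)
        = x'' * z'' * (cyc3 w v0 v3 * cyc3 w' v2 v1) := by
      rw [ex1.eq, ex2.eq]
      calc x'' * swap v3 v2 * swap v0 v1 *
            (z'' * swap w w' * swap v1 w * swap v3 w' * swap v0 v2)
          = x'' * swap v3 v2 * (swap v0 v1 * z'') * swap w w' * swap v1 w * swap v3 w' *
              swap v0 v2 := by group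
        _ = x'' * swap v3 v2 * (z'' * swap v0 v1) * swap w w' * swap v1 w * swap v3 w' *
              swap v0 v2 := by rw [hxc01]
        _ = x'' * (swap v3 v2 * z'') * swap v0 v1 * swap w w' * swap v1 w * swap v3 w' *
              swap v0 v2 := by group
        _ = x'' * (z'' * swap v3 v2) * swap v0 v1 * swap w w' * swap v1 w * swap v3 w' *
              swap v0 v2 := by rw [hxc32]
        _ = x'' * z'' * (swap v3 v2 * swap v0 v1 * swap w w' * swap v1 w * swap v3 w' *
              swap v0 v2) := by group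
        _ = x'' * z'' * (cyc3 w v0 v3 * cyc3 w' v2 v1) := by rw [hid]
    rw [this]
    exact odd_orderOf_mul_cyc3_cyc3_fin _ hinj (x'' * z'') 4 0 3 5 2 1 (by decide)
      (by show (x'' * z'') v0 = v0; rw [Perm.mul_apply, hz0, hx0])
      (by show (x'' * z'') v3 = v3; rw [Perm.mul_apply, hz3, hx3])
      (by show (x'' * z'') v2 = v2; rw [Perm.mul_apply, hz2, hx2])
      (by show (x'' * z'') v1 = v1; rw [Perm.mul_apply, hz1, hx1]) h1
  · have hid : swap w w' * swap v1 w * swap v3 w' * swap v0 v2 * swap v1 v2 * swap v0 v3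
        = cyc3 w v1 v0 * cyc3 w' v3 v2 := by
      have hdec : (swap 4 5 * swap 1 4 * swap 3 5 * swap 0 2 * swap 1 2 * swap 0 3 :
          Perm (Fin 6)) = (swap 4 0 * swap 4 1) * (swap 5 2 * swap 5 3) := by decide
      have h := congrArg (emb _ hinj) hdec
      simp only [map_mul, emb_swap] at h
      exact h
    have : z'' * swap w w' * swap v1 w * swap v3 w' * swap v0 v2 * y
        = z'' * (cyc3 w v1 v0 * cyc3 w' v3 v2) * y'' := by
      rw [ey1.eq, ey2.eq]
      calc z'' * swap w w' * swap v1 w * swap v3 w' * swap v0 v2 *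
            (y'' * swap v1 v2 * swap v0 v3)
          = z'' * swap w w' * swap v1 w * swap v3 w' * swap v0 v2 * (y'' * swap v1 v2) *
              swap v0 v3 := by group
        _ = z'' * swap w w' * swap v1 w * swap v3 w' * swap v0 v2 * (swap v1 v2 * y'') *
              swap v0 v3 := by rw [hyc12]
        _ = z'' * swap w w' * swap v1 w * swap v3 w' * swap v0 v2 * swap v1 v2 *
              (y'' * swap v0 v3) := by group
        _ = z'' * swap w w' * swap v1 w * swap v3 w' * swap v0 v2 * swap v1 v2 *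
              (swap v0 v3 * y'') := by rw [hyc03]
        _ = z'' * (swap w w' * swap v1 w * swap v3 w' * swap v0 v2 * swap v1 v2 *
              swap v0 v3) * y'' := by group
        _ = z'' * (cyc3 w v1 v0 * cyc3 w' v3 v2) * y'' := by rw [hid]
    rw [this, orderOf_mul_rot, ← mul_assoc]
    have h2' : Odd (orderOf (y'' * z'')) := by rw [orderOf_mul_rot]; exact h2
    exact odd_orderOf_mul_cyc3_cyc3_fin _ hinj (y'' * z'') 4 1 0 5 3 2 (by decide)
      (by show (y'' * z'') v1 = v1; rw [Perm.mul_apply, hz1, hy1])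
      (by show (y'' * z'') v0 = v0; rw [Perm.mul_apply, hz0, hy0])
      (by show (y'' * z'') v3 = v3; rw [Perm.mul_apply, hz3, hy3])
      (by show (y'' * z'') v2 = v2; rw [Perm.mul_apply, hz2, hy2]) h2'

theorem emb_apply {k : ℕ} (f : Fin k → α) (hf : Function.Injective f) (g : Perm (Fin k))
    (i : Fin k) : emb f hf g (f i) = f (g i) :=
  Equiv.Perm.viaEmbedding_apply g ⟨f, hf⟩ i

theorem emb_apply_of_notMem {k : ℕ} (f : Fin k → α) (hf : Function.Injective f)
    (g : Perm (Fin k)) (s : α) (hs : s ∉ Set.range f) : emb f hf g s = s :=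
  Equiv.Perm.viaEmbedding_apply_of_notMem g ⟨f, hf⟩ s hs

/-- Explicit solutions transported from `Fin k`. -/
theorem sol_of_fin {k : ℕ} (f : Fin k → α) (hf : Function.Injective f)
    (gx gy gz : Perm (Fin k)) (hz : gz * gz = 1) (hmov : ∀ i, gx i ≠ i)
    (h1 : Odd (orderOf (gx * gz))) (h2 : Odd (orderOf (gz * gy))) :
    Sol (emb f hf gx) (emb f hf gy) := by
  refine ⟨emb f hf gz, ?_, ?_, ?_, ?_⟩
  · rw [← map_mul, hz, map_one]
  · intro s hs1 _
    by_cases hs : s ∈ Set.range f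
    · obtain ⟨i, rfl⟩ := hs
      exfalso
      rw [emb_apply] at hs1
      exact hmov i (hf hs1)
    · exact emb_apply_of_notMem f hf gz s hs
  · rw [← map_mul, emb_orderOf]; exact h1
  · rw [← map_mul, emb_orderOf]; exact h2

set_option maxRecDepth 8000 in
/-- Base case: two four-point orbits. -/
theorem sol_b4b4 {x y : Perm α} {v0 v1 v2 v3 a b c d : α}
    (hl : [v0, v1, v2, v3, a, b, c, d].Nodup)
    (hx : x = swap a b * swap c d * swap v3 v2 * swap v0 v1)
    (hy : y = swap a d * swap b c * swap v1 v2 * swap v0 v3) : Sol x y := by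
  have hinj : Function.Injective (fun i : Fin 8 => [v0, v1, v2, v3, a, b, c, d].get i) :=
    List.nodup_iff_injective_get.mp hl
  have key := sol_of_fin _ hinj
    (swap 4 5 * swap 6 7 * swap 3 2 * swap 0 1) (swap 4 7 * swap 5 6 * swap 1 2 * swap 0 3)
    (swap 6 7 * swap 0 3 * swap 1 4 * swap 2 5) (by decide) (by decide)
    (Odd.of_dvd_nat (by decide : Odd 3) (orderOf_dvd_of_pow_eq_one (by decide)))
    (Odd.of_dvd_nat (by decide : Odd 3) (orderOf_dvd_of_pow_eq_one (by decide)))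
  simp only [map_mul, emb_swap] at key
  rw [hx, hy]
  exact key

set_option maxRecDepth 8000 in
/-- Base case: a single eight-point cycle. -/
theorem sol_c8 {x y : Perm α} {v0 v1 v2 v3 v4 b c vm : α}
    (hl : [v0, v1, v2, v3, v4, b, c, vm].Nodup)
    (hx : x = swap v4 b * swap c vm * swap v2 v3 * swap v0 v1)
    (hy : y = swap v4 vm * swap b c * swap vm v4 * swap v3 v4 * swap v1 v2 * swap vm v0) :
    Sol x y := by
  have hinj : Function.Injective (fun i : Fin 8 => [v0, v1, v2, v3, v4, b, c, vm].get i) :=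
    List.nodup_iff_injective_get.mp hl
  have key := sol_of_fin _ hinj
    (swap 4 5 * swap 6 7 * swap 2 3 * swap 0 1)
    (swap 4 7 * swap 5 6 * swap 7 4 * swap 3 4 * swap 1 2 * swap 7 0)
    (swap 0 1 * swap 3 4 * swap 2 6 * swap 5 7) (by decide) (by decide)
    (Odd.of_dvd_nat (by decide : Odd 3) (orderOf_dvd_of_pow_eq_one (by decide)))
    (Odd.of_dvd_nat (by decide : Odd 3) (orderOf_dvd_of_pow_eq_one (by decide)))
  simp only [map_mul, emb_swap] at key
  rw [hx, hy]
  exact key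

/-- Top-level exceptional case: a four-point configuration with a spare point. -/
theorem nb_b4_spare {x y : Perm α} {a b c d w : α} (hl : [a, b, c, d, w].Nodup)
    (hx : x = swap a b * swap c d) (hy : y = swap a d * swap b c) :
    ∃ z : Perm α, z * z = 1 ∧ Odd (orderOf (x * z)) ∧ Odd (orderOf (z * y)) := by
  have hinj : Function.Injective (fun i : Fin 5 => [a, b, c, d, w].get i) :=
    List.nodup_iff_injective_get.mp hl
  refine ⟨emb _ hinj (swap 0 4 * swap 1 3), ?_, ?_, ?_⟩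
  · rw [← map_mul]
    have : (swap 0 4 * swap 1 3 : Perm (Fin 5)) * (swap 0 4 * swap 1 3) = 1 := by decide
    rw [this, map_one]
  · have hx' : x = emb _ hinj (swap 0 1 * swap 2 3) := by
      simp only [map_mul, emb_swap]; exact hx
    rw [hx', ← map_mul, emb_orderOf]
    exact Odd.of_dvd_nat (by decide : Odd 5) (orderOf_dvd_of_pow_eq_one (by decide))
  · have hy' : y = emb _ hinj (swap 0 3 * swap 1 2) := by
      simp only [map_mul, emb_swap]; exact hy
    rw [hy', ← map_mul, emb_orderOf]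
    exact Odd.of_dvd_nat (by decide : Odd 5) (orderOf_dvd_of_pow_eq_one (by decide))

end Cfsg.Agent.H16.OddG
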