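import Cfsg.Agent.H87.OlBase

set_option autoImplicit false

/-! helper16: piece S5243-AUTINV of helper87's team project S5243 (Oliver's lemma):
`F`-maps carry `E`-centric subgroups to `E`-centric subgroups, and `kSys F E K` is invariant
under `Aut_F(S)`. -/

namespace Cfsg.Agent.H16.Oliver

open Cfsg Cfsg.FusionSystem Cfsg.Agent.H86 Cfsg.Agent.H87

variable {Ω : Type*} [Group Ω] {S T : Subgroup Ω}

/-- An `F`-automorphism `a` of `T` maps `E`-centric subgroups to `E`-centric subgroups. -/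
theorem isCentric_imgS_aut {p : ℕ} {F : FusionSystem S} {E : FusionSystem T}
    {K : Subgroup (MulAut T)} (h : KCfg p F E K) {W₀ : Subgroup Ω} (hW₀ : E.IsCentric W₀)
    {a : Ω → Ω} (ha : Mor F T a) (haT : imgS T a = T) : E.IsCentric (imgS W₀ a) := by
  have hW₀T : W₀ ≤ T := hW₀.1
  have hle : imgS W₀ a ≤ T := by
    have := ha.imgS_mono hW₀T
    rwa [haT] at this
  have ha' : Mor F T (invOn T a) := by
    have := ha.inv
    rwa [haT] at this
  have ha'T : imgS T (invOn T a) = T := by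
    have := ha.imgS_inv
    rwa [haT] at this
  refine ⟨hle, fun Q hQ => ?_⟩
  obtain ⟨g, hg, rfl⟩ := isConj_iff.1 hQ
  obtain ⟨χ, hχ, hχeq⟩ := h.autInv (imgS W₀ a) g (invOn T a) hle hg ha' ha'T
  have hback : imgS (imgS W₀ a) (invOn T a) = W₀ := by
    ext y
    rw [(ha'.restrict hle).mem_imgS]
    constructor
    · rintro ⟨z, hz, rfl⟩
      obtain ⟨x, hx, rfl⟩ := (ha.restrict hW₀T).mem_imgS.1 hz
      rw [invOn_apply ha.injOn (hW₀T hx)]
      exact hx
    · intro hy
      exact ⟨a y, (ha.restrict hW₀T).mem_imgS_of_mem hy, invOn_apply ha.injOn (hW₀T hy)⟩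
  rw [hback] at hχ
  have hc := hW₀.2 (imgS W₀ χ) (isConj_iff.2 ⟨χ, hχ, rfl⟩)
  have hQT : imgS (imgS W₀ a) g ≤ T := hg.imgS_le
  have himg : ∀ y, y ∈ imgS W₀ χ ↔ ∃ q ∈ imgS (imgS W₀ a) g, invOn T a q = y := by
    intro y
    rw [hχ.mem_imgS]
    constructor
    · rintro ⟨x, hx, rfl⟩
      have hz : a x ∈ imgS W₀ a := (ha.restrict hW₀T).mem_imgS_of_mem hx
      refine ⟨g (a x), hg.mem_imgS_of_mem hz, ?_⟩
      have := hχeq (a x) hz
      rw [invOn_apply ha.injOn (hW₀T hx)] at this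
      exact this.symm
    · rintro ⟨q, hq, rfl⟩
      obtain ⟨z, hz, rfl⟩ := hg.mem_imgS.1 hq
      obtain ⟨x, hx, rfl⟩ := (ha.restrict hW₀T).mem_imgS.1 hz
      refine ⟨x, hx, ?_⟩
      have := hχeq (a x) hz
      rw [invOn_apply ha.injOn (hW₀T hx)] at this
      exact this
  intro c hc0
  have hc1 : c ∈ T ⊓ Subgroup.centralizer ((imgS (imgS W₀ a) g : Subgroup Ω) : Set Ω) := hc0
  obtain ⟨hcT, hcC⟩ := Subgroup.mem_inf.1 hc1
  have hcT' : invOn T a c ∈ T := ha.invOn_mem (by rw [haT]; exact hcT)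
  have h1 : invOn T a c ∈ centralizerIn T (imgS W₀ χ) := by
    show invOn T a c ∈ T ⊓ Subgroup.centralizer ((imgS W₀ χ : Subgroup Ω) : Set Ω)
    refine Subgroup.mem_inf.2 ⟨hcT', ?_⟩
    rw [Subgroup.mem_centralizer_iff]
    intro y hy
    obtain ⟨q, hq, rfl⟩ := (himg y).1 hy
    have hqc : q * c = c * q := (Subgroup.mem_centralizer_iff.1 hcC) q hq
    rw [← ha'.map_mul (hQT hq) hcT, ← ha'.map_mul hcT (hQT hq), hqc]
  obtain ⟨q, hq, hqe⟩ := (himg _).1 (hc h1)
  have : q = c := ha'.injOn (hQT hq) hcT hqe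
  rw [← this]
  exact hq

theorem isCentric_imgS {p : ℕ} {F : FusionSystem S} {E : FusionSystem T}
    {K : Subgroup (MulAut T)} (h : KCfg p F E K) {W : Subgroup Ω} (hW : E.IsCentric W)
    {f : Ω → Ω} (hf : Mor F W f) : E.IsCentric (imgS W f) := by
  obtain ⟨a, f₀, ha, haT, hf₀, hfa⟩ := h.frat W f hW.1 hf
  have hW₀ : E.IsCentric (imgS W f₀) := isCentric_of_isConj hW (isConj_iff.2 ⟨f₀, hf₀, rfl⟩)
  have hf₀F : Mor F W f₀ := mor_of_subsystem h.sub hf₀
  have himg : imgS W f = imgS (imgS W f₀) a := by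
    rw [← hf₀F.imgS_comp ha (fun x hx => hf₀.mem hx)]
    exact Mor.imgS_congr hf hfa
  rw [himg]
  exact isCentric_imgS_aut h hW₀ ha haT

theorem kSys_autInv [Finite S] {p : ℕ} [Fact p.Prime] {F : FusionSystem S} {E : FusionSystem T}
    {K : Subgroup (MulAut T)} (h : KCfg p F E K) (hS : IsPGroup p S) :
    AutInv (kSys F E K) F := by
  have hTS := h.leTS
  have h0 : ∀ U g, GenK F E K U g → Mor (invSys (kSys F E K) F) U g := by
    intro U g hgen
    obtain ⟨hgF, hcen, hke⟩ := hgen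
    have hUS : U ≤ S := hgF.le
    rw [mor_invSys_iff]
    refine ⟨hgF, mor_kSys_of_gen ⟨hgF, hcen, hke⟩, fun a ha haS => ?_⟩
    apply mor_kSys_of_gen
    have haU : Mor F U a := ha.restrict hUS
    have hainv : Mor F S (invOn S a) := by
      have := ha.inv
      rwa [haS] at this
    have hinvm : ∀ y ∈ imgS U a, invOn S a y ∈ U := by
      intro y hy
      obtain ⟨x, hx, rfl⟩ := haU.mem_imgS.1 hy
      rw [invOn_apply ha.injOn (hUS hx)]
      exact hx
    have hm : Mor F (imgS U a) (fun y => a (g (invOn S a y))) := by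
      have h1 : Mor F (imgS U a) (invOn S a) := hainv.restrict haU.imgS_le
      have h2 : Mor F (imgS U a) (g ∘ invOn S a) := h1.comp hgF hinvm
      exact h2.comp ha (fun y hy => hgF.mem (hinvm y hy))
    have haT : Mor F T a := ha.restrict hTS
    have haTimg : imgS T a = T := by
      apply le_antisymm
      · intro y hy
        obtain ⟨x, hx, rfl⟩ := haT.mem_imgS.1 hy
        exact h.mapsT le_rfl haT hx
      · intro y hy
        have h1 : invOn S a y ∈ T := h.mapsT le_rfl (hainv.restrict hTS) hy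
        rw [haT.mem_imgS]
        exact ⟨invOn S a y, h1, ha.apply_invOn (by rw [haS]; exact hTS hy)⟩
    have himgT : imgS U a ⊓ T = imgS (U ⊓ T) a := imgS_inf_closed h haU
    refine ⟨hm, ?_, ?_⟩
    · rw [himgT]
      exact isCentric_imgS h hcen (haU.restrict inf_le_left)
    · rw [himgT]
      obtain ⟨k, hk, g₀, hg₀, hgk⟩ := hke
      obtain ⟨χ, hχ, hχeq⟩ := h.autInv (U ⊓ T) g₀ a inf_le_right hg₀ haT haTimg
      refine ⟨mkAut haT haTimg * k * (mkAut haT haTimg)⁻¹,
        h.conj _ (mkAut_mem haT haTimg) k hk, χ, hχ, fun y hy => ?_⟩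
      obtain ⟨x, hx, rfl⟩ := (haU.restrict inf_le_left).mem_imgS.1 hy
      have hxS : x ∈ S := hUS hx.1
      have hg₀x : g₀ x ∈ T := hg₀.mem hx
      have hag₀ : a (g₀ x) ∈ T := h.mapsT le_rfl haT hg₀x
      have h3 : autFun T (mkAut haT haTimg)⁻¹ (a (g₀ x)) = g₀ x := by
        have := autFun_inv_apply (mkAut haT haTimg) hg₀x
        rwa [autFun_mkAut haT haTimg hg₀x] at this
      show a (g (invOn S a (a x))) = _
      rw [invOn_apply ha.injOn hxS, hχeq x hx, hgk x hx, mul_assoc, autFun_mul _ _ hag₀,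
        autFun_mul _ _ hag₀, h3, autFun_mkAut haT haTimg (autFun_mem k hg₀x)]
  intro P f a hPS hf ha haS
  have h1 : Mor (invSys (kSys F E K) F) P f := kSys_le h0 hf
  obtain ⟨χ, hχ, hχeq⟩ := invSys_autInv (kSys F E K) F P f a hPS h1 ha haS
  exact ⟨χ, mor_of_invSys hχ, hχeq⟩

end Cfsg.Agent.H16.Oliver
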