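import Mathlib
import Cfsg.Prelude.Def_Perm
import Cfsg.Prelude.Def_Characters
import Cfsg.Agent.H16.PermChar

set_option autoImplicit false
set_option linter.unusedSectionVars false

namespace Cfsg.Agent.H16

open Cfsg Cfsg.Agent.H4 Module Representation
open scoped ComplexConjugate Matrix

universe u w

section PermMatrix

variable {G : Type u} [Group G] {Ω : Type w} [Fintype Ω] [DecidableEq Ω] [MulAction G Ω]

theorem permRep_single (g : G) (y : Ω) :
    Cfsg.permRep ℂ G Ω g (Pi.single y 1) = Pi.single (g • y) 1 := by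
  funext z
  change (Pi.single y (1 : ℂ) : Ω → ℂ) (g⁻¹ • z) = _
  rw [Pi.single_apply, Pi.single_apply]
  have : g⁻¹ • z = y ↔ z = g • y := inv_smul_eq_iff
  simp only [this]

theorem permRep_apply (g : G) (f : Ω → ℂ) (x : Ω) :
    Cfsg.permRep ℂ G Ω g f x = f (g⁻¹ • x) := rfl

/-- The matrix of an equivariant endomorphism of the permutation module is constant on orbits
of pairs. -/
theorem toMatrix'_smul_smul (S : (Ω → ℂ) →ₗ[ℂ] (Ω → ℂ))
    (hS : ∀ g, S ∘ₗ Cfsg.permRep ℂ G Ω g = Cfsg.permRep ℂ G Ω g ∘ₗ S) (g : G) (x y : Ω) :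
    LinearMap.toMatrix' S (g • x) (g • y) = LinearMap.toMatrix' S x y := by
  rw [LinearMap.toMatrix'_apply, LinearMap.toMatrix'_apply]
  have h1 := congrArg (fun T : (Ω → ℂ) →ₗ[ℂ] (Ω → ℂ) => T (Pi.single y 1) (g • x)) (hS g)
  simp only [LinearMap.comp_apply, permRep_single] at h1
  rw [h1, permRep_apply, inv_smul_smul]

/-- A matrix constant on orbits of pairs gives an equivariant endomorphism. -/
theorem toLin'_comm_of_invariant (M : Matrix Ω Ω ℂ)
    (hM : ∀ (g : G) (x y : Ω), M (g • x) (g • y) = M x y) (g : G) :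
    Matrix.toLin' M ∘ₗ Cfsg.permRep ℂ G Ω g = Cfsg.permRep ℂ G Ω g ∘ₗ Matrix.toLin' M := by
  ext f x
  simp only [LinearMap.comp_apply, Matrix.toLin'_apply, permRep_apply, Matrix.mulVec,
    dotProduct]
  rw [← Equiv.sum_comp (MulAction.toPerm g)]
  refine Finset.sum_congr rfl fun y _ => ?_
  simp only [MulAction.toPerm_apply, inv_smul_smul]
  rw [← hM g (g⁻¹ • x) y, smul_inv_smul]

/-- Matrix entries of `∑ g, f g • ρ g` for the permutation representation. -/
theorem toMatrix'_wSum [Fintype G] (f : G → ℂ) (x y : Ω) :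
    LinearMap.toMatrix' (wSum f (Cfsg.permRep ℂ G Ω)) x y =
      ∑ g : G, f g * (if g • y = x then 1 else 0) := by
  rw [LinearMap.toMatrix'_apply, wSum]
  simp only [LinearMap.sum_apply, LinearMap.smul_apply, permRep_single, Finset.sum_apply,
    Pi.smul_apply, smul_eq_mul, Pi.single_apply]
  refine Finset.sum_congr rfl fun g _ => ?_
  congr 1
  by_cases h : g • y = x
  · rw [if_pos h, if_pos h.symm]
  · rw [if_neg h, if_neg (fun h' => h h'.symm)]

theorem toMatrix'_wSum_transpose [Fintype G] (f : G → ℂ) :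
    (LinearMap.toMatrix' (wSum f (Cfsg.permRep ℂ G Ω)))ᵀ =
      LinearMap.toMatrix' (wSum (fun g => f g⁻¹) (Cfsg.permRep ℂ G Ω)) := by
  ext x y
  rw [Matrix.transpose_apply, toMatrix'_wSum, toMatrix'_wSum]
  rw [← Equiv.sum_comp (Equiv.inv G)]
  refine Finset.sum_congr rfl fun g _ => ?_
  simp only [Equiv.inv_apply]
  congr 1
  by_cases h : g • y = x
  · rw [if_pos h, if_pos (by rw [← h, inv_smul_smul])]
  · rw [if_neg h, if_neg (fun h' => h (by rw [← h', smul_inv_smul]))]

end PermMatrix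

section SelfPaired

variable {G : Type u} [Group G] [Fintype G] {Ω : Type w} [Fintype Ω] [DecidableEq Ω]
  [MulAction G Ω]

/-- If all pairs are interchangeable, equivariant endomorphisms have symmetric matrices. -/
theorem symm_of_interchange (h : ∀ a b : Ω, ∃ g : G, g • a = b ∧ g • b = a)
    (S : (Ω → ℂ) →ₗ[ℂ] (Ω → ℂ))
    (hS : ∀ g, S ∘ₗ Cfsg.permRep ℂ G Ω g = Cfsg.permRep ℂ G Ω g ∘ₗ S) :
    (LinearMap.toMatrix' S)ᵀ = LinearMap.toMatrix' S := by
  ext x y
  rw [Matrix.transpose_apply]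
  obtain ⟨g, h1, h2⟩ := h x y
  have := toMatrix'_smul_smul S hS g x y
  rw [h1, h2] at this
  exact this

theorem comm_of_interchange (h : ∀ a b : Ω, ∃ g : G, g • a = b ∧ g • b = a)
    (S T : (Ω → ℂ) →ₗ[ℂ] (Ω → ℂ))
    (hS : ∀ g, S ∘ₗ Cfsg.permRep ℂ G Ω g = Cfsg.permRep ℂ G Ω g ∘ₗ S)
    (hT : ∀ g, T ∘ₗ Cfsg.permRep ℂ G Ω g = Cfsg.permRep ℂ G Ω g ∘ₗ T) :
    S ∘ₗ T = T ∘ₗ S := by
  have hST : ∀ g, (S ∘ₗ T) ∘ₗ Cfsg.permRep ℂ G Ω g = Cfsg.permRep ℂ G Ω g ∘ₗ (S ∘ₗ T) := by
    intro g
    rw [LinearMap.comp_assoc, hT g, ← LinearMap.comp_assoc, hS g, LinearMap.comp_assoc]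
  have h1 := symm_of_interchange h (S ∘ₗ T) hST
  rw [LinearMap.toMatrix'_comp, Matrix.transpose_mul, symm_of_interchange h S hS,
    symm_of_interchange h T hT, ← LinearMap.toMatrix'_comp, ← LinearMap.toMatrix'_comp] at h1
  exact (LinearMap.toMatrix'.injective h1).symm

/-- If all pairs are interchangeable, the irreducible constituents of the permutation character
are real-valued. -/
theorem real_of_interchange (h : ∀ a b : Ω, ∃ g : G, g • a = b ∧ g • b = a)
    (χ : G → ℂ) (hχ : IsIrrCharacter G χ)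
    (hne : classInner (Cfsg.permRep ℂ G Ω).character χ ≠ 0) (g : G) : conj (χ g) = χ g := by
  obtain ⟨n, σ, hσ, rfl⟩ := hχ
  have := hσ
  obtain ⟨ρ, hρ⟩ : ∃ ρ, ρ = Cfsg.permRep ℂ G Ω := ⟨_, rfl⟩
  rw [← hρ] at hne
  have hN : (Nat.card G : ℂ) ≠ 0 := by exact_mod_cast (Nat.card_pos (α := G)).ne'
  have hfr : classInner ρ.character σ.character = (finrank ℂ (IntertwiningMap σ ρ) : ℂ) :=
    classInner_character σ ρ
  have hfd := finiteDimensional_intertwining σ ρ
  have hpos : 0 < finrank ℂ (IntertwiningMap σ ρ) := by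
    rw [Nat.pos_iff_ne_zero]
    intro h0
    apply hne
    rw [hfr, h0]; simp
  obtain ⟨φ, hφ⟩ : ∃ φ : IntertwiningMap σ ρ, φ ≠ 0 :=
    Module.finrank_pos_iff_exists_ne_zero.mp hpos
  have hcf' : IsClassFunction G σ.character :=
    isClassFunction_of_isCharacter (isCharacter_of_rep σ)
  have hcf : IsClassFunction G (fun g => conj (σ.character g)) := by
    intro g h
    simp only
    rw [hcf' g h]
  have hE := symm_of_interchange h (wSum (fun g => conj (σ.character g)) (Cfsg.permRep ℂ G Ω))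
    (wSum_comm hcf _)
  rw [toMatrix'_wSum_transpose] at hE
  have hinv : (fun g => conj (σ.character g⁻¹)) = σ.character := by
    funext g; rw [character_inv]; simp
  rw [hinv, ← hρ] at hE
  have hE' : wSum σ.character ρ = wSum (fun g => conj (σ.character g)) ρ :=
    LinearMap.toMatrix'.injective hE
  have h1 : wSum σ.character ρ ∘ₗ φ.toLinearMap =
      wSum (fun g => conj (σ.character g)) ρ ∘ₗ φ.toLinearMap := by rw [hE']
  rw [wSum_comp_intertwining _ σ ρ φ.toLinearMap (fun g => φ.isIntertwining' g),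
    wSum_comp_intertwining _ σ ρ φ.toLinearMap (fun g => φ.isIntertwining' g),
    wSum_eq_smul_id hcf' σ, wSum_eq_smul_id hcf σ] at h1
  have hφ' : φ.toLinearMap ≠ 0 := fun h => hφ (IntertwiningMap.ext h)
  have hd : (finrank ℂ (Fin n → ℂ) : ℂ) ≠ 0 := by
    exact_mod_cast (finrank_pos_of_irreducible σ).ne'
  have h2 : (∑ g : G, σ.character g * σ.character g) =
      ∑ g : G, conj (σ.character g) * σ.character g := by
    obtain ⟨v, hv⟩ : ∃ v, φ.toLinearMap v ≠ 0 := by
      by_contra hcon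
      push Not at hcon
      exact hφ' (LinearMap.ext hcon)
    have h3 := congrArg (fun T : (Fin n → ℂ) →ₗ[ℂ] (Ω → ℂ) => T v) h1
    simp only [LinearMap.comp_apply, LinearMap.smul_apply, LinearMap.id_apply, map_smul] at h3
    have h4 := smul_left_injective ℂ hv h3
    exact (div_left_inj' hd).mp h4
  have h4 : ∑ g : G, (Complex.im (σ.character g)) ^ 2 = 0 := by
    have h5 := congrArg Complex.re h2
    simp only [Complex.re_sum, Complex.mul_re, Complex.conj_re, Complex.conj_im] at h5
    have h6 : ∑ g : G, ((σ.character g).re * (σ.character g).re -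
        (σ.character g).im * (σ.character g).im) =
        ∑ g : G, ((σ.character g).re * (σ.character g).re -
        -(σ.character g).im * (σ.character g).im) := h5
    rw [← sub_eq_zero, ← Finset.sum_sub_distrib] at h6
    have h7 : ∑ g : G, (Complex.im (σ.character g)) ^ 2 =
        (-1 / 2 : ℝ) * ∑ g : G, ((σ.character g).re * (σ.character g).re -
        (σ.character g).im * (σ.character g).im - ((σ.character g).re * (σ.character g).re -
        -(σ.character g).im * (σ.character g).im)) := by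
      rw [Finset.mul_sum]
      refine Finset.sum_congr rfl fun g _ => ?_
      ring
    rw [h7, h6, mul_zero]
  have h5 : Complex.im (σ.character g) = 0 := by
    have := (Finset.sum_eq_zero_iff_of_nonneg (fun g _ => sq_nonneg _)).mp h4 g (Finset.mem_univ g)
    exact pow_eq_zero_iff (two_ne_zero) |>.mp this
  exact Complex.conj_eq_iff_im.mpr h5

/-- If the permutation character is multiplicity-free with real constituents, then all
equivariant endomorphisms have symmetric matrices. -/
theorem symm_of_multFree_real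
    (hmf : ∀ χ : G → ℂ, IsIrrCharacter G χ → classInner (Cfsg.permRep ℂ G Ω).character χ ≠ 0 →
      classInner (Cfsg.permRep ℂ G Ω).character χ = 1 ∧ ∀ g : G, conj (χ g) = χ g)
    (S : (Ω → ℂ) →ₗ[ℂ] (Ω → ℂ))
    (hS : ∀ g, S ∘ₗ Cfsg.permRep ℂ G Ω g = Cfsg.permRep ℂ G Ω g ∘ₗ S) :
    (LinearMap.toMatrix' S)ᵀ = LinearMap.toMatrix' S := by
  refine multFree_induction (Cfsg.permRep ℂ G Ω) ?_
    (fun S => (LinearMap.toMatrix' S)ᵀ = LinearMap.toMatrix' S) ?_ ?_ ?_ ?_ S hS
  · intro χ hχ
    by_cases h0 : classInner (Cfsg.permRep ℂ G Ω).character χ = 0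
    · exact Or.inl h0
    · exact Or.inr (hmf χ hχ h0).1
  · intro ψ hψ
    have hreal := (hmf ψ.1 ψ.2 (by rw [hψ]; exact one_ne_zero)).2
    rw [toMatrix'_wSum_transpose]
    have : (fun g => conj (ψ.1 g⁻¹)) = fun g => conj (ψ.1 g) := by
      funext g
      obtain ⟨n, σ, hσ, hσc⟩ := ψ.2
      have h1 : ψ.1 g⁻¹ = conj (ψ.1 g) := by rw [← hσc]; exact character_inv σ g
      rw [h1, hreal g, hreal g]
    rw [this]
  · simp
  · intro x y hx hy
    rw [map_add, Matrix.transpose_add, hx, hy]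
  · intro c x hx
    rw [map_smul, Matrix.transpose_smul, hx]

/-- If the permutation character is multiplicity-free with real constituents, then any two
points are interchanged by some group element. -/
theorem interchange_of_multFree_real
    (hmf : ∀ χ : G → ℂ, IsIrrCharacter G χ → classInner (Cfsg.permRep ℂ G Ω).character χ ≠ 0 →
      classInner (Cfsg.permRep ℂ G Ω).character χ = 1 ∧ ∀ g : G, conj (χ g) = χ g)
    (a b : Ω) : ∃ g : G, g • a = b ∧ g • b = a := by
  classical
  obtain ⟨M, hM⟩ : ∃ M : Matrix Ω Ω ℂ, M = fun x y => if ∃ g : G, g • a = x ∧ g • b = y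
      then 1 else 0 := ⟨_, rfl⟩
  have hinv : ∀ (g : G) (x y : Ω), M (g • x) (g • y) = M x y := by
    intro g x y
    rw [hM]
    simp only
    have : (∃ g_1 : G, g_1 • a = g • x ∧ g_1 • b = g • y) ↔ (∃ g : G, g • a = x ∧ g • b = y) := by
      constructor
      · rintro ⟨k, h1, h2⟩
        exact ⟨g⁻¹ * k, by rw [mul_smul, h1, inv_smul_smul], by rw [mul_smul, h2, inv_smul_smul]⟩
      · rintro ⟨k, h1, h2⟩
        exact ⟨g * k, by rw [mul_smul, h1], by rw [mul_smul, h2]⟩
    simp only [this]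
  have hsymm := symm_of_multFree_real hmf (Matrix.toLin' M) (toLin'_comm_of_invariant M hinv)
  rw [LinearMap.toMatrix'_toLin'] at hsymm
  have h1 : M a b = 1 := by
    rw [hM]; simp only
    rw [if_pos ⟨1, one_smul _ _, one_smul _ _⟩]
  have h2 : M b a = 1 := by
    have h3 := congrFun (congrFun hsymm a) b
    rw [Matrix.transpose_apply] at h3
    rw [h3]; exact h1
  rw [hM] at h2
  simp only at h2
  by_contra hcon
  rw [if_neg] at h2
  · exact zero_ne_one h2
  · rintro ⟨g, h3, h4⟩
    exact hcon ⟨g, h3, h4⟩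

end SelfPaired

end Cfsg.Agent.H16
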