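import Mathlib
import Cfsg.Prelude.Def_Characters
import Cfsg.Agent.H4.Chars
import Cfsg.Agent.H4.Integral
import Cfsg.Agent.H4.PaQb

set_option autoImplicit false
set_option linter.unusedSectionVars false

namespace Cfsg.Agent.H16

open Cfsg Cfsg.Agent.H4 Module Representation
open scoped ComplexConjugate

universe u v w

section Spectral

variable {G : Type u} [Group G]
variable {V : Type v} [AddCommGroup V] [Module ℂ V] [FiniteDimensional ℂ V]

/-- The generalized eigenspace of an equivariant endomorphism, as a subrepresentation. -/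
def genSub (ρ : Representation ℂ G V) (A : Module.End ℂ V) (hA : ∀ g, A ∘ₗ ρ g = ρ g ∘ₗ A)
    (μ : ℂ) : Subrepresentation ρ where
  toSubmodule := A.maxGenEigenspace μ
  apply_mem_toSubmodule g _ hv :=
    Module.End.mapsTo_maxGenEigenspace_of_comm (show Commute A (ρ g) from hA g) μ hv

theorem spectral_finite (A : Module.End ℂ V) : {μ | A.maxGenEigenspace μ ≠ ⊥}.Finite :=
  WellFoundedGT.finite_ne_bot_of_iSupIndep A.independent_maxGenEigenspace

theorem spectral_internal (A : Module.End ℂ V) : DirectSum.IsInternal A.maxGenEigenspace :=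
  DirectSum.isInternal_submodule_of_iSupIndep_of_iSup_eq_top A.independent_maxGenEigenspace
    A.iSup_maxGenEigenspace_eq_top

/-- The finite set of eigenvalues of `A`. -/
noncomputable def specSet (A : Module.End ℂ V) : Finset ℂ := (spectral_finite A).toFinset

theorem mem_specSet {A : Module.End ℂ V} {μ : ℂ} :
    μ ∈ specSet A ↔ A.maxGenEigenspace μ ≠ ⊥ := by
  simp [specSet]

theorem hasEigenvalue_of_mem_specSet {A : Module.End ℂ V} {μ : ℂ} (h : μ ∈ specSet A) :
    A.HasEigenvalue μ := by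
  rw [mem_specSet] at h
  exact (Module.End.hasUnifEigenvalue_iff_hasUnifEigenvalue_one (by simp)).mp h

theorem character_eq_sum_genSub (ρ : Representation ℂ G V) (A : Module.End ℂ V)
    (hA : ∀ g, A ∘ₗ ρ g = ρ g ∘ₗ A) (g : G) :
    ρ.character g = ∑ μ ∈ specSet A, (genSub ρ A hA μ).toRepresentation.character g := by
  classical
  exact LinearMap.trace_eq_sum_trace_restrict' (spectral_internal A) (spectral_finite A)
    (f := ρ g) (fun μ => (genSub ρ A hA μ).apply_mem_toSubmodule g)

theorem trace_pow_of_nilpotent {W : Type w} [AddCommGroup W] [Module ℂ W] [FiniteDimensional ℂ W]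
    (B : Module.End ℂ W) (μ : ℂ) (h : IsNilpotent (B - algebraMap ℂ (Module.End ℂ W) μ)) (k : ℕ) :
    LinearMap.trace ℂ W (B ^ k) = μ ^ k * (finrank ℂ W : ℂ) := by
  induction k with
  | zero => simp [LinearMap.trace_one]
  | succ k ih =>
    rw [pow_succ, Module.End.mul_eq_comp,
      LinearMap.trace_comp_eq_mul_of_commute_of_isNilpotent μ
        (Commute.pow_left (Commute.refl B) k) h, ih, pow_succ]
    ring

theorem trace_pow_eq_sum (A : Module.End ℂ V) (k : ℕ) :
    LinearMap.trace ℂ V (A ^ k) =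
      ∑ μ ∈ specSet A, μ ^ k * (finrank ℂ (A.maxGenEigenspace μ) : ℂ) := by
  classical
  have hmaps : ∀ μ, Set.MapsTo (A ^ k) (A.maxGenEigenspace μ) (A.maxGenEigenspace μ) :=
    fun μ => Module.End.mapsTo_maxGenEigenspace_of_comm (Commute.pow_right (Commute.refl A) k) μ
  have h1 := LinearMap.trace_eq_sum_trace_restrict' (spectral_internal A) (spectral_finite A)
    hmaps
  rw [h1]
  refine Finset.sum_congr rfl fun μ _ => ?_
  have hA1 : Set.MapsTo A (A.maxGenEigenspace μ) (A.maxGenEigenspace μ) :=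
    Module.End.mapsTo_maxGenEigenspace_of_comm (Commute.refl A) μ
  have hpow : (A ^ k).restrict (hmaps μ) = (A.restrict hA1) ^ k :=
    (Module.End.pow_restrict k hA1 (hmaps μ)).symm
  rw [hpow]
  apply trace_pow_of_nilpotent
  have := A.isNilpotent_restrict_maxGenEigenspace_sub_algebraMap μ
  convert this using 1
  ext x
  rfl

end Spectral

section Mult

variable {G : Type u} [Group G] [Fintype G]
variable {V : Type v} [AddCommGroup V] [Module ℂ V] [FiniteDimensional ℂ V]

/-- Spectral multiplicities of an equivariant endomorphism: for each eigenvalue `μ` of `A` and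
each irreducible character `χ`, the multiplicity `n μ χ` of `χ` in the generalized
`μ`-eigenspace. -/
theorem exists_spectral_mult (ρ : Representation ℂ G V) (A : Module.End ℂ V)
    (hA : ∀ g, A ∘ₗ ρ g = ρ g ∘ₗ A) :
    ∃ n : ℂ → IrrCharacter G → ℕ,
      (∀ χ : IrrCharacter G, classInner ρ.character χ.1 = ∑ μ ∈ specSet A, (n μ χ : ℂ)) ∧
      (∀ k : ℕ, LinearMap.trace ℂ V (A ^ k) =
        ∑ μ ∈ specSet A, μ ^ k * ∑ᶠ χ : IrrCharacter G, (n μ χ : ℂ) * χ.1 1) ∧
      (∀ (μ : ℂ) (v : V), v ≠ 0 → (∀ g, ρ g v = v) → A v = μ • v →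
        n μ (trivialIrr G) ≠ 0) := by
  classical
  let _ := fintypeIrr G
  have hdec := fun μ => character_decomp (genSub ρ A hA μ).toRepresentation
  choose n hn using hdec
  refine ⟨n, ?_, ?_, ?_⟩
  · intro χ
    have h1 : ρ.character = ∑ μ ∈ specSet A, (genSub ρ A hA μ).toRepresentation.character := by
      funext g
      rw [Finset.sum_apply]
      exact character_eq_sum_genSub ρ A hA g
    rw [h1, classInner_sum_left]
    refine Finset.sum_congr rfl fun μ _ => ?_
    rw [hn μ, classInner_finsum_irr]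
  · intro k
    rw [trace_pow_eq_sum]
    refine Finset.sum_congr rfl fun μ _ => ?_
    congr 1
    have h2 : (finrank ℂ (A.maxGenEigenspace μ) : ℂ) =
        (genSub ρ A hA μ).toRepresentation.character 1 :=
      (Representation.char_one _).symm
    rw [h2, hn μ, finsum_irr_eq_sum, finsum_irr_eq_sum, Finset.sum_apply]
    refine Finset.sum_congr rfl fun χ _ => ?_
    rw [Pi.smul_apply, smul_eq_mul]
  · intro μ v hv hfix hAv
    have hmem : v ∈ A.maxGenEigenspace μ :=
      Module.End.eigenspace_le_maxGenEigenspace (Module.End.mem_eigenspace_iff.mpr hAv)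
    obtain ⟨ρ', hρ'⟩ : ∃ ρ', ρ' = (genSub ρ A hA μ).toRepresentation := ⟨_, rfl⟩
    have hinv : (⟨v, hmem⟩ : (genSub ρ A hA μ).toSubmodule) ∈ Representation.invariants ρ' := by
      rw [Representation.mem_invariants]
      intro g
      rw [hρ']
      apply Subtype.ext
      exact hfix g
    have hpos : 0 < finrank ℂ (Representation.invariants ρ') := by
      apply Module.finrank_pos_iff_exists_ne_zero.mpr
      refine ⟨⟨_, hinv⟩, ?_⟩
      intro h0
      apply hv
      have := congrArg (fun x : Representation.invariants ρ' => ((x : (genSub ρ A hA μ).toSubmodule) : V)) h0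
      exact this
    have hcount : classInner ρ'.character (trivialIrr G).1 = (n μ (trivialIrr G) : ℂ) := by
      rw [hρ', hn μ, classInner_finsum_irr]
    have hcount2 : classInner ρ'.character (trivialIrr G).1 =
        (finrank ℂ (Representation.invariants ρ') : ℂ) := by
      have : Invertible (Nat.card G : ℂ) := invertibleOfNonzero (neZero_card_complex G).out
      rw [← Representation.card_inv_mul_sum_char_eq_finrank]
      unfold classInner
      congr 1
      refine Finset.sum_congr rfl fun g _ => ?_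
      simp [trivialIrr]
    rw [hcount] at hcount2
    have : n μ (trivialIrr G) = finrank ℂ (Representation.invariants ρ') := by
      exact_mod_cast hcount2
    omega

/-- The key integrality statement: if `f` divides the degree of all non-principal constituents,
the trace of an equivariant endomorphism with integral eigenvalues is congruent mod `f` to its
eigenvalue on the (unique) fixed line. -/
theorem trace_eq_eigen_add_mul (ρ : Representation ℂ G V) (A : Module.End ℂ V)
    (hA : ∀ g, A ∘ₗ ρ g = ρ g ∘ₗ A) (hint : ∀ μ, A.HasEigenvalue μ → IsIntegral ℤ μ)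
    (v : V) (hv : v ≠ 0) (hfix : ∀ g, ρ g v = v) (κ : ℂ) (hAv : A v = κ • v)
    (h1 : classInner ρ.character (fun _ => 1) = 1) (f : ℕ)
    (hf : ∀ χ : G → ℂ, IsIrrCharacter G χ → χ ≠ (fun _ => 1) →
      classInner ρ.character χ ≠ 0 → ∃ m : ℕ, χ 1 = (f : ℂ) * m) :
    ∃ z : ℂ, IsIntegral ℤ z ∧ LinearMap.trace ℂ V A = κ + f * z := by
  classical
  let _ := fintypeIrr G
  obtain ⟨n, hn1, hn2, hn3⟩ := exists_spectral_mult ρ A hA
  have hκ : κ ∈ specSet A := by
    rw [mem_specSet, Submodule.ne_bot_iff]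
    exact ⟨v, Module.End.eigenspace_le_maxGenEigenspace (Module.End.mem_eigenspace_iff.mpr hAv),
      hv⟩
  have h0 : ∑ μ ∈ specSet A, n μ (trivialIrr G) = 1 := by
    have := hn1 (trivialIrr G)
    have h1' : classInner ρ.character (trivialIrr G).1 = 1 := h1
    rw [h1'] at this
    exact_mod_cast this.symm
  have hκ1 : n κ (trivialIrr G) ≠ 0 := hn3 κ v hv hfix hAv
  have hsplit := Finset.add_sum_erase (specSet A) (fun μ => n μ (trivialIrr G)) hκ
  rw [h0] at hsplit
  have hκ2 : n κ (trivialIrr G) = 1 := by omega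
  have hrest : ∑ μ ∈ (specSet A).erase κ, n μ (trivialIrr G) = 0 := by omega
  have hκ3 : ∀ μ ∈ specSet A, μ ≠ κ → n μ (trivialIrr G) = 0 := by
    intro μ hμ hne
    exact (Finset.sum_eq_zero_iff.mp hrest) μ (Finset.mem_erase.mpr ⟨hne, hμ⟩)
  have htr := hn2 1
  rw [pow_one] at htr
  simp only [pow_one] at htr
  -- the quotients `χ(1)/f`
  have hex : ∀ χ : IrrCharacter G, ∃ d : ℕ,
      χ ≠ trivialIrr G → classInner ρ.character χ.1 ≠ 0 → χ.1 1 = (f : ℂ) * d := by
    intro χ
    by_cases hc : χ ≠ trivialIrr G ∧ classInner ρ.character χ.1 ≠ 0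
    · obtain ⟨m, hm⟩ := hf χ.1 χ.2 (fun h => hc.1 (Subtype.ext h)) hc.2
      exact ⟨m, fun _ _ => hm⟩
    · exact ⟨0, fun h1 h2 => absurd ⟨h1, h2⟩ hc⟩
  choose d hd using hex
  refine ⟨∑ μ ∈ specSet A, μ * ∑ χ ∈ Finset.univ.erase (trivialIrr G), ((n μ χ * d χ : ℕ) : ℂ),
    ?_, ?_⟩
  · refine IsIntegral.sum _ fun μ hμ => ?_
    refine IsIntegral.mul (hint μ (hasEigenvalue_of_mem_specSet hμ)) ?_
    refine IsIntegral.sum _ fun χ _ => ?_
    have := isIntegral_algebraMap (R := ℤ) (A := ℂ) (x := ((n μ χ * d χ : ℕ) : ℤ))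
    simpa using this
  · rw [htr]
    have hstep : ∀ μ ∈ specSet A, μ * ∑ᶠ χ : IrrCharacter G, (n μ χ : ℂ) * χ.1 1 =
        μ * (n μ (trivialIrr G) : ℂ) +
          f * (μ * ∑ χ ∈ Finset.univ.erase (trivialIrr G), ((n μ χ * d χ : ℕ) : ℂ)) := by
      intro μ hμ
      rw [finsum_irr_eq_sum, ← Finset.add_sum_erase Finset.univ _ (Finset.mem_univ (trivialIrr G))]
      have ht : (trivialIrr G).1 1 = 1 := rfl
      rw [ht, mul_one, mul_add]
      congr 1
      have hsum : ∑ χ ∈ Finset.univ.erase (trivialIrr G), (n μ χ : ℂ) * χ.1 1 =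
          f * ∑ χ ∈ Finset.univ.erase (trivialIrr G), ((n μ χ * d χ : ℕ) : ℂ) := by
        rw [Finset.mul_sum]
        refine Finset.sum_congr rfl fun χ hχ => ?_
        have hχne : χ ≠ trivialIrr G := (Finset.mem_erase.mp hχ).1
        by_cases hz : n μ χ = 0
        · simp [hz]
        · have hne : classInner ρ.character χ.1 ≠ 0 := by
            rw [hn1 χ]
            have hle : n μ χ ≤ ∑ μ' ∈ specSet A, n μ' χ :=
              Finset.single_le_sum (f := fun μ' => n μ' χ) (fun _ _ => Nat.zero_le _) hμ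
            have hpos : 0 < ∑ μ' ∈ specSet A, n μ' χ := by omega
            have : ((∑ μ' ∈ specSet A, n μ' χ : ℕ) : ℂ) ≠ 0 := by exact_mod_cast hpos.ne'
            simpa using this
          rw [hd χ hχne hne]
          push_cast
          ring
      rw [hsum]
      ring
    rw [Finset.sum_congr rfl hstep, Finset.sum_add_distrib, ← Finset.mul_sum]
    congr 1
    rw [Finset.sum_eq_single κ]
    · rw [hκ2]; simp
    · intro μ hμ hne
      rw [hκ3 μ hμ hne]; simp
    · intro h; exact absurd hκ h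

end Mult

section MultFreeTrace

variable {G : Type u} [Group G] [Fintype G]
variable {V : Type v} [AddCommGroup V] [Module ℂ V] [FiniteDimensional ℂ V]

theorem exists_unique_weight (s : Finset ℂ) (w : ℂ → ℕ) (h : ∑ μ ∈ s, w μ = 1) :
    ∃ μ₀ ∈ s, ∀ F : ℂ → ℂ, ∑ μ ∈ s, F μ * (w μ : ℂ) = F μ₀ := by
  classical
  have hex : ∃ μ₀ ∈ s, w μ₀ ≠ 0 := by
    by_contra hcon
    push Not at hcon
    rw [Finset.sum_eq_zero (fun μ hμ => hcon μ hμ)] at h
    exact zero_ne_one h
  obtain ⟨μ₀, hμ₀, hw⟩ := hex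
  have hsplit := Finset.add_sum_erase s w hμ₀
  rw [h] at hsplit
  have h1 : w μ₀ = 1 := by omega
  have h2 : ∑ μ ∈ s.erase μ₀, w μ = 0 := by omega
  refine ⟨μ₀, hμ₀, fun F => ?_⟩
  rw [Finset.sum_eq_single μ₀]
  · rw [h1]; simp
  · intro μ hμ hne
    rw [(Finset.sum_eq_zero_iff.mp h2) μ (Finset.mem_erase.mpr ⟨hne, hμ⟩)]; simp
  · intro h; exact absurd hμ₀ h

/-- For a multiplicity-free representation, an equivariant endomorphism `A` acts on the
`χ`-isotypic component by a scalar `θ χ` (an eigenvalue of `A`): trace form. -/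
theorem trace_pow_of_multFree (ρ : Representation ℂ G V) (A : Module.End ℂ V)
    (hA : ∀ g, A ∘ₗ ρ g = ρ g ∘ₗ A)
    (hmf : ∀ χ : IrrCharacter G, classInner ρ.character χ.1 = 0 ∨
      classInner ρ.character χ.1 = 1) :
    ∃ θ : IrrCharacter G → ℂ,
      (∀ χ, classInner ρ.character χ.1 = 1 → A.HasEigenvalue (θ χ)) ∧
      (∀ j : ℕ, LinearMap.trace ℂ V (A ^ j) =
        ∑ᶠ χ : IrrCharacter G, classInner ρ.character χ.1 * χ.1 1 * (θ χ) ^ j) ∧
      (∀ (κ : ℂ) (v : V), v ≠ 0 → (∀ g, ρ g v = v) → A v = κ • v →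
        classInner ρ.character (trivialIrr G).1 = 1 → θ (trivialIrr G) = κ) := by
  classical
  let _ := fintypeIrr G
  obtain ⟨n, hn1, hn2, hn3⟩ := exists_spectral_mult ρ A hA
  have hex : ∀ χ : IrrCharacter G, ∃ μ₀ : ℂ, classInner ρ.character χ.1 = 1 →
      (μ₀ ∈ specSet A ∧ ∀ F : ℂ → ℂ, ∑ μ ∈ specSet A, F μ * (n μ χ : ℂ) = F μ₀) := by
    intro χ
    by_cases h : classInner ρ.character χ.1 = 1
    · have h1 : ∑ μ ∈ specSet A, n μ χ = 1 := by
        have := hn1 χ
        rw [h] at this
        exact_mod_cast this.symm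
      obtain ⟨μ₀, hμ₀, hF⟩ := exists_unique_weight _ _ h1
      exact ⟨μ₀, fun _ => ⟨hμ₀, hF⟩⟩
    · exact ⟨0, fun h' => absurd h' h⟩
  choose θ hθ using hex
  refine ⟨θ, fun χ h => hasEigenvalue_of_mem_specSet (hθ χ h).1, ?_, ?_⟩
  · intro j
    rw [hn2 j, finsum_irr_eq_sum]
    simp_rw [finsum_irr_eq_sum, Finset.mul_sum]
    rw [Finset.sum_comm]
    refine Finset.sum_congr rfl fun χ _ => ?_
    rcases hmf χ with h0 | h1
    · have hz : ∀ μ ∈ specSet A, n μ χ = 0 := by
        have := hn1 χ
        rw [h0] at this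
        have h' : ∑ μ ∈ specSet A, n μ χ = 0 := by exact_mod_cast this.symm
        exact Finset.sum_eq_zero_iff.mp h'
      rw [h0, Finset.sum_eq_zero (fun μ hμ => by rw [hz μ hμ]; simp)]
      simp
    · have := (hθ χ h1).2 (fun μ => μ ^ j * χ.1 1)
      rw [h1, one_mul, mul_comm (χ.1 1), ← this]
      refine Finset.sum_congr rfl fun μ _ => by ring
  · intro κ v hv hfix hAv h1
    have hne := hn3 κ v hv hfix hAv
    have hκ : κ ∈ specSet A := by
      rw [mem_specSet, Submodule.ne_bot_iff]
      exact ⟨v, Module.End.eigenspace_le_maxGenEigenspace (Module.End.mem_eigenspace_iff.mpr hAv),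
        hv⟩
    have hF := (hθ (trivialIrr G) h1).2 (fun μ => if μ = κ then 1 else 0)
    by_contra hcon
    rw [if_neg hcon, Finset.sum_eq_single κ] at hF
    · rw [if_pos rfl, one_mul] at hF
      exact hne (by exact_mod_cast hF)
    · intro μ _ hμ
      rw [if_neg hμ, zero_mul]
    · intro h; exact absurd hκ h

end MultFreeTrace

end Cfsg.Agent.H16
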