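import Mathlib
import Cfsg.Prelude.Def_Perm
import Cfsg.Prelude.Def_Characters
import Cfsg.Agent.H16.PermMatrix
import Cfsg.Agent.H16.Spectral
import Cfsg.Agent.H4.TwoTrans

set_option autoImplicit false
set_option linter.unusedSectionVars false

namespace Cfsg.Agent.H16

open Cfsg Cfsg.Agent.H4 Module Representation
open scoped ComplexConjugate Matrix

universe u w

section Orbital

variable (G : Type u) [Group G] {Ω : Type w} [MulAction G Ω]

open Classical in
/-- The orbital (adjacency) matrix of the orbital containing `(a, b)`. -/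
noncomputable def orbMat (R : Type*) [Zero R] [One R] (a b : Ω) : Matrix Ω Ω R :=
  fun x y => if ∃ g : G, g • a = x ∧ g • b = y then 1 else 0

theorem orbMat_smul_smul (R : Type*) [Zero R] [One R] (a b : Ω) (g : G) (x y : Ω) :
    orbMat G R a b (g • x) (g • y) = orbMat G R a b x y := by
  have : (∃ g_1 : G, g_1 • a = g • x ∧ g_1 • b = g • y) ↔ (∃ g : G, g • a = x ∧ g • b = y) := by
    constructor
    · rintro ⟨k, h1, h2⟩
      exact ⟨g⁻¹ * k, by rw [mul_smul, h1, inv_smul_smul], by rw [mul_smul, h2, inv_smul_smul]⟩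
    · rintro ⟨k, h1, h2⟩
      exact ⟨g * k, by rw [mul_smul, h1], by rw [mul_smul, h2]⟩
  classical
  simp only [orbMat]
  rw [if_congr this rfl rfl]

theorem orbMat_map_intCast (a b : Ω) :
    (orbMat G ℤ a b).map (Int.castRingHom ℂ) = orbMat G ℂ a b := by
  ext x y
  simp only [orbMat, Matrix.map_apply]
  split_ifs <;> simp

theorem orbMat_diag (R : Type*) [Zero R] [One R] {a b : Ω} (hab : b ≠ a) (x : Ω) :
    orbMat G R a b x x = 0 := by
  simp only [orbMat]
  rw [if_neg]
  rintro ⟨g, h1, h2⟩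
  apply hab
  have : g • b = g • a := by rw [h1, h2]
  exact smul_left_cancel g this

theorem orbMat_row_sum [Fintype Ω] [MulAction.IsPretransitive G Ω] (a b x : Ω) :
    ∑ y : Ω, orbMat G ℂ a b x y = (Nat.card (MulAction.orbit (MulAction.stabilizer G a) b) : ℂ) := by
  classical
  simp only [orbMat]
  rw [Finset.sum_boole]
  congr 1
  obtain ⟨h, hh⟩ := MulAction.exists_smul_eq G a x
  have hset : {y : Ω | ∃ g : G, g • a = x ∧ g • b = y} =
      (fun y => h • y) '' (MulAction.orbit (MulAction.stabilizer G a) b) := by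
    ext y
    simp only [Set.mem_ofPred_eq, Set.mem_image]
    constructor
    · rintro ⟨g, h1, h2⟩
      refine ⟨(h⁻¹ * g) • b, ?_, by rw [mul_smul, smul_inv_smul, h2]⟩
      refine ⟨⟨h⁻¹ * g, ?_⟩, rfl⟩
      rw [MulAction.mem_stabilizer_iff, mul_smul, h1, ← hh, inv_smul_smul]
    · rintro ⟨z, ⟨s, rfl⟩, rfl⟩
      refine ⟨h * s, ?_, ?_⟩
      · rw [mul_smul]
        have : (s : G) • a = a := s.2
        rw [this, hh]
      · rw [mul_smul]; rfl
  have hcard : Nat.card (MulAction.orbit (MulAction.stabilizer G a) b) =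
      Nat.card {y : Ω | ∃ g : G, g • a = x ∧ g • b = y} := by
    rw [hset]
    exact (Nat.card_image_of_injective (MulAction.injective h) _).symm
  rw [hcard, Nat.card_eq_fintype_card, Fintype.card_subtype]
  congr 1

end Orbital

section Subdegree

variable {G : Type u} [Group G] [Fintype G] {Ω : Type w} [Fintype Ω] [MulAction G Ω]

theorem isIntegral_of_hasEigenvalue_intMatrix [DecidableEq Ω] (M : Matrix Ω Ω ℤ) (μ : ℂ)
    (h : Module.End.HasEigenvalue (Matrix.toLin' (M.map (Int.castRingHom ℂ))) μ) :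
    IsIntegral ℤ μ := by
  rw [Module.End.hasEigenvalue_iff_isRoot_charpoly, Matrix.charpoly_toLin',
    Matrix.charpoly_map] at h
  refine ⟨M.charpoly, Matrix.charpoly_monic M, ?_⟩
  rw [← Polynomial.eval_map]
  exact h

theorem classInner_permChar_one [MulAction.IsPretransitive G Ω] [Nonempty Ω] :
    classInner (Cfsg.permRep ℂ G Ω).character (fun _ => 1) = 1 := by
  unfold classInner
  have hN : (Nat.card G : ℂ) ≠ 0 := by exact_mod_cast (Nat.card_pos (α := G)).ne'
  have h1 : ∑ g : G, (Cfsg.permRep ℂ G Ω).character g * conj ((fun _ => (1 : ℂ)) g) =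
      ∑ g : G, (Nat.card (MulAction.fixedBy Ω g) : ℂ) := by
    refine Finset.sum_congr rfl fun g _ => ?_
    rw [character_permRep]; simp
  rw [h1, sum_card_fixedBy Ω, card_orbits_eq_one Ω, Nat.cast_one, one_mul, inv_mul_cancel₀ hN]

/-- A rational algebraic integer quotient of naturals gives divisibility. -/
theorem nat_dvd_of_integral (f k : ℕ) (z : ℂ) (hz : IsIntegral ℤ z) (h : (k : ℂ) = f * z) :
    f ∣ k := by
  by_cases hf : f = 0
  · subst hf
    simp only [Nat.cast_zero, zero_mul, Nat.cast_eq_zero] at h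
    rw [h]
  · have hfC : (f : ℂ) ≠ 0 := by exact_mod_cast hf
    have hzeq : z = (k : ℂ) / (f : ℂ) := by rw [h]; field_simp
    have hq : IsIntegral ℤ ((k : ℚ) / (f : ℚ)) := by
      rw [← isIntegral_algebraMap_iff (algebraMap ℚ ℂ).injective]
      rw [hzeq] at hz
      simpa using hz
    obtain ⟨y, hy⟩ := IsIntegrallyClosed.isIntegral_iff.mp hq
    have hdq : (f : ℚ) ≠ 0 := by exact_mod_cast hf
    have h3 : (k : ℚ) = (y : ℚ) * (f : ℚ) := by
      have : (algebraMap ℤ ℚ) y = (y : ℚ) := rfl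
      rw [this] at hy
      rw [hy, div_mul_cancel₀ _ hdq]
    have h4 : (k : ℤ) = y * (f : ℤ) := by exact_mod_cast h3
    have h5 : (f : ℤ) ∣ (k : ℤ) := ⟨y, by rw [h4, mul_comm]⟩
    exact Int.natCast_dvd_natCast.mp h5

/-- If `f` divides the degree of every non-principal irreducible constituent of the permutation
character of a transitive group, then `f` divides every non-trivial subdegree. -/
theorem dvd_subdegree [MulAction.IsPretransitive G Ω] (f : ℕ)
    (hf : ∀ χ : G → ℂ, IsIrrCharacter G χ → χ ≠ (fun _ => 1) →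
      classInner (Cfsg.permRep ℂ G Ω).character χ ≠ 0 → ∃ m : ℕ, χ 1 = (f : ℂ) * m)
    (a b : Ω) (hab : b ≠ a) : f ∣ Nat.card (MulAction.orbit (MulAction.stabilizer G a) b) := by
  classical
  have : Nonempty Ω := ⟨a⟩
  obtain ⟨A, hAdef⟩ : ∃ A : Module.End ℂ (Ω → ℂ), A = Matrix.toLin' (orbMat G ℂ a b) :=
    ⟨_, rfl⟩
  have hA : ∀ g, A ∘ₗ Cfsg.permRep ℂ G Ω g = Cfsg.permRep ℂ G Ω g ∘ₗ A := by
    rw [hAdef]; exact toLin'_comm_of_invariant _ (orbMat_smul_smul G ℂ a b)
  have hint : ∀ μ, A.HasEigenvalue μ → IsIntegral ℤ μ := by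
    intro μ hμ
    rw [hAdef, ← orbMat_map_intCast] at hμ
    exact isIntegral_of_hasEigenvalue_intMatrix _ μ hμ
  have htr : LinearMap.trace ℂ _ A = 0 := by
    rw [hAdef, Matrix.trace_toLin'_eq, Matrix.trace]
    exact Finset.sum_eq_zero fun x _ => orbMat_diag G ℂ hab x
  have hv : (fun _ : Ω => (1 : ℂ)) ≠ 0 := by
    intro h
    have := congrFun h a
    simp at this
  have hfix : ∀ g, Cfsg.permRep ℂ G Ω g (fun _ => 1) = fun _ => 1 := fun g => rfl
  have hAv : A (fun _ => 1) =
      (Nat.card (MulAction.orbit (MulAction.stabilizer G a) b) : ℂ) • (fun _ : Ω => (1 : ℂ)) := by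
    rw [hAdef]
    funext x
    rw [Matrix.toLin'_apply]
    simp only [Matrix.mulVec, dotProduct, mul_one, Pi.smul_apply, smul_eq_mul]
    exact orbMat_row_sum G a b x
  obtain ⟨z, hz, hzeq⟩ := trace_eq_eigen_add_mul (Cfsg.permRep ℂ G Ω) A hA hint _ hv hfix _ hAv
    classInner_permChar_one f hf
  rw [htr] at hzeq
  exact nat_dvd_of_integral f _ (-z) hz.neg (by linear_combination -hzeq)

end Subdegree

end Cfsg.Agent.H16
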