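import Mathlib
import Cfsg.Agent.H11.SmallSimple
import Cfsg.Agent.H21.Counting

/-!
# Pieces of the order 175560 row (S4274-B): no simple groups of order 5852, 11704, 29260

Generic tools:
* `sylow_prime_data`: Sylow data for a prime exactly dividing the order of a non-cyclic simple
  group (`n_p`, `e_p = |N(P):C(P)|`, `c_p = |C(P)|`).
* `dvd_card_normalizer_of_dvd_centralizer` (fact F3): if `q ∣ |C(P)|` then `p ∣ |N(Q)|`.
* `dvd_centralizer_of_dvd_normalizer`: if `q ∣ |N(P)|`, `q ∤ e_p` then `q ∣ |C(P)|`.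
-/

set_option autoImplicit false
set_option linter.style.haveILetI false

namespace Cfsg.Agent.H16.Ord175560

open Subgroup

/-- A simple group whose order is not a prime is not cyclic. -/
theorem not_isCyclic_of_not_prime {G : Type*} [Group G] [Finite G] [IsSimpleGroup G]
    (h : ¬ (Nat.card G).Prime) : ¬ IsCyclic G :=
  Cfsg.Agent.H11.not_isCyclic_of_not_isMulCommutative (Cfsg.Agent.H21.not_comm_of_not_prime h)

/-- Sylow data for a prime exactly dividing the order of a non-cyclic simple group. -/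
theorem sylow_prime_data {G : Type*} [Group G] [Finite G] [IsSimpleGroup G] (hnc : ¬ IsCyclic G)
    (p : ℕ) [Fact p.Prime] (hp : p ∣ Nat.card G) (hpp : ¬ p * p ∣ Nat.card G) (P : Sylow p G) :
    Nat.card (P : Subgroup G) = p ∧
    ∃ n e c : ℕ, n = Nat.card (Sylow p G) ∧ n ∣ Nat.card G ∧ n % p = 1 ∧ n ≠ 1 ∧
      Nat.card G ∣ n.factorial ∧
      Nat.card (normalizer ((P : Subgroup G) : Set G)) * n = Nat.card G ∧
      c = Nat.card (centralizer ((P : Subgroup G) : Set G)) ∧
      c * e = Nat.card (normalizer ((P : Subgroup G) : Set G)) ∧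
      e ≠ 1 ∧ e ∣ p - 1 ∧ p ∣ c := by
  have hPc := Cfsg.Agent.H11.sylow_card_eq_prime p hp hpp P
  obtain ⟨h1, h2, h3, h4⟩ := Cfsg.Agent.H11.sylow_card_facts hnc p hp
  have hNn := Cfsg.Agent.H11.card_normalizer_mul_card_sylow p P
  have hG : ¬ IsMulCommutative G := by
    intro hc
    exact hnc (Cfsg.Agent.H11.isCyclic_of_simple_comm (fun a b => hc.is_comm.comm a b))
  obtain ⟨d, hd, hd1, hddvd, -⟩ := Cfsg.Agent.H21.simple_sylow_prime_card_NC hG P hPc
  have hCN := Cfsg.Agent.H21.card_centralizer_mul_relIndex_normalizer (P : Subgroup G)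
  have hPC : (P : Subgroup G) ≤ centralizer ((P : Subgroup G) : Set G) := by
    have : IsCyclic (P : Subgroup G) := isCyclic_of_prime_card hPc
    have hcomm : ∀ a b : (P : Subgroup G), a * b = b * a := fun a b =>
      (IsCyclic.commGroup (α := (P : Subgroup G))).mul_comm a b
    intro x hx y hy
    have := hcomm ⟨y, hy⟩ ⟨x, hx⟩
    exact congrArg Subtype.val this
  have hpC : p ∣ Nat.card (centralizer ((P : Subgroup G) : Set G)) := by
    have := Subgroup.card_dvd_of_le hPC
    rwa [hPc] at this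
  exact ⟨hPc, _, d, _, rfl, h1, h2, h3, h4, hNn, rfl, by rw [hd]; exact hCN, hd1, hddvd, hpC⟩

/-- Fact (F3): if `q` divides `|C(P)|` (`|P| = p`, `|Q| = q` Sylow), then `p ∣ |N(Q)|`. -/
theorem dvd_card_normalizer_of_dvd_centralizer {G : Type*} [Group G] [Finite G] (p q : ℕ)
    [Fact p.Prime] [Fact q.Prime] (P : Sylow p G) (hP : Nat.card (P : Subgroup G) = p)
    (Q : Sylow q G) (hQ : Nat.card (Q : Subgroup G) = q)
    (hq : q ∣ Nat.card (centralizer ((P : Subgroup G) : Set G))) :
    p ∣ Nat.card (normalizer ((Q : Subgroup G) : Set G)) := by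
  obtain ⟨y, hyC, hy⟩ := Cfsg.Agent.H21.exists_mem_orderOf_eq_prime _ q hq
  obtain ⟨x, hxP, hx⟩ := Cfsg.Agent.H21.exists_mem_orderOf_eq_prime (P : Subgroup G) p
    (by rw [hP])
  have hcomm : x * y = y * x := Subgroup.mem_centralizer_iff.mp hyC x hxP
  obtain ⟨c, hc⟩ := Cfsg.Agent.S1018.exists_conj_mem_sylow' Q y hy
  have hco : orderOf (c * y * c⁻¹) = q := by rw [Cfsg.Agent.S1018.orderOf_conj_eq, hy]
  have hQz := Cfsg.Agent.H21.eq_zpowers_of_card_prime (Q : Subgroup G) hQ _ hc hco
  have hmem : c * x * c⁻¹ ∈ normalizer ((Q : Subgroup G) : Set G) := by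
    apply Subgroup.centralizer_le_normalizer
    rw [Subgroup.mem_centralizer_iff]
    intro t ht
    rw [SetLike.mem_coe, hQz] at ht
    obtain ⟨k, rfl⟩ := Subgroup.mem_zpowers_iff.mp ht
    have hcomm' : Commute (c * y * c⁻¹) (c * x * c⁻¹) := by
      show c * y * c⁻¹ * (c * x * c⁻¹) = c * x * c⁻¹ * (c * y * c⁻¹)
      calc c * y * c⁻¹ * (c * x * c⁻¹) = c * (y * x) * c⁻¹ := by group
        _ = c * (x * y) * c⁻¹ := by rw [hcomm]
        _ = c * x * c⁻¹ * (c * y * c⁻¹) := by group
    exact (hcomm'.zpow_left k).eq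
  have := Cfsg.Agent.H21.orderOf_dvd_card_of_mem _ _ hmem
  rwa [Cfsg.Agent.S1018.orderOf_conj_eq, hx] at this

/-- If a prime `q` divides `c * e` and `e ∣ m` with `q ∤ m`... : arithmetic form used with
`c * e = |N(P)|`, `e ∣ p - 1`. -/
theorem prime_dvd_left_of_dvd_mul {q c e m : ℕ} (hq : q.Prime) (h : q ∣ c * e) (he : e ∣ m)
    (hm : ¬ q ∣ m) : q ∣ c := by
  rcases hq.dvd_mul.mp h with h1 | h1
  · exact h1
  · exact absurd (h1.trans he) hm

theorem no_simple_5852 {G : Type*} [Group G] [Finite G] [IsSimpleGroup G]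
    (h : Nat.card G = 5852) : False := by
  have hnc : ¬ IsCyclic G := not_isCyclic_of_not_prime (by rw [h]; norm_num)
  haveI : Fact (Nat.Prime 7) := ⟨by norm_num⟩
  haveI : Fact (Nat.Prime 19) := ⟨by norm_num⟩
  obtain ⟨P7⟩ : Nonempty (Sylow 7 G) := inferInstance
  obtain ⟨P19⟩ : Nonempty (Sylow 19 G) := inferInstance
  obtain ⟨hP7, n7, e7, c7, -, hn7d, hn7m, hn71, -, hN7, hc7, hce7, he71, he7d, -⟩ :=
    sylow_prime_data hnc 7 (by rw [h]; norm_num) (by rw [h]; norm_num) P7
  obtain ⟨hP19, n19, e19, c19, -, hn19d, hn19m, hn191, -, hN19, hc19, hce19, he191, he19d, -⟩ :=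
    sylow_prime_data hnc 19 (by rw [h]; norm_num) (by rw [h]; norm_num) P19
  rw [h] at hn7d hN7 hn19d hN19
  have hn7 : n7 = 22 := by
    have hmem : n7 ∈ Nat.divisors 5852 := Nat.mem_divisors.mpr ⟨hn7d, by norm_num⟩
    simp only [Nat.divisors_ofNat, Finset.mem_insert, Finset.mem_singleton] at hmem
    omega
  have hn19 : n19 = 77 := by
    have hmem : n19 ∈ Nat.divisors 5852 := Nat.mem_divisors.mpr ⟨hn19d, by norm_num⟩
    simp only [Nat.divisors_ofNat, Finset.mem_insert, Finset.mem_singleton] at hmem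
    omega
  subst hn7 hn19
  have hN7' : Nat.card (normalizer ((P7 : Subgroup G) : Set G)) = 266 := by omega
  have hN19' : Nat.card (normalizer ((P19 : Subgroup G) : Set G)) = 76 := by omega
  have h19c : 19 ∣ c7 := by
    apply prime_dvd_left_of_dvd_mul (by norm_num) _ he7d (by norm_num)
    rw [hce7, hN7']
    norm_num
  rw [hc7] at h19c
  have := dvd_card_normalizer_of_dvd_centralizer 7 19 P7 hP7 P19 hP19 h19c
  rw [hN19'] at this
  norm_num at this

theorem no_simple_11704 {G : Type*} [Group G] [Finite G] [IsSimpleGroup G]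
    (h : Nat.card G = 11704) : False := by
  have hnc : ¬ IsCyclic G := not_isCyclic_of_not_prime (by rw [h]; norm_num)
  haveI : Fact (Nat.Prime 7) := ⟨by norm_num⟩
  haveI : Fact (Nat.Prime 19) := ⟨by norm_num⟩
  obtain ⟨P7⟩ : Nonempty (Sylow 7 G) := inferInstance
  obtain ⟨P19⟩ : Nonempty (Sylow 19 G) := inferInstance
  obtain ⟨hP7, n7, e7, c7, -, hn7d, hn7m, hn71, hn7f, hN7, hc7, hce7, he71, he7d, -⟩ :=
    sylow_prime_data hnc 7 (by rw [h]; norm_num) (by rw [h]; norm_num) P7
  obtain ⟨hP19, n19, e19, c19, -, hn19d, hn19m, hn191, -, hN19, hc19, hce19, he191, he19d, -⟩ :=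
    sylow_prime_data hnc 19 (by rw [h]; norm_num) (by rw [h]; norm_num) P19
  rw [h] at hn7d hN7 hn19d hN19 hn7f
  have hn7 : n7 = 8 ∨ n7 = 22 := by
    have hmem : n7 ∈ Nat.divisors 11704 := Nat.mem_divisors.mpr ⟨hn7d, by norm_num⟩
    simp only [Nat.divisors_ofNat, Finset.mem_insert, Finset.mem_singleton] at hmem
    omega
  have hn7' : n7 = 22 := by
    rcases hn7 with rfl | rfl
    · exfalso
      have h8 : Nat.factorial 8 = 40320 := by decide
      rw [h8] at hn7f
      norm_num at hn7f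
    · rfl
  have hn19 : n19 = 77 := by
    have hmem : n19 ∈ Nat.divisors 11704 := Nat.mem_divisors.mpr ⟨hn19d, by norm_num⟩
    simp only [Nat.divisors_ofNat, Finset.mem_insert, Finset.mem_singleton] at hmem
    omega
  subst hn7' hn19
  have hN7' : Nat.card (normalizer ((P7 : Subgroup G) : Set G)) = 532 := by omega
  have hN19' : Nat.card (normalizer ((P19 : Subgroup G) : Set G)) = 152 := by omega
  have h19c : 19 ∣ c7 := by
    apply prime_dvd_left_of_dvd_mul (by norm_num) _ he7d (by norm_num)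
    rw [hce7, hN7']
    norm_num
  rw [hc7] at h19c
  have := dvd_card_normalizer_of_dvd_centralizer 7 19 P7 hP7 P19 hP19 h19c
  rw [hN19'] at this
  norm_num at this

theorem no_simple_29260 {G : Type*} [Group G] [Finite G] [IsSimpleGroup G]
    (h : Nat.card G = 29260) : False := by
  have hnc : ¬ IsCyclic G := not_isCyclic_of_not_prime (by rw [h]; norm_num)
  haveI : Fact (Nat.Prime 7) := ⟨by norm_num⟩
  haveI : Fact (Nat.Prime 11) := ⟨by norm_num⟩
  haveI : Fact (Nat.Prime 19) := ⟨by norm_num⟩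
  obtain ⟨P7⟩ : Nonempty (Sylow 7 G) := inferInstance
  obtain ⟨P11⟩ : Nonempty (Sylow 11 G) := inferInstance
  obtain ⟨P19⟩ : Nonempty (Sylow 19 G) := inferInstance
  obtain ⟨hP7, n7, e7, c7, -, hn7d, hn7m, hn71, -, hN7, hc7, hce7, he71, he7d, hpc7⟩ :=
    sylow_prime_data hnc 7 (by rw [h]; norm_num) (by rw [h]; norm_num) P7
  obtain ⟨hP11, n11, e11, c11, -, hn11d, hn11m, hn111, -, hN11, hc11, hce11, he111, he11d, -⟩ :=
    sylow_prime_data hnc 11 (by rw [h]; norm_num) (by rw [h]; norm_num) P11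
  obtain ⟨hP19, n19, e19, c19, -, hn19d, hn19m, hn191, -, hN19, hc19, hce19, he191, he19d,
      hpc19⟩ :=
    sylow_prime_data hnc 19 (by rw [h]; norm_num) (by rw [h]; norm_num) P19
  rw [h] at hn7d hN7 hn11d hN11 hn19d hN19
  have he19 : e19 ≤ 18 := Nat.le_of_dvd (by norm_num) he19d
  have he7 : e7 ≤ 6 := Nat.le_of_dvd (by norm_num) he7d
  have hn19 : n19 = 77 := by
    have hmem : n19 ∈ Nat.divisors 29260 := Nat.mem_divisors.mpr ⟨hn19d, by norm_num⟩
    simp only [Nat.divisors_ofNat, Finset.mem_insert, Finset.mem_singleton] at hmem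
    have h3 : n19 = 20 ∨ n19 = 77 ∨ n19 = 1540 := by omega
    rcases h3 with rfl | rfl | rfl
    · exfalso
      have hN : Nat.card (normalizer ((P19 : Subgroup G) : Set G)) = 1463 := by omega
      rw [hN] at hce19
      interval_cases e19 <;> omega
    · rfl
    · exfalso
      have hN : Nat.card (normalizer ((P19 : Subgroup G) : Set G)) = 19 := by omega
      rw [hN] at hce19
      interval_cases e19 <;> omega
  have hn11 : n11 = 133 := by
    have hmem : n11 ∈ Nat.divisors 29260 := Nat.mem_divisors.mpr ⟨hn11d, by norm_num⟩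
    simp only [Nat.divisors_ofNat, Finset.mem_insert, Finset.mem_singleton] at hmem
    omega
  subst hn19 hn11
  have hN19' : Nat.card (normalizer ((P19 : Subgroup G) : Set G)) = 380 := by omega
  have hN11' : Nat.card (normalizer ((P11 : Subgroup G) : Set G)) = 220 := by omega
  have hn7 : n7 = 22 ∨ n7 = 190 ∨ n7 = 4180 := by
    have hmem : n7 ∈ Nat.divisors 29260 := Nat.mem_divisors.mpr ⟨hn7d, by norm_num⟩
    simp only [Nat.divisors_ofNat, Finset.mem_insert, Finset.mem_singleton] at hmem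
    omega
  rcases hn7 with rfl | rfl | rfl
  · have hN7' : Nat.card (normalizer ((P7 : Subgroup G) : Set G)) = 1330 := by omega
    have h19c : 19 ∣ c7 := by
      apply prime_dvd_left_of_dvd_mul (by norm_num) _ he7d (by norm_num)
      rw [hce7, hN7']
      norm_num
    rw [hc7] at h19c
    have := dvd_card_normalizer_of_dvd_centralizer 7 19 P7 hP7 P19 hP19 h19c
    rw [hN19'] at this
    norm_num at this
  · have hN7' : Nat.card (normalizer ((P7 : Subgroup G) : Set G)) = 154 := by omega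
    have h11c : 11 ∣ c7 := by
      apply prime_dvd_left_of_dvd_mul (by norm_num) _ he7d (by norm_num)
      rw [hce7, hN7']
      norm_num
    rw [hc7] at h11c
    have := dvd_card_normalizer_of_dvd_centralizer 7 11 P7 hP7 P11 hP11 h11c
    rw [hN11'] at this
    norm_num at this
  · have hN7' : Nat.card (normalizer ((P7 : Subgroup G) : Set G)) = 7 := by omega
    rw [hN7'] at hce7
    interval_cases e7 <;> omega

end Cfsg.Agent.H16.Ord175560
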