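import Mathlib
import Cfsg.Agent.H21.SimpleTools

/-!
# Group-theoretic pieces for the order 5040 row (S0978-CONJ, S0978-GRP)
-/

set_option autoImplicit false

namespace Cfsg.Agent.H16.Ord5040

open Subgroup

/-- **S0978-CONJ**: a Sylow `p`-subgroup `P` of order `p` with `C(P) = P` and `|N(P):C(P)| = p-1`:
the normalizer is transitive on the non-identity elements of `P`, and (for `p` odd) some
involution inverts `P`. -/
theorem frob_conj {G : Type*} [Group G] [Finite G] (p : ℕ) [Fact p.Prime] (P : Sylow p G)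
    (hP : Nat.card (P : Subgroup G) = p)
    (hC : Nat.card (Subgroup.centralizer ((P : Subgroup G) : Set G)) = p)
    (he : (Subgroup.centralizer ((P : Subgroup G) : Set G)).relIndex
        (Subgroup.normalizer ((P : Subgroup G) : Set G)) = p - 1)
    (x : G) (hx : x ∈ (P : Subgroup G)) (hx1 : x ≠ 1) :
    (∀ i : ℕ, ¬ p ∣ i → ∃ c : G, c * x * c⁻¹ = x ^ i) ∧
    (p ≠ 2 → ∃ t : G, orderOf t = 2 ∧ t * x * t⁻¹ = x⁻¹) := by
  have hp : p.Prime := Fact.out
  have hox : orderOf x = p := by
    have h1 : orderOf x ∣ p := hP ▸ Cfsg.Agent.H21.orderOf_dvd_card_of_mem (P : Subgroup G) x hx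
    rcases (Nat.dvd_prime hp).mp h1 with h | h
    · exact absurd (orderOf_eq_one_iff.mp h) hx1
    · exact h
  have hPz : (P : Subgroup G) = Subgroup.zpowers x := by
    symm
    apply Subgroup.eq_of_le_of_card_ge (Subgroup.zpowers_le.mpr hx)
    rw [Nat.card_zpowers, hox, hP]
  have hCN : Subgroup.centralizer ((P : Subgroup G) : Set G) ≤
      Subgroup.normalizer ((P : Subgroup G) : Set G) := Subgroup.centralizer_le_normalizer _
  have hmemC : ∀ g : G, g ∈ Subgroup.centralizer ((P : Subgroup G) : Set G) ↔ g * x = x * g := by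
    intro g
    rw [hPz, Subgroup.mem_centralizer_iff]
    constructor
    · intro h
      exact (h x (Subgroup.mem_zpowers x)).symm
    · intro h y hy
      obtain ⟨k, rfl⟩ := Subgroup.mem_zpowers_iff.mp hy
      exact (Commute.zpow_left (show Commute x g from h.symm) k).eq
  have hNcard : Nat.card (Subgroup.normalizer ((P : Subgroup G) : Set G)) = p * (p - 1) := by
    rw [← Cfsg.Agent.H21.card_centralizer_mul_relIndex_normalizer (P : Subgroup G), hC, he]
  -- the conjugation action of `N` on `G`
  letI act : MulAction (Subgroup.normalizer ((P : Subgroup G) : Set G)) G :=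
    MulAction.compHom G ((MulAut.conj : G →* MulAut G).comp
      (Subgroup.normalizer ((P : Subgroup G) : Set G)).subtype)
  have hsmul : ∀ (n : Subgroup.normalizer ((P : Subgroup G) : Set G)) (g : G),
      n • g = (n : G) * g * (n : G)⁻¹ := fun n g => rfl
  have hstab : MulAction.stabilizer (Subgroup.normalizer ((P : Subgroup G) : Set G)) x =
      (Subgroup.centralizer ((P : Subgroup G) : Set G)).subgroupOf
        (Subgroup.normalizer ((P : Subgroup G) : Set G)) := by
    ext n
    rw [MulAction.mem_stabilizer_iff, hsmul, Subgroup.mem_subgroupOf, hmemC, mul_inv_eq_iff_eq_mul]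
  have hstabcard : Nat.card (MulAction.stabilizer
      (Subgroup.normalizer ((P : Subgroup G) : Set G)) x) = p := by
    rw [hstab, Nat.card_congr (Subgroup.subgroupOfEquivOfLe hCN).toEquiv, hC]
  have horb : Nat.card (MulAction.orbit (Subgroup.normalizer ((P : Subgroup G) : Set G)) x) =
      p - 1 := by
    have h := Subgroup.card_mul_index (MulAction.stabilizer
      (Subgroup.normalizer ((P : Subgroup G) : Set G)) x)
    rw [hstabcard, hNcard, MulAction.index_stabilizer] at h
    rw [Nat.card_coe_set_eq]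
    exact Nat.eq_of_mul_eq_mul_left hp.pos h
  have hsub : MulAction.orbit (Subgroup.normalizer ((P : Subgroup G) : Set G)) x ⊆
      ((P : Subgroup G) : Set G) \ {1} := by
    rintro y ⟨n, rfl⟩
    refine ⟨?_, ?_⟩
    · show n • x ∈ (P : Subgroup G)
      rw [hsmul]
      exact (Subgroup.mem_normalizer_iff.mp n.2 x).mp hx
    · intro h
      rw [Set.mem_singleton_iff] at h
      have h' : (n : G) * x * (n : G)⁻¹ = 1 := h
      apply hx1
      have h2 : x = (n : G)⁻¹ * ((n : G) * x * (n : G)⁻¹) * (n : G) := by group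
      rw [h2, h']
      group
  have hTcard : (((P : Subgroup G) : Set G) \ {1}).ncard = p - 1 := by
    rw [Set.ncard_sdiff_singleton_of_mem (Subgroup.one_mem _)]
    have : ((P : Subgroup G) : Set G).ncard = p := (Nat.card_coe_set_eq _).symm.trans hP
    rw [this]
  have heq : MulAction.orbit (Subgroup.normalizer ((P : Subgroup G) : Set G)) x =
      ((P : Subgroup G) : Set G) \ {1} := by
    apply Set.eq_of_subset_of_ncard_le hsub _ (Set.toFinite _)
    rw [hTcard, ← horb]
    exact le_of_eq (Nat.card_coe_set_eq _)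
  have part1 : ∀ i : ℕ, ¬ p ∣ i → ∃ c : G, c * x * c⁻¹ = x ^ i := by
    intro i hi
    have hmem : x ^ i ∈ ((P : Subgroup G) : Set G) \ {1} := by
      refine ⟨pow_mem hx i, ?_⟩
      intro h
      rw [Set.mem_singleton_iff] at h
      apply hi
      rw [← hox]
      exact orderOf_dvd_of_pow_eq_one h
    rw [← heq] at hmem
    obtain ⟨n, hn⟩ := hmem
    exact ⟨(n : G), hn⟩
  refine ⟨part1, ?_⟩
  intro hp2
  have hp1 : ¬ p ∣ p - 1 := by
    intro h
    have := Nat.le_of_dvd (by have := hp.two_le; omega) h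
    have := hp.two_le
    omega
  obtain ⟨c, hc⟩ := part1 (p - 1) hp1
  have hxinv : x ^ (p - 1) = x⁻¹ := by
    have h1 : x ^ (p - 1) * x = 1 := by
      rw [← pow_succ, Nat.sub_add_cancel hp.one_le, ← hox, pow_orderOf_eq_one]
    exact eq_inv_of_mul_eq_one_left h1
  rw [hxinv] at hc
  -- `c * c` centralizes `x`
  have hc' : c * x⁻¹ * c⁻¹ = x := by
    rw [← conj_inv, hc, inv_inv]
  have hcc : (c * c) * x = x * (c * c) := by
    have h1 : c * x = x⁻¹ * c := by
      rw [← hc]
      group
    have h2 : c * x⁻¹ = x * c := by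
      have h3 : c * x⁻¹ = (c * x⁻¹ * c⁻¹) * c := by group
      rw [h3, hc']
    calc c * c * x = c * (c * x) := by group
      _ = c * (x⁻¹ * c) := by rw [h1]
      _ = (c * x⁻¹) * c := by group
      _ = x * c * c := by rw [h2]
      _ = x * (c * c) := by group
  have hccC : c * c ∈ Subgroup.centralizer ((P : Subgroup G) : Set G) := (hmemC _).mpr hcc
  have hccp : (c * c) ^ p = 1 := by
    have h1 := Cfsg.Agent.H21.orderOf_dvd_card_of_mem _ _ hccC
    rw [hC] at h1
    exact orderOf_dvd_iff_pow_eq_one.mp h1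
  obtain ⟨k, hk⟩ : ∃ k, p = 2 * k + 1 := by
    rcases hp.eq_two_or_odd' with h | h
    · exact absurd h hp2
    · obtain ⟨k, hk⟩ := h
      exact ⟨k, hk⟩
  have hcomm : Commute ((c * c) ^ k) x := (show Commute (c * c) x from hcc).pow_left k
  have ht : c ^ p = (c * c) ^ k * c := by
    rw [hk, pow_succ, pow_mul, pow_two]
  have htx : c ^ p * x * (c ^ p)⁻¹ = x⁻¹ := by
    rw [ht, mul_inv_rev]
    calc (c * c) ^ k * c * x * (c⁻¹ * ((c * c) ^ k)⁻¹)
        = (c * c) ^ k * (c * x * c⁻¹) * ((c * c) ^ k)⁻¹ := by group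
      _ = (c * c) ^ k * x⁻¹ * ((c * c) ^ k)⁻¹ := by rw [hc]
      _ = x⁻¹ := by
        rw [(hcomm.inv_right).eq, mul_assoc, mul_inv_cancel, mul_one]
  refine ⟨c ^ p, ?_, htx⟩
  haveI : Fact (Nat.Prime 2) := ⟨Nat.prime_two⟩
  apply orderOf_eq_prime
  · rw [← pow_mul, mul_comm, pow_mul, pow_two, hccp]
  · intro h1
    rw [h1] at htx
    have h2 : x = x⁻¹ := by
      rw [← htx]
      group
    have h3 : x ^ 2 = 1 := by
      rw [pow_two]
      nth_rewrite 1 [h2]
      exact inv_mul_cancel x
    have h4 : p ∣ 2 := by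
      rw [← hox]
      exact orderOf_dvd_of_pow_eq_one h3
    have := Nat.le_of_dvd (by norm_num) h4
    have := hp.two_le
    omega

/-- **S0978-GRP**: Sylow bookkeeping for `p = 5, 7` in a simple group of order 5040. -/
theorem sylow_data {G : Type*} [Group G] [Finite G] [IsSimpleGroup G] (hcard : Nat.card G = 5040)
    (p : ℕ) [Fact p.Prime] (hp : p = 5 ∨ p = 7) (P : Sylow p G) :
    Nat.card (P : Subgroup G) = p ∧
    ∃ e k n : ℕ, (Subgroup.centralizer ((P : Subgroup G) : Set G)).relIndex
        (Subgroup.normalizer ((P : Subgroup G) : Set G)) = e ∧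
      Nat.card (Subgroup.centralizer ((P : Subgroup G) : Set G)) = p * k ∧
      n * (p * e * k) = 5040 ∧ n % p = 1 ∧ 8 ≤ n ∧ e ∣ p - 1 ∧ e ≠ 1 ∧
      (IsPGroup p (Subgroup.centralizer ((P : Subgroup G) : Set G)) → k = 1) ∧
      (∀ r : ℕ, r.Prime → r ∣ k →
        ∃ u ∈ Subgroup.centralizer ((P : Subgroup G) : Set G), orderOf u = r) := by
  have hpp : p.Prime := Fact.out
  have hG : ¬ IsMulCommutative G := by
    apply Cfsg.Agent.H21.not_comm_of_not_prime
    rw [hcard]
    norm_num
  obtain ⟨m, hN, hm⟩ : ∃ m, Nat.card G = p ^ 1 * m ∧ ¬ p ∣ m := by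
    rcases hp with rfl | rfl
    · exact ⟨1008, by rw [hcard]; norm_num, by norm_num⟩
    · exact ⟨720, by rw [hcard]; norm_num, by norm_num⟩
  obtain ⟨hPc, -, -, -, hmod, hne1, hfact, hNn, -⟩ :=
    Cfsg.Agent.H21.simple_sylow_facts hG hN hm one_ne_zero P
  rw [pow_one] at hPc
  obtain ⟨d, hd, hd1, hddvd, -⟩ := Cfsg.Agent.H21.simple_sylow_prime_card_NC hG P hPc
  have hCN := Cfsg.Agent.H21.card_centralizer_mul_relIndex_normalizer (P : Subgroup G)
  have hPC : (P : Subgroup G) ≤ Subgroup.centralizer ((P : Subgroup G) : Set G) := by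
    have : IsCyclic (P : Subgroup G) := isCyclic_of_prime_card hPc
    have hcomm : ∀ a b : (P : Subgroup G), a * b = b * a := fun a b =>
      (IsCyclic.commGroup (α := (P : Subgroup G))).mul_comm a b
    intro x hx y hy
    have := hcomm ⟨y, hy⟩ ⟨x, hx⟩
    exact congrArg Subtype.val this
  have hpC : p ∣ Nat.card (Subgroup.centralizer ((P : Subgroup G) : Set G)) := by
    have := Subgroup.card_dvd_of_le hPC
    rwa [hPc] at this
  obtain ⟨k, hk⟩ := hpC
  refine ⟨hPc, d, k, Nat.card (Sylow p G), hd.symm, hk, ?_, hmod, ?_, hddvd, hd1, ?_, ?_⟩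
  · rw [← hcard, ← hNn, ← hCN, hk, ← hd]
    ring
  · by_contra hlt
    push Not at hlt
    have h1 : (Nat.card (Sylow p G)).factorial ∣ (7).factorial :=
      Nat.factorial_dvd_factorial (by omega)
    have h2 := Nat.le_of_dvd (by decide) (hfact.trans h1)
    rw [hcard] at h2
    have : (7).factorial = 5040 := by decide
    omega
  · intro hpg
    obtain ⟨j, hj⟩ := (IsPGroup.iff_card.mp hpg)
    have hdvd : Nat.card (Subgroup.centralizer ((P : Subgroup G) : Set G)) ∣ 5040 := by
      rw [← hcard]
      exact Subgroup.card_subgroup_dvd_card _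
    rw [hj] at hk hdvd
    by_contra hk1
    have hj2 : 2 ≤ j := by
      by_contra hj2
      have hj' : j = 0 ∨ j = 1 := by omega
      rcases hj' with rfl | rfl
      · rw [pow_zero] at hk
        have := hpp.two_le
        have hkpos : 0 < k := by
          rcases Nat.eq_zero_or_pos k with h | h
          · rw [h] at hk
            omega
          · exact h
        nlinarith
      · rw [pow_one] at hk
        have : p * 1 = p * k := by rw [mul_one]; exact hk
        exact hk1 (Nat.eq_of_mul_eq_mul_left hpp.pos this).symm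
    have h2 : p ^ 2 ∣ 5040 := (pow_dvd_pow p hj2).trans hdvd
    rcases hp with rfl | rfl
    · norm_num at h2
    · norm_num at h2
  · intro r hr hrk
    haveI : Fact r.Prime := ⟨hr⟩
    apply Cfsg.Agent.H21.exists_mem_orderOf_eq_prime
    rw [hk]
    exact hrk.mul_left p

end Cfsg.Agent.H16.Ord5040
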