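import Cfsg.Agent.H7.PsDefs
import Cfsg.Agent.H45.SpRS

set_option autoImplicit false

/-!
# helper16: PS-F1 for helper7 (S3664): an element of order 13 of `Sp(6,3)` fixes no nonzero vector
-/

namespace Cfsg.Agent.H16.Ps

open Cfsg Cfsg.Agent.H7.Ps Matrix Module

theorem three_pow_three : ((3 : ℕ) : ZMod 13) ^ 3 = 1 := by decide

theorem three_ne_one : ((3 : ℕ) : ZMod 13) ≠ 1 := by decide

theorem f1 : StF1 := by
  intro B hB hB13 hB1 v hv
  haveI : Fact (Nat.Prime 3) := ⟨Nat.prime_three⟩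
  haveI : Fact (Nat.Prime 13) := ⟨by norm_num⟩
  obtain ⟨z, hz⟩ : ∃ z : ↥(Matrix.symplecticGroup (Fin 3) (ZMod 3)), z = ⟨B, hB⟩ := ⟨_, rfl⟩
  have hz13 : z ^ 13 = 1 := by
    rw [hz]
    apply Subtype.ext
    exact hB13
  have hz1 : z ≠ 1 := by
    rw [hz]
    intro h
    exact hB1 (congrArg Subtype.val h)
  have hoz : orderOf z = 13 := orderOf_eq_prime hz13 hz1
  have hk : 3 = orderOf ((Fintype.card (ZMod 3) : ℕ) : ZMod 13) := by
    rw [ZMod.card]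
    exact (orderOf_eq_prime three_pow_three three_ne_one).symm
  have hdim := Cfsg.Agent.H45.sp_mov_dim (F := ZMod 3) 3 3 13 (by norm_num) (by norm_num)
    (by norm_num) 3 3 hk (Or.inl ⟨by decide, rfl⟩) z hoz
  have hsum := Cfsg.Agent.H45.finrank_fixS_add_movS (Cfsg.Agent.H45.spIso 3 (ZMod 3) z)
  have hcard : Fintype.card (Fin 3 ⊕ Fin 3) = 6 := by decide
  rw [hcard] at hsum
  have hfix0 : finrank (ZMod 3) (Cfsg.Agent.H45.fixS (Cfsg.Agent.H45.spIso 3 (ZMod 3) z)) = 0 := by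
    omega
  have hbot : Cfsg.Agent.H45.fixS (Cfsg.Agent.H45.spIso 3 (ZMod 3) z) = ⊥ :=
    Submodule.finrank_eq_zero.1 hfix0
  have hvfix : v ∈ Cfsg.Agent.H45.fixS (Cfsg.Agent.H45.spIso 3 (ZMod 3) z) := by
    rw [Cfsg.Agent.H45.mem_fixS, Cfsg.Agent.H45.spIso_act, hz]
    exact hv
  rw [hbot, Submodule.mem_bot] at hvfix
  exact hvfix

end Cfsg.Agent.H16.Ps
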