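import Cfsg.Agent.H7.PsDefs
import Cfsg.Agent.S0245

set_option autoImplicit false

/-!
# helper16: PS-PRIMES for helper7 (S3664): the primes dividing `|PSp(6,3)|`
-/

namespace Cfsg.Agent.H16.Ps

open Cfsg Cfsg.Agent.H7.Ps

theorem primes : StPrimes := by
  intro p hp hd
  have hcard : Nat.card (Matrix.symplecticGroup (Fin 3) (ZMod 3)) =
      3 ^ (3 ^ 2) * ∏ i ∈ Finset.range 3, (3 ^ (2 * (i + 1)) - 1) :=
    Cfsg.Agent.S0245.result (F := ZMod 3) (ZMod.card 3) 3
  have hval : 3 ^ (3 ^ 2) * ∏ i ∈ Finset.range 3, (3 ^ (2 * (i + 1)) - 1) =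
      2 ^ 10 * 3 ^ 9 * 5 * 7 * 13 := by
    norm_num [Finset.prod_range_succ]
  have h2 : Nat.card L ∣ Nat.card (Matrix.symplecticGroup (Fin 3) (ZMod 3)) :=
    Subgroup.card_quotient_dvd_card _
  have h3 : p ∣ 2 ^ 10 * 3 ^ 9 * 5 * 7 * 13 := by
    rw [← hval, ← hcard]
    exact dvd_trans hd h2
  rcases (Nat.Prime.dvd_mul hp).1 h3 with h | h
  · rcases (Nat.Prime.dvd_mul hp).1 h with h | h
    · rcases (Nat.Prime.dvd_mul hp).1 h with h | h
      · rcases (Nat.Prime.dvd_mul hp).1 h with h | h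
        · left
          exact (Nat.prime_dvd_prime_iff_eq hp Nat.prime_two).1 (hp.dvd_of_dvd_pow h)
        · right; left
          exact (Nat.prime_dvd_prime_iff_eq hp Nat.prime_three).1 (hp.dvd_of_dvd_pow h)
      · right; right; left
        exact (Nat.prime_dvd_prime_iff_eq hp Nat.prime_five).1 h
    · right; right; right; left
      exact (Nat.prime_dvd_prime_iff_eq hp (by norm_num)).1 h
  · right; right; right; right
    exact (Nat.prime_dvd_prime_iff_eq hp (by norm_num)).1 h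

end Cfsg.Agent.H16.Ps
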