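import Cfsg.Agent.H7.PsDefs
import Cfsg.Agent.H24.PCTrans

set_option autoImplicit false

/-!
# helper16: PS-TRANS for helper7 (S3664): `PSp(6, ZMod 3) ≃* PSp(6, F)` for `|F| = 3`
-/

namespace Cfsg.Agent.H16.Ps

open Cfsg Cfsg.Agent.H7.Ps Matrix

universe u

theorem trans : StTrans.{u} := by
  intro F _ _ hF
  have e : ZMod 3 ≃+* F := ZMod.ringEquivOfPrime F (by norm_num) hF
  exact ⟨QuotientGroup.congr (Subgroup.center (symplecticGroup (Fin 3) (ZMod 3)))
    (Subgroup.center (symplecticGroup (Fin 3) F)) (Cfsg.Agent.H24.PC.spEquiv e)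
    (Cfsg.Agent.H24.PC.map_center_equiv (Cfsg.Agent.H24.PC.spEquiv e))⟩

end Cfsg.Agent.H16.Ps
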