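import Mathlib
import Cfsg.Prelude.Def_Perm
import Cfsg.Prelude.Def_Characters
import Cfsg.Agent.H16.Orbital
import Cfsg.Agent.H4.IrrCount

set_option autoImplicit false
set_option linter.unusedSectionVars false

namespace Cfsg.Agent.H16

open Cfsg Cfsg.Agent.H4 Module Representation
open scoped ComplexConjugate Matrix

universe u w

section OrbitCount

variable {Ω : Type w} [Fintype Ω]

/-- Orbit counting: if all orbits other than the fixed point `a` have size at least `f`, then
`(r - 1) f + 1 ≤ n`, with equality only if all these orbits have size exactly `f`. -/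
theorem orbit_count (H : Type*) [Group H] [MulAction H Ω] (a : Ω) (ha : ∀ h : H, h • a = a)
    (f : ℕ) (hf : ∀ b, b ≠ a → f ≤ Nat.card (MulAction.orbit H b)) :
    (Nat.card (MulAction.orbitRel.Quotient H Ω) - 1) * f + 1 ≤ Fintype.card Ω ∧
    ((Nat.card (MulAction.orbitRel.Quotient H Ω) - 1) * f + 1 = Fintype.card Ω →
      ∀ b, b ≠ a → Nat.card (MulAction.orbit H b) = f) := by
  classical
  have : Fintype (MulAction.orbitRel.Quotient H Ω) := Fintype.ofFinite _
  obtain ⟨mk, hmk⟩ : ∃ mk : Ω → MulAction.orbitRel.Quotient H Ω, mk = Quotient.mk'' := ⟨_, rfl⟩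
  have hmk_eq : ∀ x b : Ω, mk x = mk b ↔ x ∈ MulAction.orbit H b := by
    intro x b
    rw [hmk, Quotient.eq'']
    exact MulAction.orbitRel_apply
  obtain ⟨c, hc⟩ : ∃ c : MulAction.orbitRel.Quotient H Ω → ℕ,
      c = fun q => (Finset.univ.filter (fun x : Ω => mk x = q)).card := ⟨_, rfl⟩
  have hsum : Fintype.card Ω = ∑ q : MulAction.orbitRel.Quotient H Ω, c q := by
    rw [hc]
    exact Finset.card_eq_sum_card_fiberwise (f := mk) (s := Finset.univ) (t := Finset.univ)
      (fun x _ => Finset.mem_coe.mpr (Finset.mem_univ _))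
  have hcb : ∀ b : Ω, c (mk b) = Nat.card (MulAction.orbit H b) := by
    intro b
    rw [hc, Nat.card_eq_fintype_card, Fintype.card_subtype]
    simp only
    congr 1
    ext x
    simp only [Finset.mem_filter, Finset.mem_univ, true_and]
    exact hmk_eq x b
  have horba : MulAction.orbit H a = {a} := by
    ext x
    simp only [Set.mem_singleton_iff]
    constructor
    · rintro ⟨h, rfl⟩
      exact ha h
    · rintro rfl
      exact MulAction.mem_orbit_self _
  have hca : c (mk a) = 1 := by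
    rw [hcb, horba]
    simp
  have hne : ∀ b, b ≠ a → mk b ≠ mk a := by
    intro b hb h
    rw [hmk_eq, horba] at h
    exact hb h
  have hge : ∀ q ∈ Finset.univ.erase (mk a), f ≤ c q := by
    intro q hq
    have hq' : q ≠ mk a := (Finset.mem_erase.mp hq).1
    obtain ⟨b, rfl⟩ : ∃ b, mk b = q := by
      rw [hmk]
      induction q using Quotient.inductionOn' with
      | h b => exact ⟨b, rfl⟩
    rw [hcb]
    refine hf b ?_
    rintro rfl
    exact hq' rfl
  have hsplit := Finset.add_sum_erase Finset.univ c (Finset.mem_univ (mk a))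
  rw [hca] at hsplit
  have hcard : (Finset.univ.erase (mk a)).card = Nat.card (MulAction.orbitRel.Quotient H Ω) - 1 := by
    rw [Finset.card_erase_of_mem (Finset.mem_univ _), Finset.card_univ, Nat.card_eq_fintype_card]
  have hle : (Nat.card (MulAction.orbitRel.Quotient H Ω) - 1) * f ≤
      ∑ q ∈ Finset.univ.erase (mk a), c q := by
    rw [← hcard, ← smul_eq_mul]
    exact Finset.card_nsmul_le_sum _ _ _ hge
  refine ⟨by omega, ?_⟩
  intro heq b hb
  have heq' : ∑ q ∈ Finset.univ.erase (mk a), c q =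
      ∑ q ∈ Finset.univ.erase (mk a), f := by
    rw [Finset.sum_const, hcard, smul_eq_mul]
    omega
  have hall := (Finset.sum_eq_sum_iff_of_le hge).mp heq'.symm
  have := hall (mk b) (Finset.mem_erase.mpr ⟨hne b hb, Finset.mem_univ _⟩)
  rw [← hcb, ← this]

end OrbitCount

section RankChar

variable {G : Type u} [Group G] [Fintype G] {Ω : Type w} [Fintype Ω] [MulAction G Ω]

/-- Orbits on ordered pairs correspond to orbits of a point stabiliser. -/
theorem card_orbits_prod_eq_rank [MulAction.IsPretransitive G Ω] (a : Ω) :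
    Nat.card (MulAction.orbitRel.Quotient G (Ω × Ω)) =
      Nat.card (MulAction.orbitRel.Quotient (MulAction.stabilizer G a) Ω) := by
  symm
  let f : MulAction.orbitRel.Quotient (MulAction.stabilizer G a) Ω →
      MulAction.orbitRel.Quotient G (Ω × Ω) :=
    Quotient.map' (fun b => (a, b)) (by
      intro b b' h
      rw [MulAction.orbitRel_apply] at h ⊢
      obtain ⟨s, hs⟩ := h
      refine ⟨(s : G), ?_⟩
      have h1 : (s : G) • a = a := s.2
      have h2 : (s : G) • b' = b := hs
      simp [Prod.smul_mk, h1, h2])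
  apply Nat.card_congr
  refine Equiv.ofBijective f ⟨?_, ?_⟩
  · intro x y
    induction x using Quotient.inductionOn' with
    | h b =>
    induction y using Quotient.inductionOn' with
    | h b' =>
    intro h
    have h' : (Quotient.mk'' (a, b) : MulAction.orbitRel.Quotient G (Ω × Ω)) =
        Quotient.mk'' (a, b') := h
    rw [Quotient.eq''] at h' ⊢
    rw [MulAction.orbitRel_apply] at h' ⊢
    obtain ⟨g, hg⟩ := h'
    have h1 : g • a = a := congrArg Prod.fst hg
    have h2 : g • b' = b := congrArg Prod.snd hg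
    exact ⟨⟨g, h1⟩, h2⟩
  · intro y
    induction y using Quotient.inductionOn' with
    | h xy =>
    obtain ⟨x, y⟩ := xy
    obtain ⟨g, hg⟩ := MulAction.exists_smul_eq G x a
    refine ⟨Quotient.mk'' (g • y), ?_⟩
    change (Quotient.mk'' (a, g • y) : MulAction.orbitRel.Quotient G (Ω × Ω)) =
      Quotient.mk'' (x, y)
    rw [Quotient.eq'', MulAction.orbitRel_apply]
    exact ⟨g, by simp [Prod.smul_mk, hg]⟩

/-- The norm of the permutation character is the rank. -/
theorem classInner_permChar_self [MulAction.IsPretransitive G Ω] (a : Ω) :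
    classInner (Cfsg.permRep ℂ G Ω).character (Cfsg.permRep ℂ G Ω).character =
      (Nat.card (MulAction.orbitRel.Quotient (MulAction.stabilizer G a) Ω) : ℂ) := by
  unfold classInner
  have hN : (Nat.card G : ℂ) ≠ 0 := by exact_mod_cast (Nat.card_pos (α := G)).ne'
  have h1 : ∑ g : G, (Cfsg.permRep ℂ G Ω).character g *
      conj ((Cfsg.permRep ℂ G Ω).character g) =
      ∑ g : G, (Nat.card (MulAction.fixedBy (Ω × Ω) g) : ℂ) := by
    refine Finset.sum_congr rfl fun g _ => ?_
    rw [character_permRep, card_fixedBy_prod]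
    simp
  rw [h1, sum_card_fixedBy (Ω × Ω), ← card_orbits_prod_eq_rank a, mul_comm, mul_assoc,
    mul_inv_cancel₀ hN, mul_one]

/-- Multiplicity data of the permutation character of a transitive group. -/
theorem exists_perm_mult [MulAction.IsPretransitive G Ω] (a : Ω) :
    ∃ m : IrrCharacter G → ℕ,
      (∀ χ : IrrCharacter G, classInner (Cfsg.permRep ℂ G Ω).character χ.1 = m χ) ∧
      m (trivialIrr G) = 1 ∧
      (@Finset.sum _ _ _ (@Finset.univ _ (fintypeIrr G)) (fun χ => m χ * m χ) =
        Nat.card (MulAction.orbitRel.Quotient (MulAction.stabilizer G a) Ω)) ∧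
      (@Finset.sum _ _ _ (@Finset.univ _ (fintypeIrr G)) (fun χ => (m χ : ℂ) * χ.1 1) =
        (Fintype.card Ω : ℂ)) := by
  classical
  let _ := fintypeIrr G
  have : Nonempty Ω := ⟨a⟩
  obtain ⟨m, hm⟩ := character_decomp (Cfsg.permRep ℂ G Ω)
  have hinner : ∀ ψ : IrrCharacter G,
      classInner (Cfsg.permRep ℂ G Ω).character ψ.1 = m ψ := by
    intro ψ; rw [hm, classInner_finsum_irr]
  refine ⟨m, hinner, ?_, ?_, ?_⟩
  · have h1 := hinner (trivialIrr G)
    have h2 : classInner (Cfsg.permRep ℂ G Ω).character (trivialIrr G).1 = 1 :=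
      classInner_permChar_one
    rw [h2] at h1
    exact_mod_cast h1.symm
  · have h2 : classInner (Cfsg.permRep ℂ G Ω).character (Cfsg.permRep ℂ G Ω).character =
        ∑ ψ : IrrCharacter G, (m ψ : ℂ) * (m ψ : ℂ) := by
      conv_lhs => rw [hm, finsum_irr_eq_sum, classInner_sum_right]
      refine Finset.sum_congr rfl fun ψ _ => ?_
      rw [classInner_smul_right, Complex.conj_natCast, ← finsum_irr_eq_sum, ← hm, hinner]
    rw [classInner_permChar_self a] at h2
    exact_mod_cast h2.symm
  · have h1 : (Cfsg.permRep ℂ G Ω).character 1 = (Fintype.card Ω : ℂ) := by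
      rw [Representation.char_one]
      simp
    rw [← h1, hm, finsum_irr_eq_sum, Finset.sum_apply]
    refine Finset.sum_congr rfl fun χ _ => ?_
    rw [Pi.smul_apply, smul_eq_mul]

end RankChar

section EqualDegrees

variable {G : Type u} [Group G] [Fintype G] {Ω : Type w} [Fintype Ω] [MulAction G Ω]

/-- If all non-principal irreducible constituents of the permutation character of a transitive
group have the same degree `f`, the character is multiplicity-free and all non-trivial
subdegrees equal `f`. -/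
theorem multFree_of_equal_degrees [MulAction.IsPretransitive G Ω] (a : Ω) (f : ℕ)
    (hf : ∀ χ : G → ℂ, IsIrrCharacter G χ → χ ≠ (fun _ => 1) →
      classInner (Cfsg.permRep ℂ G Ω).character χ ≠ 0 → χ 1 = f) :
    (∀ χ : G → ℂ, IsIrrCharacter G χ → classInner (Cfsg.permRep ℂ G Ω).character χ = 0 ∨
      classInner (Cfsg.permRep ℂ G Ω).character χ = 1) ∧
    ∀ b : Ω, b ≠ a → Nat.card (MulAction.orbit (MulAction.stabilizer G a) b) = f := by
  classical
  let _ := fintypeIrr G
  obtain ⟨m, hinner, hm0, hrank, hdeg⟩ := exists_perm_mult (G := G) a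
  obtain ⟨r, hr⟩ : ∃ r, r = Nat.card (MulAction.orbitRel.Quotient (MulAction.stabilizer G a) Ω) :=
    ⟨_, rfl⟩
  rw [← hr] at hrank
  -- split off the trivial character
  have hrank' : ∑ ψ ∈ Finset.univ.erase (trivialIrr G), m ψ * m ψ + 1 = r := by
    rw [← hrank, ← Finset.add_sum_erase Finset.univ _ (Finset.mem_univ (trivialIrr G)), hm0]
    omega
  have hterm : ∀ ψ ∈ Finset.univ.erase (trivialIrr G), (m ψ : ℂ) * ψ.1 1 = ((m ψ * f : ℕ) : ℂ) := by
    intro ψ hψ
    have hψne : ψ ≠ trivialIrr G := (Finset.mem_erase.mp hψ).1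
    by_cases hz : m ψ = 0
    · simp [hz]
    · have hne : classInner (Cfsg.permRep ℂ G Ω).character ψ.1 ≠ 0 := by
        rw [hinner]; exact_mod_cast hz
      rw [hf ψ.1 ψ.2 (fun h => hψne (Subtype.ext h)) hne]
      push_cast
      ring
  have hdeg' : (∑ ψ ∈ Finset.univ.erase (trivialIrr G), m ψ) * f + 1 = Fintype.card Ω := by
    rw [← Finset.add_sum_erase Finset.univ _ (Finset.mem_univ (trivialIrr G)), hm0,
      Finset.sum_congr rfl hterm] at hdeg
    have ht : (trivialIrr G).1 1 = 1 := rfl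
    rw [ht] at hdeg
    rw [Finset.sum_mul]
    have : ((1 + ∑ ψ ∈ Finset.univ.erase (trivialIrr G), m ψ * f : ℕ) : ℂ) =
        ((Fintype.card Ω : ℕ) : ℂ) := by
      rw [← hdeg]; push_cast; ring
    have h2 : 1 + ∑ ψ ∈ Finset.univ.erase (trivialIrr G), m ψ * f = Fintype.card Ω := by
      exact_mod_cast this
    omega
  have hpos : ∀ b : Ω, 0 < Nat.card (MulAction.orbit (MulAction.stabilizer G a) b) := by
    intro b
    have : Nonempty (MulAction.orbit (MulAction.stabilizer G a) b) :=
      ⟨⟨b, MulAction.mem_orbit_self b⟩⟩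
    exact Nat.card_pos
  have hdvd : ∀ b : Ω, b ≠ a → f ∣ Nat.card (MulAction.orbit (MulAction.stabilizer G a) b) := by
    intro b hb
    exact dvd_subdegree f (fun χ hχ h1 h2 => ⟨1, by rw [hf χ hχ h1 h2]; simp⟩) a b hb
  have hfix : ∀ h : MulAction.stabilizer G a, h • a = a := fun h => h.2
  have hmle : ∀ ψ ∈ Finset.univ.erase (trivialIrr G), m ψ ≤ m ψ * m ψ := by
    intro ψ _
    exact Nat.le_mul_self (m ψ)
  -- conclude from `∑ m² ≤ ∑ m`
  have hconc : ∑ ψ ∈ Finset.univ.erase (trivialIrr G), m ψ * m ψ ≤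
      ∑ ψ ∈ Finset.univ.erase (trivialIrr G), m ψ →
      ∀ χ : G → ℂ, IsIrrCharacter G χ → classInner (Cfsg.permRep ℂ G Ω).character χ = 0 ∨
        classInner (Cfsg.permRep ℂ G Ω).character χ = 1 := by
    intro hle χ hχ
    have heq : ∑ ψ ∈ Finset.univ.erase (trivialIrr G), m ψ =
        ∑ ψ ∈ Finset.univ.erase (trivialIrr G), m ψ * m ψ :=
      le_antisymm (Finset.sum_le_sum hmle) hle
    have hall := (Finset.sum_eq_sum_iff_of_le hmle).mp heq
    obtain ⟨ψ, hψ⟩ : ∃ ψ : IrrCharacter G, ψ = ⟨χ, hχ⟩ := ⟨_, rfl⟩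
    have h1 : classInner (Cfsg.permRep ℂ G Ω).character χ = m ψ := by
      rw [← hinner ψ, hψ]
    rw [h1]
    by_cases hψt : ψ = trivialIrr G
    · right; rw [hψt, hm0]; simp
    · have h2 := hall ψ (Finset.mem_erase.mpr ⟨hψt, Finset.mem_univ _⟩)
      rcases Nat.eq_zero_or_pos (m ψ) with h0 | h0
      · left; rw [h0]; simp
      · right
        have : m ψ = 1 := by nlinarith
        rw [this]; simp
  by_cases hf0 : f = 0
  · -- degenerate case: `Ω` is a single point
    subst hf0
    have hcard : Fintype.card Ω = 1 := by omega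
    obtain ⟨hc1, -⟩ := orbit_count (MulAction.stabilizer G a) a hfix 1
      (fun b _ => hpos b)
    rw [← hr] at hc1
    constructor
    · apply hconc
      have : ∑ ψ ∈ Finset.univ.erase (trivialIrr G), m ψ * m ψ = 0 := by omega
      rw [this]; exact Nat.zero_le _
    · intro b hb
      exfalso
      have := Fintype.card_le_one_iff.mp hcard.le a b
      exact hb this.symm
  · have hfpos : 0 < f := Nat.pos_of_ne_zero hf0
    obtain ⟨hc1, hc2⟩ := orbit_count (MulAction.stabilizer G a) a hfix f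
      (fun b hb => Nat.le_of_dvd (hpos b) (hdvd b hb))
    rw [← hr] at hc1 hc2
    have hr1 : r - 1 = ∑ ψ ∈ Finset.univ.erase (trivialIrr G), m ψ * m ψ := by omega
    rw [hr1] at hc1 hc2
    have hle : ∑ ψ ∈ Finset.univ.erase (trivialIrr G), m ψ * m ψ ≤
        ∑ ψ ∈ Finset.univ.erase (trivialIrr G), m ψ := by
      have : (∑ ψ ∈ Finset.univ.erase (trivialIrr G), m ψ * m ψ) * f ≤
          (∑ ψ ∈ Finset.univ.erase (trivialIrr G), m ψ) * f := by omega
      exact Nat.le_of_mul_le_mul_right this hfpos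
    refine ⟨hconc hle, ?_⟩
    apply hc2
    have heq : ∑ ψ ∈ Finset.univ.erase (trivialIrr G), m ψ =
        ∑ ψ ∈ Finset.univ.erase (trivialIrr G), m ψ * m ψ :=
      le_antisymm (Finset.sum_le_sum hmle) hle
    rw [← heq]
    exact hdeg'

/-- A transitive group of rank at most 5 has multiplicity-free permutation character. -/
theorem multFree_of_rank_le_five [MulAction.IsPretransitive G Ω] (a : Ω)
    (hr : Nat.card (MulAction.orbitRel.Quotient (MulAction.stabilizer G a) Ω) ≤ 5) :
    ∀ χ : G → ℂ, IsIrrCharacter G χ → classInner (Cfsg.permRep ℂ G Ω).character χ = 0 ∨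
      classInner (Cfsg.permRep ℂ G Ω).character χ = 1 := by
  classical
  let _ := fintypeIrr G
  obtain ⟨m, hinner, hm0, hrank, hdeg⟩ := exists_perm_mult (G := G) a
  rw [← hrank] at hr
  by_contra hcon
  push Not at hcon
  obtain ⟨χ, hχ, hχ0, hχ1⟩ := hcon
  obtain ⟨ψ₁, hψ₁⟩ : ∃ ψ : IrrCharacter G, ψ = ⟨χ, hχ⟩ := ⟨_, rfl⟩
  have h1 : classInner (Cfsg.permRep ℂ G Ω).character χ = m ψ₁ := by
    rw [← hinner ψ₁, hψ₁]
  rw [h1] at hχ0 hχ1
  have hm2 : 2 ≤ m ψ₁ := by
    have h0 : m ψ₁ ≠ 0 := fun h => hχ0 (by rw [h]; simp)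
    have h1 : m ψ₁ ≠ 1 := fun h => hχ1 (by rw [h]; simp)
    omega
  have hne : ψ₁ ≠ trivialIrr G := by
    intro h; rw [h, hm0] at hm2; omega
  have hsplit1 := Finset.add_sum_erase Finset.univ (fun ψ => m ψ * m ψ)
    (Finset.mem_univ (trivialIrr G))
  have hsplit2 := Finset.add_sum_erase (Finset.univ.erase (trivialIrr G)) (fun ψ => m ψ * m ψ)
    (Finset.mem_erase.mpr ⟨hne, Finset.mem_univ ψ₁⟩)
  rw [hm0] at hsplit1
  have h4 : 4 ≤ m ψ₁ * m ψ₁ := by nlinarith
  have hrest : ∑ ψ ∈ (Finset.univ.erase (trivialIrr G)).erase ψ₁, m ψ * m ψ = 0 := by omega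
  have hzero : ∀ ψ : IrrCharacter G, ψ ≠ trivialIrr G → ψ ≠ ψ₁ → m ψ = 0 := by
    intro ψ h1 h2
    have := (Finset.sum_eq_zero_iff.mp hrest) ψ
      (Finset.mem_erase.mpr ⟨h2, Finset.mem_erase.mpr ⟨h1, Finset.mem_univ _⟩⟩)
    rcases mul_eq_zero.mp this with h | h <;> exact h
  obtain ⟨d, -, hd⟩ := irr_one_eq_natCast ψ₁
  have hmf := (multFree_of_equal_degrees (G := G) a d (by
    intro χ' hχ' hne' hin'
    obtain ⟨ψ', hψ'⟩ : ∃ ψ : IrrCharacter G, ψ = ⟨χ', hχ'⟩ := ⟨_, rfl⟩
    have h2 : classInner (Cfsg.permRep ℂ G Ω).character χ' = m ψ' := by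
      rw [← hinner ψ', hψ']
    rw [h2] at hin'
    have h3 : ψ' ≠ trivialIrr G := by
      intro h
      apply hne'
      have := congrArg Subtype.val h
      rw [hψ'] at this
      exact this
    have h4 : ψ' = ψ₁ := by
      by_contra h
      exact hin' (by rw [hzero ψ' h3 h]; simp)
    have h5 : χ' = ψ₁.1 := by rw [← h4, hψ']
    rw [h5]; exact hd)).1 χ hχ
  rw [h1] at hmf
  rcases hmf with h | h
  · exact hχ0 h
  · exact hχ1 h

end EqualDegrees

end Cfsg.Agent.H16
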