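import Mathlib
import Cfsg.Prelude.Def_Characters

/-!
# Spectral projections of an operator of finite order, and eigenvalue multiplicities

For an endomorphism `B` of a complex vector space with `B ^ r = 1` and a primitive `r`-th root
of unity `ω`, the operators `spProj B r ω k = r⁻¹ ∑_{j<r} (ω^(k*j))⁻¹ • B^j` are orthogonal
idempotents summing to `1` with `B * spProj k = ω^k • spProj k`.  We deduce the eigenvalue
multiplicity formulas for characters (`exists_mult`) and the vanishing of coset sums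
(`sum_mul_pow_eq_zero`).
-/

set_option autoImplicit false

namespace Cfsg.Agent.H16.RepMult

open Finset

theorem sum_range_shift {M : Type*} [AddCommGroup M] (f : ℕ → M) (r : ℕ) (hf : f r = f 0) :
    ∑ j ∈ range r, f (j + 1) = ∑ j ∈ range r, f j := by
  have h1 := Finset.sum_range_succ f r
  have h2 := Finset.sum_range_succ' f r
  rw [h1, hf] at h2
  exact (add_right_cancel h2).symm

theorem sum_inv_pow (r : ℕ) (ω : ℂ) (hω : IsPrimitiveRoot ω r) (j : ℕ) (hj : j < r) :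
    ∑ k ∈ range r, (ω ^ (k * j))⁻¹ = if j = 0 then (r : ℂ) else 0 := by
  split_ifs with h0
  · subst h0
    simp
  · have hne : ω ^ j ≠ 1 := hω.pow_ne_one_of_pos_of_lt h0 hj
    have hx : (ω ^ j)⁻¹ ≠ 1 := by
      intro h
      apply hne
      rw [← inv_inv (ω ^ j), h, inv_one]
    have h1 : ∀ k : ℕ, (ω ^ (k * j))⁻¹ = ((ω ^ j)⁻¹) ^ k := by
      intro k
      rw [inv_pow, ← pow_mul, mul_comm]
    simp only [h1]
    rw [geom_sum_eq hx]
    have h2 : ((ω ^ j)⁻¹) ^ r = 1 := by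
      rw [inv_pow, ← pow_mul, mul_comm, pow_mul, hω.pow_eq_one, one_pow, inv_one]
    rw [h2, sub_self, zero_div]

section Proj

variable {V : Type*} [AddCommGroup V] [Module ℂ V]

/-- The `k`-th spectral projection of an operator `B` with `B ^ r = 1`. -/
noncomputable def spProj (B : V →ₗ[ℂ] V) (r : ℕ) (ω : ℂ) (k : ℕ) : V →ₗ[ℂ] V :=
  (r : ℂ)⁻¹ • ∑ j ∈ range r, (ω ^ (k * j))⁻¹ • B ^ j

theorem mul_spProj (B : V →ₗ[ℂ] V) (r : ℕ) (hB : B ^ r = 1) (ω : ℂ) (hω : ω ^ r = 1)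
    (hω0 : ω ≠ 0) (k : ℕ) : B * spProj B r ω k = ω ^ k • spProj B r ω k := by
  unfold spProj
  rw [mul_smul_comm, smul_comm (ω ^ k), mul_sum]
  congr 1
  rw [smul_sum]
  have h := sum_range_shift (fun j => (ω ^ k * (ω ^ (k * j))⁻¹) • B ^ j) r (by
    simp only [mul_zero, pow_zero, inv_one]
    rw [hB, pow_mul', hω, one_pow, inv_one])
  have e1 : ∀ j ∈ range r, B * (ω ^ (k * j))⁻¹ • B ^ j =
      (ω ^ k * (ω ^ (k * (j + 1)))⁻¹) • B ^ (j + 1) := by
    intro j _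
    rw [mul_smul_comm, ← pow_succ']
    congr 1
    rw [mul_add, mul_one, pow_add, mul_inv]
    have : ω ^ k ≠ 0 := pow_ne_zero _ hω0
    field_simp
  rw [sum_congr rfl e1, h]
  apply sum_congr rfl
  intro j _
  rw [smul_smul]

theorem pow_mul_spProj (B : V →ₗ[ℂ] V) (r : ℕ) (hB : B ^ r = 1) (ω : ℂ) (hω : ω ^ r = 1)
    (hω0 : ω ≠ 0) (k j : ℕ) : B ^ j * spProj B r ω k = ω ^ (k * j) • spProj B r ω k := by
  induction j with
  | zero => simp
  | succ j ih =>
    rw [pow_succ, mul_assoc, mul_spProj B r hB ω hω hω0 k, mul_smul_comm, ih, smul_smul]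
    congr 1
    rw [← pow_add]
    congr 1
    ring

theorem spProj_idem (B : V →ₗ[ℂ] V) (r : ℕ) (hr : 0 < r) (hB : B ^ r = 1) (ω : ℂ)
    (hω : ω ^ r = 1) (hω0 : ω ≠ 0) (k : ℕ) : IsIdempotentElem (spProj B r ω k) := by
  have hr0 : (r : ℂ) ≠ 0 := by exact_mod_cast hr.ne'
  have h : spProj B r ω k * spProj B r ω k =
      ((r : ℂ)⁻¹ • ∑ j ∈ range r, (ω ^ (k * j))⁻¹ • B ^ j) * spProj B r ω k := rfl
  unfold IsIdempotentElem
  rw [h, smul_mul_assoc, sum_mul]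
  have e1 : ∀ j ∈ range r, (ω ^ (k * j))⁻¹ • B ^ j * spProj B r ω k = spProj B r ω k := by
    intro j _
    rw [smul_mul_assoc, pow_mul_spProj B r hB ω hω hω0, smul_smul,
      inv_mul_cancel₀ (pow_ne_zero _ hω0), one_smul]
  rw [sum_congr rfl e1, sum_const, card_range, ← Nat.cast_smul_eq_nsmul ℂ, smul_smul,
    inv_mul_cancel₀ hr0, one_smul]

theorem sum_spProj (B : V →ₗ[ℂ] V) (r : ℕ) (hr : 0 < r) (ω : ℂ) (hω : IsPrimitiveRoot ω r) :
    ∑ k ∈ range r, spProj B r ω k = 1 := by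
  have hr0 : (r : ℂ) ≠ 0 := by exact_mod_cast hr.ne'
  unfold spProj
  rw [← smul_sum, sum_comm]
  have e1 : ∀ j ∈ range r, ∑ k ∈ range r, (ω ^ (k * j))⁻¹ • B ^ j =
      (if j = 0 then (r : ℂ) else 0) • B ^ j := by
    intro j hj
    rw [← sum_smul, sum_inv_pow r ω hω j (mem_range.mp hj)]
  rw [sum_congr rfl e1]
  have e2 : ∀ j ∈ range r, (if j = 0 then (r : ℂ) else 0) • B ^ j =
      if j = 0 then (r : ℂ) • (1 : V →ₗ[ℂ] V) else 0 := by
    intro j _
    split_ifs with h0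
    · subst h0
      simp
    · simp
  rw [sum_congr rfl e2, sum_ite_eq' (range r) 0, if_pos (mem_range.mpr hr), smul_smul,
    inv_mul_cancel₀ hr0, one_smul]

theorem trace_spProj [FiniteDimensional ℂ V] (B : V →ₗ[ℂ] V) (r : ℕ) (hr : 0 < r)
    (hB : B ^ r = 1) (ω : ℂ) (hω : ω ^ r = 1) (hω0 : ω ≠ 0) (k : ℕ) :
    LinearMap.trace ℂ V (spProj B r ω k) =
      (Module.finrank ℂ (LinearMap.range (spProj B r ω k)) : ℂ) :=
  (LinearMap.IsIdempotentElem.isProj_range _ (spProj_idem B r hr hB ω hω hω0 k)).trace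

theorem trace_spProj_eq (B : V →ₗ[ℂ] V) (r : ℕ) (ω : ℂ) (k : ℕ) :
    LinearMap.trace ℂ V (spProj B r ω k) =
      (r : ℂ)⁻¹ * ∑ j ∈ range r, LinearMap.trace ℂ V (B ^ j) * (ω ^ (k * j))⁻¹ := by
  unfold spProj
  rw [map_smul, map_sum, smul_eq_mul]
  congr 1
  apply sum_congr rfl
  intro j _
  rw [map_smul, smul_eq_mul, mul_comm]

end Proj

/-- **S0978-MULTA**: eigenvalue multiplicities of an element. -/
theorem exists_mult {G : Type*} [Group G] [Finite G] {χ : G → ℂ} (hχ : Cfsg.IsCharacter G χ)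
    (y : G) (r : ℕ) (hr : 0 < r) (hy : y ^ r = 1) (ω : ℂ) (hω : IsPrimitiveRoot ω r) :
    ∃ m : ℕ → ℕ,
      (∀ j : ℕ, χ (y ^ j) = ∑ k ∈ Finset.range r, (m k : ℂ) * ω ^ (k * j)) ∧
      (∀ k ∈ Finset.range r, (m k : ℂ) =
        (r : ℂ)⁻¹ * ∑ j ∈ Finset.range r, χ (y ^ j) * (ω ^ (k * j))⁻¹) := by
  obtain ⟨n, ρ, rfl⟩ := hχ
  have hω1 : ω ^ r = 1 := hω.pow_eq_one
  have hω0 : ω ≠ 0 := hω.ne_zero hr.ne'
  have hB : (ρ y) ^ r = 1 := by rw [← map_pow, hy, map_one]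
  have hpow : ∀ j : ℕ, ρ (y ^ j) = (ρ y) ^ j := fun j => map_pow ρ y j
  refine ⟨fun k => Module.finrank ℂ (LinearMap.range (spProj (ρ y) r ω k)), ?_, ?_⟩
  · intro j
    have h1 : ρ (y ^ j) = ∑ k ∈ range r, ω ^ (k * j) • spProj (ρ y) r ω k := by
      rw [hpow, ← mul_one ((ρ y) ^ j), ← sum_spProj (ρ y) r hr ω hω, mul_sum]
      apply sum_congr rfl
      intro k _
      rw [pow_mul_spProj (ρ y) r hB ω hω1 hω0]
    show LinearMap.trace ℂ _ (ρ (y ^ j)) = _
    rw [h1, map_sum]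
    apply sum_congr rfl
    intro k _
    rw [map_smul, trace_spProj (ρ y) r hr hB ω hω1 hω0 k, smul_eq_mul, mul_comm]
  · intro k _
    show (Module.finrank ℂ (LinearMap.range (spProj (ρ y) r ω k)) : ℂ) = _
    rw [← trace_spProj (ρ y) r hr hB ω hω1 hω0 k, trace_spProj_eq]
    congr 1
    apply sum_congr rfl
    intro j _
    rw [← hpow]
    rfl

/-- **S0978-FIX0**: no fixed vector implies that coset sums vanish. -/
theorem sum_mul_pow_eq_zero {G : Type*} [Group G] [Finite G] {χ : G → ℂ}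
    (hχ : Cfsg.IsCharacter G χ) (x : G) (n : ℕ) (hn : 0 < n) (hx : x ^ n = 1)
    (h0 : ∑ i ∈ Finset.range n, χ (x ^ i) = 0) (g : G) :
    ∑ i ∈ Finset.range n, χ (g * x ^ i) = 0 := by
  obtain ⟨d, ρ, rfl⟩ := hχ
  have hB : (ρ x) ^ n = 1 := by rw [← map_pow, hx, map_one]
  have hpow : ∀ j : ℕ, ρ (x ^ j) = (ρ x) ^ j := fun j => map_pow ρ x j
  have hn0 : (n : ℂ) ≠ 0 := by exact_mod_cast hn.ne'
  have hidem := spProj_idem (ρ x) n hn hB 1 (one_pow n) one_ne_zero 0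
  have htr : LinearMap.trace ℂ _ (spProj (ρ x) n 1 0) = 0 := by
    rw [trace_spProj_eq]
    have : ∑ j ∈ range n, LinearMap.trace ℂ _ ((ρ x) ^ j) * ((1 : ℂ) ^ (0 * j))⁻¹ =
        ∑ i ∈ range n, ρ.character (x ^ i) := by
      apply sum_congr rfl
      intro j _
      rw [one_pow, inv_one, mul_one, ← hpow]
      rfl
    rw [this, h0, mul_zero]
  have hzero : spProj (ρ x) n 1 0 = 0 := LinearMap.IsIdempotentElem.eq_zero_of_trace_eq_zero hidem htr
  have hsum : ∑ j ∈ range n, (ρ x) ^ j = 0 := by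
    have h1 : spProj (ρ x) n 1 0 = (n : ℂ)⁻¹ • ∑ j ∈ range n, (ρ x) ^ j := by
      unfold spProj
      congr 1
      apply sum_congr rfl
      intro j _
      simp
    rw [h1] at hzero
    rcases smul_eq_zero.mp hzero with h | h
    · exact absurd h (inv_ne_zero hn0)
    · exact h
  have h2 : ∑ i ∈ range n, ρ.character (g * x ^ i) =
      LinearMap.trace ℂ _ (ρ g * ∑ j ∈ range n, (ρ x) ^ j) := by
    rw [mul_sum, map_sum]
    apply sum_congr rfl
    intro j _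
    rw [← hpow, ← map_mul]
    rfl
  rw [h2, hsum, mul_zero, map_zero]

end Cfsg.Agent.H16.RepMult
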