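import Mathlib
import Cfsg.Agent.H13.SaDefs

/-!
# helper16: S4025 piece FIELD -- the field structure on `Q` from Huppert's theorem
-/

set_option autoImplicit false

namespace Cfsg.Agent.H16.Sa

open Cfsg.Agent.H13.Sa

universe u

theorem prime_pow_ne_sq {p n r : ℕ} (hp : p.Prime) (hr : r.Prime) (hn : 3 ≤ n)
    (h : p ^ n = r ^ 2) : False := by
  have h1 : p ∣ r ^ 2 := by
    rw [← h]
    exact dvd_pow_self p (by omega)
  have h2 : p = r := (Nat.prime_dvd_prime_iff_eq hp hr).mp (hp.dvd_of_dvd_pow h1)
  subst h2
  have := Nat.pow_right_injective hp.two_le h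
  omega

/-- **S4025, piece FIELD.** -/
theorem field (h : HupProjStmt.{u, u}) : FieldStmt.{u} := by
  intro N _ _ p _ Q _ n hn hab hexp hcard K _ hK hsol htr
  letI acg : AddCommGroup (Additive Q) :=
    @AddCommGroup.mk (Additive Q) Additive.addGroup (fun a b => by
      have h1 := hab (Additive.toMul a).1 (Additive.toMul a).2 (Additive.toMul b).1
        (Additive.toMul b).2
      exact congrArg Additive.ofMul (Subtype.ext h1))
  have hexp' : ∀ x : Additive Q, p • x = 0 := by
    intro x
    have h1 : (Additive.toMul x) ^ p = 1 := Subtype.ext (by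
      rw [Subgroup.coe_pow]; exact hexp _ (Additive.toMul x).2)
    exact congrArg Additive.ofMul h1
  haveI md : Module (ZMod p) (Additive Q) := AddCommGroup.zmodModule hexp'
  haveI : Finite (Additive Q) := Finite.of_equiv Q Additive.ofMul
  have hcardA : Nat.card (Additive Q) = p ^ n := by
    rw [← hcard]
    exact Nat.card_congr Additive.toMul
  haveI : Nontrivial (Additive Q) := (Finite.one_lt_card_iff_nontrivial).mp (by
    rw [hcardA]
    exact Nat.one_lt_pow (by omega) (Fact.out : p.Prime).one_lt)
  -- the conjugation action as a linear representation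
  let am : N → (Additive Q →+ Additive Q) := fun g =>
    { toFun := fun v => Additive.ofMul (MulAut.conjNormal g (Additive.toMul v))
      map_zero' := by
        show Additive.ofMul (MulAut.conjNormal g (1 : Q)) = Additive.ofMul (1 : Q)
        rw [map_one]
      map_add' := fun v w => by
        show Additive.ofMul (MulAut.conjNormal g (Additive.toMul v * Additive.toMul w)) =
          Additive.ofMul (MulAut.conjNormal g (Additive.toMul v) *
            MulAut.conjNormal g (Additive.toMul w))
        rw [map_mul] }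
  have ham : ∀ g v, am g v = Additive.ofMul (MulAut.conjNormal g (Additive.toMul v)) :=
    fun _ _ => rfl
  have ham_mul : ∀ g g' v, am (g * g') v = am g (am g' v) := by
    intro g g' v
    rw [ham, ham, ham, map_mul]
    rfl
  have ham_one : ∀ v, am 1 v = v := by
    intro v
    rw [ham, map_one]
    rfl
  let lin : N → (Additive Q ≃ₗ[ZMod p] Additive Q) := fun g =>
    { toFun := fun v => am g v
      invFun := fun v => am g⁻¹ v
      map_add' := (am g).map_add
      map_smul' := fun c v => ZMod.map_smul (am g) c v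
      left_inv := fun v => by
        show am g⁻¹ (am g v) = v
        rw [← ham_mul, inv_mul_cancel, ham_one]
      right_inv := fun v => by
        show am g (am g⁻¹ v) = v
        rw [← ham_mul, mul_inv_cancel, ham_one] }
  have hlin : ∀ (g : N) (v : Additive Q), (lin g) v = am g v := fun _ _ => rfl
  have hlin_mul : ∀ g g', lin (g * g') = lin g * lin g' := by
    intro g g'
    apply LinearEquiv.ext
    intro v
    rw [LinearEquiv.mul_apply, hlin, hlin, hlin]
    exact ham_mul g g' v
  let ρ0 : N →* (Additive Q ≃ₗ[ZMod p] Additive Q) := MonoidHom.mk' lin hlin_mul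
  have hρ0 : ∀ (g : N) (v : Additive Q), (ρ0 g) v = Additive.ofMul (MulAut.conjNormal g (Additive.toMul v)) :=
    fun _ _ => rfl
  have hρ0K : ∀ x ∈ K, ρ0 x = 1 := by
    intro x hx
    have h1 : (MulAut.conjNormal x : MulAut Q) = 1 := MonoidHom.mem_ker.mp (hK hx)
    apply LinearEquiv.ext
    intro v
    rw [hρ0, h1]
    rfl
  let ρ : N ⧸ K →* (Additive Q ≃ₗ[ZMod p] Additive Q) := QuotientGroup.lift K ρ0 hρ0K
  have hρ : ∀ (g : N) (v : Additive Q), (ρ (QuotientGroup.mk g)) v =
      Additive.ofMul (MulAut.conjNormal g (Additive.toMul v)) := fun _ _ => rfl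
  have htrans : ∀ v w : Additive Q, v ≠ 0 → w ≠ 0 →
      ∃ g : N ⧸ K, ∃ c : ZMod p, c ≠ 0 ∧ (ρ g) v = c • w := by
    intro v w hv hw
    have ha1 : ((Additive.toMul v : Q) : N) ≠ 1 := by
      intro h1
      apply hv
      have : Additive.toMul v = 1 := Subtype.ext h1
      exact congrArg Additive.ofMul this
    have hb1 : ((Additive.toMul w : Q) : N) ≠ 1 := by
      intro h1
      apply hw
      have : Additive.toMul w = 1 := Subtype.ext h1
      exact congrArg Additive.ofMul this
    have hoa : orderOf ((Additive.toMul v : Q) : N) = p :=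
      orderOf_eq_prime (hexp _ (Additive.toMul v).2) ha1
    have hob : orderOf ((Additive.toMul w : Q) : N) = p :=
      orderOf_eq_prime (hexp _ (Additive.toMul w).2) hb1
    obtain ⟨g, hg⟩ := htr (Subgroup.zpowers ((Additive.toMul v : Q) : N))
      (Subgroup.zpowers ((Additive.toMul w : Q) : N))
      (Subgroup.zpowers_le.mpr (Additive.toMul v).2) (Subgroup.zpowers_le.mpr (Additive.toMul w).2)
      (by rw [Nat.card_zpowers, hoa]) (by rw [Nat.card_zpowers, hob])
    have hmem : g * ((Additive.toMul v : Q) : N) * g⁻¹ ∈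
        Subgroup.zpowers ((Additive.toMul w : Q) : N) := by
      rw [hg]
      exact ⟨_, Subgroup.mem_zpowers _, rfl⟩
    obtain ⟨k, hk⟩ := Subgroup.mem_zpowers_iff.mp hmem
    have hval : (ρ (QuotientGroup.mk g)) v = (k : ZMod p) • w := by
      rw [hρ, Int.cast_smul_eq_zsmul]
      have h1 : MulAut.conjNormal g (Additive.toMul v) = (Additive.toMul w) ^ k := by
        apply Subtype.ext
        rw [MulAut.conjNormal_apply, Subgroup.coe_zpow, hk]
      rw [h1]
      rfl
    refine ⟨QuotientGroup.mk g, (k : ZMod p), ?_, hval⟩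
    intro hk0
    rw [hk0, zero_smul] at hval
    exact hv ((LinearEquiv.map_eq_zero_iff _).mp hval)
  rcases h p hsol ρ htrans with ⟨F, iF, iF', e, he⟩ | hc
  · refine Or.inl ⟨F, iF, iF', e, fun g => ?_⟩
    obtain ⟨a, σ, haσ⟩ := he (QuotientGroup.mk g)
    exact ⟨a, σ, fun q => haσ (Additive.ofMul q)⟩
  · rw [hcardA] at hc
    have hp : p.Prime := Fact.out
    simp only [Set.mem_insert_iff, Set.mem_singleton_iff] at hc
    rcases hc with hc | hc | hc | hc | hc | hc
    · exact (prime_pow_ne_sq hp (by norm_num : Nat.Prime 3) hn (by rw [hc]; norm_num)).elim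
    · exact (prime_pow_ne_sq hp (by norm_num : Nat.Prime 5) hn (by rw [hc]; norm_num)).elim
    · exact (prime_pow_ne_sq hp (by norm_num : Nat.Prime 7) hn (by rw [hc]; norm_num)).elim
    · exact (prime_pow_ne_sq hp (by norm_num : Nat.Prime 11) hn (by rw [hc]; norm_num)).elim
    · exact (prime_pow_ne_sq hp (by norm_num : Nat.Prime 23) hn (by rw [hc]; norm_num)).elim
    · right
      rw [hcard, hc]

end Cfsg.Agent.H16.Sa
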