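import Mathlib
import Cfsg.Agent.H13.SaDefs
import Cfsg.Agent.H1.Hall

/-!
# helper16: S4025 piece NO65 -- a solvable group acting faithfully on a group of order 81 has
order prime to 65
-/

set_option autoImplicit false
set_option linter.unusedSectionVars false

namespace Cfsg.Agent.H16.Sa

open Cfsg.Agent.H13.Sa

universe u v

section Core

variable {Y : Type u} [Group Y] [Finite Y] {V : Type v} [Group V] [MulDistribMulAction Y V]

/-- The fixed points of a subgroup, as a subgroup. -/
def fixS (S : Subgroup Y) : Subgroup V := FixedPoints.subgroup S V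

theorem mem_fixS (S : Subgroup Y) (v : V) : v ∈ fixS S ↔ ∀ s ∈ S, s • v = v := by
  constructor
  · intro h s hs
    exact h ⟨s, hs⟩
  · intro h s
    exact h s.1 s.2

theorem card_fixS_modEq (hV : Nat.card V = 81) {p : ℕ} [Fact p.Prime] (S : Subgroup Y)
    (hS : IsPGroup p S) : 81 ≡ Nat.card (fixS (V := V) S) [MOD p] := by
  haveI : Finite V := Nat.finite_of_card_ne_zero (by rw [hV]; norm_num)
  have h := hS.card_modEq_card_fixedPoints V
  rw [hV] at h
  exact h

theorem card_fixS_dvd (hV : Nat.card V = 81) (S : Subgroup Y) :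
    ∃ j ≤ 4, Nat.card (fixS (V := V) S) = 3 ^ j := by
  have h := Subgroup.card_subgroup_dvd_card (fixS (V := V) S)
  have h81 : (81 : ℕ) = 3 ^ 4 := by norm_num
  rw [hV, h81] at h
  exact (Nat.dvd_prime_pow Nat.prime_three).mp h

theorem eq_bot_of_card_fixS (hV : Nat.card V = 81)
    (hf : ∀ y : Y, (∀ v : V, y • v = v) → y = 1)
    (S : Subgroup Y) (h : Nat.card (fixS (V := V) S) = 81) : S = ⊥ := by
  haveI : Finite V := Nat.finite_of_card_ne_zero (by rw [hV]; norm_num)
  have htop : fixS (V := V) S = ⊤ := (Subgroup.card_eq_iff_eq_top _).mp (by rw [h, hV])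
  rw [Subgroup.eq_bot_iff_forall]
  intro s hs
  apply hf
  intro v
  have hv : v ∈ fixS (V := V) S := by rw [htop]; exact Subgroup.mem_top v
  exact (mem_fixS S v).mp hv s hs

theorem fixS_five (hV : Nat.card V = 81) (hf : ∀ y : Y, (∀ v : V, y • v = v) → y = 1)
    (T : Subgroup Y) (hT : IsPGroup 5 T) (hT1 : T ≠ ⊥) : fixS (V := V) T = ⊥ := by
  haveI : Fact (Nat.Prime 5) := ⟨by norm_num⟩
  obtain ⟨j, hj, hc⟩ := card_fixS_dvd hV T
  have hm := card_fixS_modEq hV T hT
  rw [hc] at hm
  have hj0 : j = 0 := by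
    interval_cases j
    · rfl
    · exact absurd hm (by decide)
    · exact absurd hm (by decide)
    · exact absurd hm (by decide)
    · exact absurd (eq_bot_of_card_fixS hV hf T (by rw [hc]; norm_num)) hT1
  subst hj0
  exact Subgroup.eq_bot_of_card_eq _ (by rw [hc]; norm_num)

theorem card_fixS_thirteen (hV : Nat.card V = 81) (hf : ∀ y : Y, (∀ v : V, y • v = v) → y = 1)
    (S : Subgroup Y) (hS : IsPGroup 13 S) (hS1 : S ≠ ⊥) : Nat.card (fixS (V := V) S) = 3 := by
  haveI : Fact (Nat.Prime 13) := ⟨by norm_num⟩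
  obtain ⟨j, hj, hc⟩ := card_fixS_dvd hV S
  have hm := card_fixS_modEq hV S hS
  rw [hc] at hm
  have hj1 : j = 1 := by
    interval_cases j
    · exact absurd hm (by decide)
    · rfl
    · exact absurd hm (by decide)
    · exact absurd hm (by decide)
    · exact absurd (eq_bot_of_card_fixS hV hf S (by rw [hc]; norm_num)) hS1
  subst hj1
  rw [hc]; norm_num

/-- A nontrivial `5`-subgroup cannot normalize a nontrivial `13`-subgroup. -/
theorem no_five_normalizes_thirteen (hV : Nat.card V = 81)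
    (hf : ∀ y : Y, (∀ v : V, y • v = v) → y = 1)
    (T S : Subgroup Y) (hT : IsPGroup 5 T) (hT1 : T ≠ ⊥) (hS : IsPGroup 13 S) (hS1 : S ≠ ⊥)
    (hTS : T ≤ Subgroup.normalizer (S : Set Y)) : False := by
  haveI : Finite V := Nat.finite_of_card_ne_zero (by rw [hV]; norm_num)
  haveI : Fact (Nat.Prime 5) := ⟨by norm_num⟩
  have h3 := card_fixS_thirteen hV hf S hS hS1
  have hTfix := fixS_five hV hf T hT hT1
  have hne : fixS (V := V) S ≠ ⊥ := by
    intro h
    rw [h, Subgroup.card_bot] at h3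
    omega
  obtain ⟨⟨v, hv⟩, hv1⟩ := (Subgroup.ne_bot_iff_exists_ne_one).mp hne
  have hv1' : v ≠ 1 := fun h => hv1 (Subtype.ext h)
  have hsub : MulAction.orbit T v ⊆ ((fixS (V := V) S : Set V) \ {1}) := by
    rintro _ ⟨t, rfl⟩
    refine ⟨?_, ?_⟩
    · rw [SetLike.mem_coe, mem_fixS]
      intro s hs
      have htn : (t : Y)⁻¹ ∈ Subgroup.normalizer (S : Set Y) := inv_mem (hTS t.2)
      have h1 : (t : Y)⁻¹ * s * ((t : Y)⁻¹)⁻¹ ∈ S :=
        (Subgroup.mem_normalizer_iff.mp htn s).mp hs
      have h2 := (mem_fixS S v).mp hv _ h1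
      show s • ((t : Y) • v) = (t : Y) • v
      calc s • ((t : Y) • v) = (t : Y) • (((t : Y)⁻¹ * s * ((t : Y)⁻¹)⁻¹) • v) := by
            rw [smul_smul, smul_smul]; congr 1; group
        _ = (t : Y) • v := by rw [h2]
    · intro h
      rw [Set.mem_singleton_iff] at h
      apply hv1'
      have h' : (t : Y) • v = 1 := h
      calc v = (t : Y)⁻¹ • ((t : Y) • v) := by rw [inv_smul_smul]
        _ = 1 := by rw [h', smul_one]
  obtain ⟨k, hk⟩ := hT.card_orbit v
  have hle : Nat.card (MulAction.orbit T v) ≤ 2 := by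
    rw [Nat.card_coe_set_eq]
    calc (MulAction.orbit T v).ncard ≤ ((fixS (V := V) S : Set V) \ {1}).ncard :=
          Set.ncard_le_ncard hsub (Set.toFinite _)
      _ = 2 := by
          rw [Set.ncard_sdiff_singleton_of_mem (one_mem (fixS (V := V) S)),
            ← Nat.card_coe_set_eq]
          have : Nat.card ((fixS (V := V) S : Set V)) = 3 := h3
          rw [this]
  have hk0 : k = 0 := by
    by_contra h
    have : 5 ^ 1 ≤ 5 ^ k := Nat.pow_le_pow_right (by norm_num) (by omega)
    omega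
  rw [hk0, pow_zero, Nat.card_eq_one_iff_unique] at hk
  obtain ⟨hsubs, -⟩ := hk
  have hvT : v ∈ fixS (V := V) T := by
    rw [mem_fixS]
    intro t ht
    have h1 : (⟨t • v, ⟨⟨t, ht⟩, rfl⟩⟩ : MulAction.orbit T v) = ⟨v, MulAction.mem_orbit_self v⟩ :=
      Subsingleton.elim _ _
    exact congrArg Subtype.val h1
  rw [hTfix, Subgroup.mem_bot] at hvT
  exact hv1' hvT

theorem card_five_le (hV : Nat.card V = 81) (hf : ∀ y : Y, (∀ v : V, y • v = v) → y = 1)
    (T : Subgroup Y) (hT : IsPGroup 5 T) : Nat.card T ≤ 81 := by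
  haveI : Finite V := Nat.finite_of_card_ne_zero (by rw [hV]; norm_num)
  by_cases hT1 : T = ⊥
  · subst hT1; rw [Subgroup.card_bot]; norm_num
  haveI : Nontrivial V := (Finite.one_lt_card_iff_nontrivial).mp (by rw [hV]; norm_num)
  obtain ⟨v0, hv0⟩ := exists_ne (1 : V)
  have hinj : Function.Injective (fun t : T => (t : Y) • v0) := by
    intro t t' h
    simp only at h
    by_contra hne
    have hu : ((t' : Y)⁻¹ * (t : Y)) • v0 = v0 := by
      rw [mul_smul, h, inv_smul_smul]
    have hu1 : (t' : Y)⁻¹ * (t : Y) ≠ 1 := by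
      intro h1
      apply hne
      apply Subtype.ext
      rw [inv_mul_eq_one] at h1
      exact h1.symm
    have hmem : (t' : Y)⁻¹ * (t : Y) ∈ T := mul_mem (inv_mem t'.2) t.2
    have hz : fixS (V := V) (Subgroup.zpowers ((t' : Y)⁻¹ * (t : Y))) = ⊥ :=
      fixS_five hV hf _ (hT.to_le (Subgroup.zpowers_le.mpr hmem))
        (by rw [Ne, Subgroup.zpowers_eq_bot]; exact hu1)
    have hin : v0 ∈ fixS (V := V) (Subgroup.zpowers ((t' : Y)⁻¹ * (t : Y))) := by
      rw [mem_fixS]
      intro s hs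
      have hle : Subgroup.zpowers ((t' : Y)⁻¹ * (t : Y)) ≤ MulAction.stabilizer Y v0 :=
        Subgroup.zpowers_le.mpr (MulAction.mem_stabilizer_iff.mpr hu)
      exact MulAction.mem_stabilizer_iff.mp (hle hs)
    rw [hz, Subgroup.mem_bot] at hin
    exact hv0 hin
  have h := Nat.card_le_card_of_injective _ hinj
  rwa [hV] at h

/-- An element of order `13` cannot normalize a nontrivial `5`-subgroup. -/
theorem no_thirteen_normalizes_five (hV : Nat.card V = 81)
    (hf : ∀ y : Y, (∀ v : V, y • v = v) → y = 1)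
    (z : Y) (hz1 : z ≠ 1) (hz13 : z ^ 13 = 1) (T : Subgroup Y)
    (hT : IsPGroup 5 T) (hT1 : T ≠ ⊥) (hzT : z ∈ Subgroup.normalizer (T : Set Y)) : False := by
  haveI : Fact (Nat.Prime 13) := ⟨by norm_num⟩
  haveI : Fact (Nat.Prime 5) := ⟨by norm_num⟩
  have hord : orderOf z = 13 := orderOf_eq_prime hz13 hz1
  have hS : IsPGroup 13 (Subgroup.zpowers z) :=
    IsPGroup.of_card (n := 1) (by rw [Nat.card_zpowers, hord, pow_one])
  have hS1 : Subgroup.zpowers z ≠ ⊥ := by rw [Ne, Subgroup.zpowers_eq_bot]; exact hz1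
  have hle : Subgroup.zpowers z ≤ Subgroup.normalizer (T : Set Y) := Subgroup.zpowers_le.mpr hzT
  letI act : MulAction (Subgroup.zpowers z) T :=
    { smul := fun s t => ⟨(s : Y) * t * (s : Y)⁻¹,
        (Subgroup.mem_normalizer_iff.mp (hle s.2) t).mp t.2⟩
      one_smul := fun t => Subtype.ext (by
        show ((1 : Subgroup.zpowers z) : Y) * t * ((1 : Subgroup.zpowers z) : Y)⁻¹ = t
        simp)
      mul_smul := fun s s' t => Subtype.ext (by
        show ((s * s' : Subgroup.zpowers z) : Y) * t * ((s * s' : Subgroup.zpowers z) : Y)⁻¹ =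
          (s : Y) * ((s' : Y) * t * (s' : Y)⁻¹) * (s : Y)⁻¹
        simp [mul_assoc]) }
  have hsm : ∀ (s : Subgroup.zpowers z) (t : T), ((s • t : T) : Y) = (s : Y) * t * (s : Y)⁻¹ :=
    fun _ _ => rfl
  have hmod := hS.card_modEq_card_fixedPoints T
  obtain ⟨c, hc⟩ := (IsPGroup.iff_card).mp hT
  have hle81 := card_five_le hV hf T hT
  have hex : ∃ t : T, t ≠ 1 ∧ t ∈ MulAction.fixedPoints (Subgroup.zpowers z) T := by
    by_contra hcon
    push Not at hcon
    have hfp : MulAction.fixedPoints (Subgroup.zpowers z) T = {1} := by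
      ext t
      constructor
      · intro ht
        by_contra h
        exact hcon t h ht
      · intro ht
        rw [Set.mem_singleton_iff] at ht
        subst ht
        intro s
        apply Subtype.ext
        rw [hsm]
        simp
    rw [hfp, hc] at hmod
    have h1 : Nat.card (({1} : Set T)) = 1 := by
      rw [Nat.card_coe_set_eq, Set.ncard_singleton]
    rw [h1] at hmod
    have hc1 : c ≠ 0 := by
      intro h0
      apply hT1
      apply Subgroup.eq_bot_of_card_eq
      rw [hc, h0, pow_zero]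
    have hc3 : c < 3 := by
      by_contra h
      push Not at h
      have : 5 ^ 3 ≤ 5 ^ c := Nat.pow_le_pow_right (by norm_num) h
      rw [hc] at hle81
      omega
    interval_cases c
    · exact hc1 rfl
    · exact absurd hmod (by decide)
    · exact absurd hmod (by decide)
  obtain ⟨t, ht1, htfix⟩ := hex
  have hcomm : z * (t : Y) * z⁻¹ = (t : Y) :=
    congrArg Subtype.val (htfix ⟨z, Subgroup.mem_zpowers z⟩)
  refine no_five_normalizes_thirteen hV hf (Subgroup.zpowers (t : Y)) (Subgroup.zpowers z)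
    (hT.to_le (Subgroup.zpowers_le.mpr t.2))
    (by rw [Ne, Subgroup.zpowers_eq_bot]; exact fun h => ht1 (Subtype.ext h)) hS hS1 ?_
  apply Subgroup.zpowers_le.mpr
  apply Subgroup.centralizer_le_normalizer
  rw [Subgroup.mem_centralizer_iff]
  intro m hm
  obtain ⟨k, rfl⟩ := Subgroup.mem_zpowers_iff.mp hm
  have hc' : Commute z (t : Y) := mul_inv_eq_iff_eq_mul.mp hcomm
  exact (hc'.zpow_left k).eq

/-- The core of NO65 for a faithful action by automorphisms. -/
theorem no65_core [Group.IsSolvable Y] (hV : Nat.card V = 81)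
    (hf : ∀ y : Y, (∀ v : V, y • v = v) → y = 1) : ¬ (65 ∣ Nat.card Y) := by
  intro h65
  haveI : Fact (Nat.Prime 5) := ⟨by norm_num⟩
  haveI : Fact (Nat.Prime 13) := ⟨by norm_num⟩
  have h5 : 5 ∣ Nat.card Y := dvd_trans (by norm_num) h65
  have h13 : 13 ∣ Nat.card Y := dvd_trans (by norm_num) h65
  have hY0 : Nat.card Y ≠ 0 := Nat.card_pos.ne'
  obtain ⟨a, n1, hn1, e1⟩ := Nat.exists_eq_pow_mul_and_not_dvd hY0 5 (by norm_num)
  have hn10 : n1 ≠ 0 := by
    rintro rfl
    exact hn1 (dvd_zero 5)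
  obtain ⟨b, n2, hn2, e2⟩ := Nat.exists_eq_pow_mul_and_not_dvd hn10 13 (by norm_num)
  have hn2' : ¬ 5 ∣ n2 := fun h => hn1 (by rw [e2]; exact dvd_mul_of_dvd_right h _)
  have hcard : Nat.card Y = (5 ^ a * 13 ^ b) * n2 := by rw [e1, e2, mul_assoc]
  have hcop : Nat.Coprime (5 ^ a * 13 ^ b) n2 := by
    apply Nat.Coprime.mul_left
    · exact Nat.Coprime.pow_left _ ((Nat.Prime.coprime_iff_not_dvd (by norm_num)).mpr hn2')
    · exact Nat.Coprime.pow_left _ ((Nat.Prime.coprime_iff_not_dvd (by norm_num)).mpr hn2)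
  have ha : a ≠ 0 := by
    rintro rfl
    rw [e1, pow_zero, one_mul] at h5
    exact hn1 h5
  have hb : b ≠ 0 := by
    rintro rfl
    rw [hcard, pow_zero, mul_one] at h13
    rcases (Nat.Prime.dvd_mul (by norm_num)).mp h13 with h | h
    · have := (Nat.Prime.dvd_of_dvd_pow (by norm_num) h)
      omega
    · exact hn2 h
  obtain ⟨H, hH⟩ := Cfsg.Agent.H1.hall_exists (G := Y) _ _ hcard hcop
  have h5H : 5 ∣ Nat.card H := by
    rw [hH]; exact dvd_mul_of_dvd_left (dvd_pow_self 5 ha) _
  have h13H : 13 ∣ Nat.card H := by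
    rw [hH]; exact dvd_mul_of_dvd_right (dvd_pow_self 13 hb) _
  haveI : Nontrivial H := (Finite.one_lt_card_iff_nontrivial).mp (by
    have := Nat.le_of_dvd Nat.card_pos h5H
    omega)
  obtain ⟨r, M, hr, hMn, hM1, hMr⟩ := Cfsg.Agent.H1.exists_normal_pgroup (G := H)
  haveI := hMn
  -- conjugation by elements of `H` preserves the image of `M`
  have hnorm : ∀ g : H, (g : Y) ∈ Subgroup.normalizer ((M.map H.subtype : Subgroup Y) : Set Y) := by
    have h1 : ∀ g : H, ∀ s ∈ M.map H.subtype, (g : Y) * s * (g : Y)⁻¹ ∈ M.map H.subtype := by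
      rintro g _ ⟨m, hm, rfl⟩
      exact ⟨g * m * g⁻¹, hMn.conj_mem m hm g, rfl⟩
    intro g
    rw [Subgroup.mem_normalizer_iff]
    intro s
    constructor
    · exact h1 g s
    · intro hs
      have := h1 g⁻¹ _ hs
      have e : ((g⁻¹ : H) : Y) * ((g : Y) * s * (g : Y)⁻¹) * ((g⁻¹ : H) : Y)⁻¹ = s := by
        simp [mul_assoc]
      rwa [e] at this
  have hMmap1 : M.map H.subtype ≠ ⊥ := by
    rw [Ne, Subgroup.map_eq_bot_iff_of_injective _ (Subgroup.subtype_injective H)]
    exact hM1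
  -- `r ∈ {5, 13}`
  haveI : Fact r.Prime := ⟨hr⟩
  obtain ⟨k, hk⟩ := (IsPGroup.iff_card).mp hMr
  have hk0 : k ≠ 0 := by
    rintro rfl
    exact hM1 (Subgroup.eq_bot_of_card_eq _ (by rw [hk, pow_zero]))
  have hrdvd : r ∣ 5 ^ a * 13 ^ b := by
    rw [← hH]
    exact dvd_trans (dvd_trans (dvd_pow_self r hk0) (by rw [← hk])) (Subgroup.card_subgroup_dvd_card M)
  have hr' : r = 5 ∨ r = 13 := by
    rcases (Nat.Prime.dvd_mul hr).mp hrdvd with h | h
    · left
      exact (Nat.prime_dvd_prime_iff_eq hr (by norm_num)).mp (hr.dvd_of_dvd_pow h)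
    · right
      exact (Nat.prime_dvd_prime_iff_eq hr (by norm_num)).mp (hr.dvd_of_dvd_pow h)
  rcases hr' with rfl | rfl
  · -- a normal `5`-subgroup, normalized by an element of order 13
    obtain ⟨z, hz⟩ := exists_prime_orderOf_dvd_card' (G := H) 13 h13H
    have hz1 : (z : Y) ≠ 1 := by
      intro h
      have : z = 1 := Subtype.ext h
      rw [this, orderOf_one] at hz
      omega
    have hz13 : (z : Y) ^ 13 = 1 := by
      have := pow_orderOf_eq_one z
      rw [hz] at this
      exact_mod_cast congrArg Subtype.val this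
    exact no_thirteen_normalizes_five hV hf (z : Y) hz1 hz13 (M.map H.subtype)
      (hMr.map H.subtype) hMmap1 (hnorm z)
  · -- a normal `13`-subgroup, normalized by an element of order 5
    obtain ⟨x, hx⟩ := exists_prime_orderOf_dvd_card' (G := H) 5 h5H
    have hx1 : (x : Y) ≠ 1 := by
      intro h
      have : x = 1 := Subtype.ext h
      rw [this, orderOf_one] at hx
      omega
    have hxo : orderOf (x : Y) = 5 := by rw [Subgroup.orderOf_coe, hx]
    exact no_five_normalizes_thirteen hV hf (Subgroup.zpowers (x : Y)) (M.map H.subtype)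
      (IsPGroup.of_card (n := 1) (by rw [Nat.card_zpowers, hxo, pow_one]))
      (by rw [Ne, Subgroup.zpowers_eq_bot]; exact hx1) (hMr.map H.subtype) hMmap1
      (Subgroup.zpowers_le.mpr (hnorm x))

end Core

/-- **S4025, piece NO65.** -/
theorem no65 : No65Stmt.{u, v} := by
  intro Y _ _ hsol V _ hV φ hφ
  haveI := hsol
  letI : MulDistribMulAction Y V := MulDistribMulAction.compHom V φ
  refine no65_core (Y := Y) (V := V) hV ?_
  intro y hy
  apply hφ
  rw [map_one]
  ext v
  exact hy v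

end Cfsg.Agent.H16.Sa
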