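import Cfsg.Agent.H64.TmDefs

set_option autoImplicit false

/-!
# helper16: TM-SWAP for helper64 (S3701): the symmetry `(a,b,c,x,y) ↦ (a,c,b,y,x)`
-/

namespace Cfsg.Agent.H16.Tm

open Cfsg Subgroup Cfsg.Agent.H64.Tm

universe u

theorem swap : StSwap.{u} := by
  intro G _ _ H T a b c x y cfg
  have hbc : ∀ j k : ℕ, b ^ j * c ^ k = c ^ k * b ^ j := fun j k =>
    (Commute.pow_pow (show Commute b c from cfg.bc) j k).eq
  refine
    { cardT := cfg.cardT
      cardH := cfg.cardH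
      TH := cfg.TH
      aT := cfg.aT
      bT := cfg.cT
      cT := cfg.bT
      xH := cfg.yH
      yH := cfg.xH
      a3 := cfg.a3
      b3 := cfg.c3
      c3 := cfg.b3
      ab := cfg.ac
      ac := cfg.ab
      bc := cfg.bc.symm
      x2 := cfg.y2
      y2 := cfg.x2
      xy := cfg.xy.symm
      xa := cfg.ya
      xb := cfg.yc
      xc := cfg.yb
      ya := cfg.xa
      yb := cfg.xc
      yc := cfg.xb
      Telts := ?_
      indep := ?_
      Helts := ?_
      xT := cfg.yT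
      yT := cfg.xT
      xyT := ?_
      norm := cfg.norm
      loc := cfg.loc }
  · intro t ht
    obtain ⟨i, j, k, rfl⟩ := cfg.Telts t ht
    exact ⟨i, k, j, by rw [mul_assoc, hbc, ← mul_assoc]⟩
  · intro i j k h
    have h' : a ^ i * b ^ k * c ^ j = 1 := by rw [mul_assoc, hbc, ← mul_assoc]; exact h
    obtain ⟨h1, h2, h3⟩ := cfg.indep i k j h'
    exact ⟨h1, h3, h2⟩
  · intro h hh
    obtain ⟨t, ht, h1 | h1 | h1 | h1⟩ := cfg.Helts h hh
    · exact ⟨t, ht, Or.inl h1⟩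
    · exact ⟨t, ht, Or.inr (Or.inr (Or.inl h1))⟩
    · exact ⟨t, ht, Or.inr (Or.inl h1)⟩
    · exact ⟨t, ht, Or.inr (Or.inr (Or.inr (by rw [← cfg.xy]; exact h1)))⟩
  · rw [← cfg.xy]; exact cfg.xyT

end Cfsg.Agent.H16.Tm
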