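import Cfsg.Agent.H64.TmDefs

set_option autoImplicit false

/-!
# helper16: TM-TI for helper64 (S3701): `S₁` is a TI-set with normalizer `H`
-/

namespace Cfsg.Agent.H16.Tm

open Cfsg Subgroup Cfsg.Agent.H64.Tm

universe u

theorem ti (hS : StS1.{u}) (hT : StTIT.{u}) : StTI.{u} := by
  intro G _ _ H T a b c x y cfg s hs g hg
  obtain ⟨-, -, -, h4, -⟩ := hS G H T a b c x y cfg
  obtain ⟨h5, h6⟩ := h4 s hs
  obtain ⟨h7, -⟩ := h4 _ hg
  apply hT G H T a b c x y cfg (s * s) h5 h6 g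
  have : g * (s * s) * g⁻¹ = g * s * g⁻¹ * (g * s * g⁻¹) := by group
  rw [this]
  exact h7

end Cfsg.Agent.H16.Tm
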