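import Cfsg.Agent.H64.TmDefs

set_option autoImplicit false

/-!
# helper16: TM-TIT for helper64 (S3701): `T` is a TI-subgroup with normalizer `H`
-/

namespace Cfsg.Agent.H16.Tm

open Cfsg Subgroup Cfsg.Agent.H64.Tm

universe u

/-- `T` is abelian. -/
theorem T_comm {G : Type u} [Group G] {H T : Subgroup G} {a b c x y : G}
    (cfg : Cfg G H T a b c x y) : ∀ s ∈ T, ∀ t ∈ T, s * t = t * s := by
  intro s hs t ht
  obtain ⟨i, j, k, rfl⟩ := cfg.Telts s hs
  obtain ⟨i', j', k', rfl⟩ := cfg.Telts t ht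
  have hab : Commute a b := cfg.ab
  have hac : Commute a c := cfg.ac
  have hbc : Commute b c := cfg.bc
  have ca : Commute a (a ^ i' * b ^ j' * c ^ k') :=
    (((Commute.refl a).pow_right i').mul_right (hab.pow_right j')).mul_right (hac.pow_right k')
  have cb : Commute b (a ^ i' * b ^ j' * c ^ k') :=
    ((hab.symm.pow_right i').mul_right ((Commute.refl b).pow_right j')).mul_right
      (hbc.pow_right k')
  have cc : Commute c (a ^ i' * b ^ j' * c ^ k') :=
    ((hac.symm.pow_right i').mul_right (hbc.symm.pow_right j')).mul_right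
      ((Commute.refl c).pow_right k')
  exact (((ca.pow_left i).mul_left (cb.pow_left j)).mul_left (cc.pow_left k)).eq

/-- An element `t₀ * e` of 3-power order, `e` an involution normalizing `T`, has `e ∈ T`. -/
theorem inv_mem_T {G : Type u} [Group G] {T : Subgroup G} {e t0 : G}
    (he : e ∈ normalizer (T : Set G)) (he2 : e * e = 1) (ht0 : t0 ∈ T)
    (hp : (t0 * e) ^ 27 = 1) : e ∈ T := by
  have hei : e⁻¹ = e := inv_eq_of_mul_eq_one_right he2
  have h1 : e * t0 * e⁻¹ ∈ T := (mem_normalizer_iff.1 he t0).1 ht0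
  have h2 : t0 * e * (t0 * e) ∈ T := by
    have : t0 * e * (t0 * e) = t0 * (e * t0 * e⁻¹) := by
      rw [hei]; group
    rw [this]
    exact T.mul_mem ht0 h1
  have h3 : (t0 * e * (t0 * e)) ^ 13 * (t0 * e) = 1 := by
    rw [← pow_two, ← pow_mul, ← pow_succ]
    exact hp
  have h4 : t0 * e = ((t0 * e * (t0 * e)) ^ 13)⁻¹ := eq_inv_of_mul_eq_one_right h3
  have h5 : t0 * e ∈ T := by
    rw [h4]
    exact T.inv_mem (T.pow_mem h2 13)
  have h6 : e = t0⁻¹ * (t0 * e) := by group
  rw [h6]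
  exact T.mul_mem (T.inv_mem ht0) h5

/-- Elements of `H` of 3-power order lie in `T`. -/
theorem three_mem_T {G : Type u} [Group G] {H T : Subgroup G} {a b c x y : G}
    (cfg : Cfg G H T a b c x y) : ∀ h ∈ H, h ^ 27 = 1 → h ∈ T := by
  intro h hh hp
  have hxN : x ∈ normalizer (T : Set G) := by rw [cfg.norm]; exact cfg.xH
  have hyN : y ∈ normalizer (T : Set G) := by rw [cfg.norm]; exact cfg.yH
  have hxyN : x * y ∈ normalizer (T : Set G) := by
    rw [cfg.norm]; exact H.mul_mem cfg.xH cfg.yH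
  have hxyxy : x * y * (x * y) = 1 := by
    calc x * y * (x * y) = x * (y * x) * y := by group
      _ = x * (x * y) * y := by rw [← cfg.xy]
      _ = (x * x) * (y * y) := by group
      _ = 1 := by rw [cfg.x2, cfg.y2, mul_one]
  obtain ⟨t0, ht0, h1 | h1 | h1 | h1⟩ := cfg.Helts h hh
  · rw [h1]; exact ht0
  · rw [h1] at hp
    exact absurd (inv_mem_T hxN cfg.x2 ht0 hp) cfg.xT
  · rw [h1] at hp
    exact absurd (inv_mem_T hyN cfg.y2 ht0 hp) cfg.yT
  · rw [h1] at hp
    exact absurd (inv_mem_T hxyN hxyxy ht0 hp) cfg.xyT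

theorem tit : StTIT.{u} := by
  intro G _ _ H T a b c x y cfg t ht ht1 g hg
  have hne : g * t * g⁻¹ ≠ 1 := by
    intro h
    exact ht1 (conj_eq_one_iff.1 h)
  have hloc := cfg.loc _ hg hne
  have hcard27 : ∀ s ∈ T, s ^ 27 = 1 := by
    intro s hs
    have h1 : (⟨s, hs⟩ : ↥T) ^ Nat.card ↥T = 1 := pow_card_eq_one'
    rw [cfg.cardT] at h1
    exact congrArg Subtype.val h1
  have hconj : ∀ s ∈ T, g * s * g⁻¹ ∈ T := by
    intro s hs
    apply three_mem_T cfg
    · apply hloc
      rw [mem_centralizer_iff]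
      intro h hh
      rw [Set.mem_singleton_iff] at hh
      rw [hh]
      calc g * t * g⁻¹ * (g * s * g⁻¹) = g * (t * s) * g⁻¹ := by group
        _ = g * (s * t) * g⁻¹ := by rw [T_comm cfg t ht s hs]
        _ = g * s * g⁻¹ * (g * t * g⁻¹) := by group
    · rw [conj_pow, hcard27 s hs, mul_one, mul_inv_cancel]
  rw [← cfg.norm, mem_normalizer_iff]
  intro s
  refine ⟨hconj s, ?_⟩
  intro hs
  -- the injective map `s ↦ g s g⁻¹` of the finite set `T` is surjective
  have hinj : Function.Injective (fun s : ↥T => (⟨g * s.1 * g⁻¹, hconj s.1 s.2⟩ : ↥T)) := by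
    intro s1 s2 h
    have h' : g * s1.1 * g⁻¹ = g * s2.1 * g⁻¹ := congrArg Subtype.val h
    apply Subtype.ext
    exact mul_left_cancel (mul_right_cancel h')
  obtain ⟨s', hs'⟩ := (Finite.injective_iff_surjective.1 hinj) ⟨g * s * g⁻¹, hs⟩
  have h'' : g * s'.1 * g⁻¹ = g * s * g⁻¹ := congrArg Subtype.val hs'
  have : s'.1 = s := mul_left_cancel (mul_right_cancel h'')
  rw [← this]
  exact s'.2

end Cfsg.Agent.H16.Tm
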