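import Cfsg.Agent.H64.TmDefs

set_option autoImplicit false

/-!
# helper16: TM-VALS for helper64 (S3701)
-/

namespace Cfsg.Agent.H16.Tm

open Cfsg Subgroup Cfsg.Agent.H64.Tm

universe u

theorem vals (hS : StS1.{u}) : StVals.{u} := by
  intro G _ _ H T a b c x y cfg
  obtain ⟨-, -, -, h4, -⟩ := hS G H T a b c x y cfg
  refine ⟨?_, ?_⟩
  · refine ⟨1, ?_⟩
    rw [one_mul, inv_one, mul_one]
    exact ⟨1, one_mem _, Or.inl (mul_one c).symm⟩
  · intro z hz hzS
    obtain ⟨r, hr⟩ := hzS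
    have h5 := (h4 _ hr).2
    apply h5
    calc r * z * r⁻¹ * (r * z * r⁻¹) = r * (z * z) * r⁻¹ := by group
      _ = 1 := by rw [hz, mul_one, mul_inv_cancel]

end Cfsg.Agent.H16.Tm
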