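import Cfsg.Agent.H64.TmDefs

set_option autoImplicit false

/-!
# helper16: TM-YPAIRS for helper64 (S3701)
-/

namespace Cfsg.Agent.H16.Tm

open Cfsg Subgroup Cfsg.Agent.H64.Tm

universe u

theorem c_mem_S1G {G : Type u} [Group G] (a b c x : G) : c ∈ S1G a b c x := by
  refine ⟨1, ?_⟩
  rw [one_mul, inv_one, mul_one]
  exact ⟨1, one_mem _, Or.inl (mul_one c).symm⟩

theorem yPairs : StYPairs.{u} := by
  intro G _ _ H T a b c x y cfg
  have h3 : c * c * c = 1 := by rw [← pow_three']; exact cfg.c3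
  have hc2 : c⁻¹ * c⁻¹ = c := by
    calc c⁻¹ * c⁻¹ = c⁻¹ * c⁻¹ * (c * c * c) := by rw [h3, mul_one]
      _ = c := by group
  have hxci : x * c⁻¹ = c⁻¹ * x := by
    calc x * c⁻¹ = c⁻¹ * (c * x) * c⁻¹ := by group
      _ = c⁻¹ * (x * c) * c⁻¹ := by rw [cfg.xc]
      _ = c⁻¹ * x := by group
  have hxyxy : x * y * (x * y) = 1 := by
    calc x * y * (x * y) = x * (y * x) * y := by group
      _ = x * (x * y) * y := by rw [← cfg.xy]
      _ = (x * x) * (y * y) := by group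
      _ = 1 := by rw [cfg.x2, cfg.y2, mul_one]
  have e1 : y * (c * y * c⁻¹) = c := by
    calc y * (c * y * c⁻¹) = (y * c) * y * c⁻¹ := by group
      _ = c⁻¹ * (y * y) * c⁻¹ := by rw [cfg.yc]; group
      _ = c := by rw [cfg.y2, mul_one, hc2]
  have e2 : x * y * (c * (x * y) * c⁻¹) = c := by
    calc x * y * (c * (x * y) * c⁻¹) = x * (y * c) * (x * y) * c⁻¹ := by group
      _ = (x * c⁻¹) * y * (x * y) * c⁻¹ := by rw [cfg.yc]; group
      _ = c⁻¹ * (x * y * (x * y)) * c⁻¹ := by rw [hxci]; group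
      _ = c := by rw [hxyxy, mul_one, hc2]
  refine ⟨⟨y, c * y * c⁻¹, IsConj.refl y, isConj_iff.2 ⟨c, rfl⟩, ?_⟩,
    ⟨x * y, c * (x * y) * c⁻¹, IsConj.refl _, isConj_iff.2 ⟨c, rfl⟩, ?_⟩⟩
  · rw [e1]; exact c_mem_S1G a b c x
  · rw [e2]; exact c_mem_S1G a b c x

end Cfsg.Agent.H16.Tm
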