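import Mathlib
import Cfsg.Agent.H72.ZasDefs
import Cfsg.Agent.S0016

set_option autoImplicit false

/-! helper16: piece S0690-SYL of helper72's team project S0690 (Zassenhaus):
`p`-subgroups are cyclic or generalized quaternion; centralizers of elements of order 4 have
cyclic Sylow subgroups; a perfect group has quaternion Sylow 2-subgroups. -/

namespace Cfsg.Agent.H16.Zas

open Cfsg.Agent.H72.Zas

universe u

/-- In a cyclic group, the elements of order dividing `p` all lie in any subgroup of order
`p`. -/
theorem mem_of_pow_prime_cyclic {G : Type u} [Group G] [Finite G] {p : ℕ} (hp : p.Prime)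
    (Z L : Subgroup G) [IsCyclic Z] (hLZ : L ≤ Z) (hL : Nat.card L = p) {z : G} (hz : z ∈ Z)
    (hzp : z ^ p = 1) : z ∈ L := by
  classical
  have hFZ : Fintype Z := Fintype.ofFinite Z
  have hS : (Finset.univ.filter (fun a : Z => a ^ p = 1)).card ≤ p :=
    IsCyclic.card_pow_eq_one_le hp.pos
  have hTS : Finset.univ.filter (fun a : Z => (a : G) ∈ L) ⊆
      Finset.univ.filter (fun a : Z => a ^ p = 1) := by
    intro a ha
    rw [Finset.mem_filter] at ha ⊢
    refine ⟨Finset.mem_univ _, ?_⟩
    apply Subtype.ext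
    have h1 : (⟨(a : G), ha.2⟩ : L) ^ Nat.card L = 1 := pow_card_eq_one'
    rw [hL] at h1
    simpa using congrArg Subtype.val h1
  have hT : (Finset.univ.filter (fun a : Z => (a : G) ∈ L)).card = p := by
    rw [← hL, ← Nat.card_congr (Subgroup.subgroupOfEquivOfLe hLZ).toEquiv,
      Nat.card_eq_fintype_card, Fintype.card_subtype]
    rfl
  have hEq := Finset.eq_of_subset_of_card_le hTS (by rw [hT]; exact hS)
  have hmem : (⟨z, hz⟩ : Z) ∈ Finset.univ.filter (fun a : Z => a ^ p = 1) := by
    rw [Finset.mem_filter]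
    refine ⟨Finset.mem_univ _, ?_⟩
    apply Subtype.ext
    simpa using hzp
  rw [← hEq, Finset.mem_filter] at hmem
  exact hmem.2

/-- Two commuting elements of the same prime order generate the same subgroup. -/
theorem mem_zpowers_of_commute {G : Type u} [Group G] [Finite G] (hax : ZasAx G) {p : ℕ}
    (hp : p.Prime) {x y : G} (hxy : x * y = y * x) (hx : orderOf x = p) (hy : orderOf y = p) :
    y ∈ Subgroup.zpowers x := by
  have hk : ∀ a ∈ ({x, y} : Set G), ∀ b ∈ ({x, y} : Set G), a * b = b * a := by
    rintro a (rfl | rfl) b (rfl | rfl)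
    · rfl
    · exact hxy
    · exact hxy.symm
    · rfl
  have hcomm : ∀ a ∈ Subgroup.closure ({x, y} : Set G),
      ∀ b ∈ Subgroup.closure ({x, y} : Set G), a * b = b * a := by
    intro a ha b hb
    haveI := Subgroup.isMulCommutative_closure hk
    have := mul_comm' (⟨a, ha⟩ : Subgroup.closure ({x, y} : Set G)) ⟨b, hb⟩
    exact congrArg Subtype.val this
  haveI : IsCyclic (Subgroup.closure ({x, y} : Set G)) := hax.ab _ hcomm
  have hxC : x ∈ Subgroup.closure ({x, y} : Set G) := Subgroup.subset_closure (by simp)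
  have hyC : y ∈ Subgroup.closure ({x, y} : Set G) := Subgroup.subset_closure (by simp)
  refine mem_of_pow_prime_cyclic hp
    (Subgroup.closure ({x, y} : Set G)) (Subgroup.zpowers x) ?_ ?_ hyC ?_
  · rw [Subgroup.zpowers_le]; exact hxC
  · rw [Nat.card_zpowers, hx]
  · rw [← hy]; exact pow_orderOf_eq_one y

theorem part1 {G : Type u} [Group G] [Finite G] (hax : ZasAx G) (p : ℕ) [hp : Fact p.Prime]
    (H : Subgroup G) (hH : IsPGroup p H) :
    IsCyclic H ∨ (p = 2 ∧ ∃ n : ℕ, 1 ≤ n ∧ Nonempty (H ≃* QuaternionGroup (2 ^ n))) := by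
  have huniq : ∀ A B : Subgroup H, Nat.card A = p → Nat.card B = p → A = B := by
    rcases subsingleton_or_nontrivial H with hs | hn
    · intro A B _ _
      exact Subsingleton.elim A B
    · haveI := hH.center_nontrivial
      obtain ⟨z, hz⟩ := exists_ne (1 : Subgroup.center H)
      obtain ⟨k, hk⟩ := (IsPGroup.iff_orderOf.1 hH) (z : H)
      have hk0 : k ≠ 0 := by
        rintro rfl
        rw [pow_zero, orderOf_eq_one_iff] at hk
        exact hz (Subtype.ext hk)
      have hz₀ord : orderOf ((z : H) ^ (p ^ (k - 1))) = p := by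
        have hdvd : p ^ (k - 1) ∣ orderOf (z : H) := by
          rw [hk]; exact pow_dvd_pow p (Nat.sub_le k 1)
        rw [orderOf_pow_of_dvd (pow_ne_zero _ hp.out.ne_zero) hdvd, hk]
        have : p ^ k = p ^ (k - 1) * p := by
          rw [← pow_succ]; congr 1; omega
        rw [this, Nat.mul_div_cancel_left _ (pow_pos hp.out.pos _)]
      have hz₀c : ∀ h : H, (z : H) ^ (p ^ (k - 1)) * h = h * (z : H) ^ (p ^ (k - 1)) := by
        intro h
        have h1 : Commute (z : H) h := (Subgroup.mem_center_iff.1 z.2 h).symm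
        exact (h1.pow_left _).eq
      have key : ∀ A : Subgroup H, Nat.card A = p →
          A = Subgroup.zpowers ((z : H) ^ (p ^ (k - 1))) := by
        intro A hA
        apply Subgroup.eq_of_le_of_card_ge
        · intro a ha
          by_cases ha1 : a = 1
          · rw [ha1]; exact one_mem _
          · have hord : orderOf a = p := by
              have h1 : orderOf (⟨a, ha⟩ : A) ∣ Nat.card A := orderOf_dvd_natCard _
              rw [hA] at h1
              have h2 : orderOf (⟨a, ha⟩ : A) = orderOf a := by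
                rw [← Subgroup.orderOf_coe]
              rcases (Nat.dvd_prime hp.out).1 h1 with h3 | h3
              · exfalso; rw [h2, orderOf_eq_one_iff] at h3; exact ha1 h3
              · rw [← h2]; exact h3
            have hG : (a : G) ∈ Subgroup.zpowers ((((z : H) ^ (p ^ (k - 1)) : H)) : G) :=
              mem_zpowers_of_commute hax hp.out
                (by have := hz₀c a; exact congrArg Subtype.val this)
                (by rw [Subgroup.orderOf_coe]; exact hz₀ord)
                (by rw [Subgroup.orderOf_coe]; exact hord)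
            obtain ⟨m, hm⟩ := Subgroup.mem_zpowers_iff.1 hG
            rw [Subgroup.mem_zpowers_iff]
            exact ⟨m, Subtype.ext (by rw [Subgroup.coe_zpow]; exact hm)⟩
        · rw [Nat.card_zpowers, hz₀ord, hA]
      intro A B hA hB
      rw [key A hA, key B hB]
  rcases Cfsg.Agent.S0016.result p hH huniq with h | ⟨h2, n, hn⟩
  · exact Or.inl h
  · rcases Nat.eq_zero_or_pos n with h0 | h0
    · subst h0
      left
      obtain ⟨e⟩ := hn
      haveI : IsCyclic (QuaternionGroup (2 ^ 0)) := by
        rw [pow_zero]; exact QuaternionGroup.quaternionGroup_one_isCyclic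
      exact (MulEquiv.isCyclic e).2 inferInstance
    · exact Or.inr ⟨h2, n, h0, hn⟩

theorem quaternion_no_central_four (n : ℕ) (hn : 1 ≤ n) (g : QuaternionGroup (2 ^ n))
    (hg : orderOf g = 4) (hc : ∀ q : QuaternionGroup (2 ^ n), q * g = g * q) : False := by
  haveI : NeZero (2 ^ n) := ⟨by positivity⟩
  cases g with
  | a i =>
    have h1 := hc (QuaternionGroup.xa 0)
    rw [QuaternionGroup.xa_mul_a, QuaternionGroup.a_mul_xa] at h1
    have h2 : i + i = 0 := by
      have := QuaternionGroup.xa.inj h1
      linear_combination this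
    have h3 : (QuaternionGroup.a i : QuaternionGroup (2 ^ n)) ^ 2 = 1 := by
      rw [pow_two, QuaternionGroup.a_mul_a, h2]; rfl
    have h4 := orderOf_dvd_of_pow_eq_one h3
    rw [hg] at h4
    norm_num at h4
  | xa i =>
    have h1 := hc (QuaternionGroup.a 1)
    rw [QuaternionGroup.a_mul_xa, QuaternionGroup.xa_mul_a] at h1
    have h2 : (2 : ZMod (2 * 2 ^ n)) = 0 := by
      have := QuaternionGroup.xa.inj h1
      linear_combination -this
    have h3 : ((2 : ℕ) : ZMod (2 * 2 ^ n)) = 0 := by exact_mod_cast h2
    rw [ZMod.natCast_eq_zero_iff] at h3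
    have h4 : 2 * 2 ^ n ≤ 2 := Nat.le_of_dvd (by norm_num) h3
    have h5 : 2 ≤ 2 ^ n := by
      calc 2 = 2 ^ 1 := rfl
        _ ≤ 2 ^ n := Nat.pow_le_pow_right (by norm_num) hn
    omega

theorem part2 {G : Type u} [Group G] [Finite G] (hax : ZasAx G) (t : G) (ht : orderOf t = 4)
    (p : ℕ) [Fact p.Prime] (P : Sylow p (Subgroup.centralizer ({t} : Set G))) : IsCyclic P := by
  have hPG : IsPGroup p ((P : Subgroup (Subgroup.centralizer ({t} : Set G))).map
      (Subgroup.centralizer ({t} : Set G)).subtype) := P.isPGroup'.map _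
  have e : (P : Subgroup (Subgroup.centralizer ({t} : Set G))) ≃*
      ((P : Subgroup (Subgroup.centralizer ({t} : Set G))).map
        (Subgroup.centralizer ({t} : Set G)).subtype) :=
    (P : Subgroup (Subgroup.centralizer ({t} : Set G))).equivMapOfInjective _
      (Subgroup.centralizer ({t} : Set G)).subtype_injective
  rcases part1 hax p _ hPG with h | ⟨h2, n, hn1, ⟨f⟩⟩
  · exact (MulEquiv.isCyclic e).2 h
  · exfalso
    subst h2
    have htC : t ∈ Subgroup.centralizer ({t} : Set G) := by
      rw [Subgroup.mem_centralizer_iff]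
      intro h hh
      rw [Set.mem_singleton_iff] at hh
      rw [hh]
    have ht'c : ∀ c : Subgroup.centralizer ({t} : Set G),
        c * (⟨t, htC⟩ : Subgroup.centralizer ({t} : Set G)) = ⟨t, htC⟩ * c := by
      intro c
      apply Subtype.ext
      have := Subgroup.mem_centralizer_iff.1 c.2 t (Set.mem_singleton t)
      exact this.symm
    haveI : (Subgroup.zpowers (⟨t, htC⟩ : Subgroup.centralizer ({t} : Set G))).Normal := by
      refine ⟨fun x hx g => ?_⟩
      have : g * x * g⁻¹ = x := by
        obtain ⟨m, rfl⟩ := Subgroup.mem_zpowers_iff.1 hx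
        have h1 : Commute g ((⟨t, htC⟩ : Subgroup.centralizer ({t} : Set G)) ^ m) :=
          Commute.zpow_right (ht'c g) m
        rw [h1.eq, mul_inv_cancel_right]
      rw [this]; exact hx
    have ht'ord : orderOf (⟨t, htC⟩ : Subgroup.centralizer ({t} : Set G)) = 4 := by
      rw [← Subgroup.orderOf_coe]; exact ht
    have hzp : IsPGroup 2 (Subgroup.zpowers (⟨t, htC⟩ : Subgroup.centralizer ({t} : Set G))) := by
      apply IsPGroup.of_card (n := 2)
      rw [Nat.card_zpowers, ht'ord]; norm_num
    have ht'P : (⟨t, htC⟩ : Subgroup.centralizer ({t} : Set G)) ∈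
        (P : Subgroup (Subgroup.centralizer ({t} : Set G))) :=
      hzp.le_sylow_of_normal P (Subgroup.mem_zpowers _)
    have htP' : t ∈ (P : Subgroup (Subgroup.centralizer ({t} : Set G))).map
        (Subgroup.centralizer ({t} : Set G)).subtype := ⟨⟨t, htC⟩, ht'P, rfl⟩
    have hτc : ∀ y : ((P : Subgroup (Subgroup.centralizer ({t} : Set G))).map
        (Subgroup.centralizer ({t} : Set G)).subtype), y * ⟨t, htP'⟩ = ⟨t, htP'⟩ * y := by
      intro y
      obtain ⟨c, hc, hcy⟩ := y.2
      apply Subtype.ext
      show (y : G) * t = t * (y : G)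
      rw [← hcy]
      exact congrArg Subtype.val (ht'c c)
    have hτord : orderOf (⟨t, htP'⟩ : ((P : Subgroup (Subgroup.centralizer ({t} : Set G))).map
        (Subgroup.centralizer ({t} : Set G)).subtype)) = 4 := by
      rw [← Subgroup.orderOf_coe]; exact ht
    refine quaternion_no_central_four n hn1 (f ⟨t, htP'⟩) ?_ ?_
    · rw [MulEquiv.orderOf_eq]; exact hτord
    · intro q
      have h1 := hτc (f.symm q)
      have h2 := congrArg f h1
      rw [map_mul, map_mul, MulEquiv.apply_symm_apply] at h2
      exact h2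

theorem part3 {G : Type u} [Group G] [Finite G] (hax : ZasAx G) (hperf : commutator G = ⊤)
    [Nontrivial G] (S : Sylow 2 G) :
    ∃ n : ℕ, 1 ≤ n ∧ Nonempty (S ≃* QuaternionGroup (2 ^ n)) := by
  rcases part1 hax 2 (S : Subgroup G) S.isPGroup' with h | ⟨-, n, hn, he⟩
  · exfalso
    haveI : IsZGroup G := by
      refine ⟨fun p hp P => ?_⟩
      haveI : Fact p.Prime := ⟨hp⟩
      rcases part1 hax p (P : Subgroup G) P.isPGroup' with h' | ⟨h2, n, hn, ⟨f⟩⟩
      · exact h'
      · subst h2
        exact (MulEquiv.isCyclic (Sylow.equiv P S)).2 h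
    exact (IsZGroup.commutator_lt (G := G)).ne hperf
  · exact ⟨n, hn, he⟩

theorem syl : StSyl.{u} := by
  intro G _ _ hax
  refine ⟨fun p _ H hH => part1 hax p H hH, fun t ht p _ P => part2 hax t ht p P,
    fun hperf hnt S => ?_⟩
  haveI := hnt
  exact part3 hax hperf S

end Cfsg.Agent.H16.Zas
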